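import Mathlib
import Cfsg.Prelude.Def_Characters
import Cfsg.Agent.Helper25.Bsw2
import Cfsg.Agent.Helper4.IndNormal
import Cfsg.Agent.Helper3.Induced
import Cfsg.Agent.Helper79.Basic

/-!
# Brauer–Suzuki–Wall: the counting step with one irreducible character

Piece CH of helper25's call for S3282.
-/

set_option autoImplicit false

namespace Cfsg.Agent.Helper81

open Cfsg.Agent.Helper25 Subgroup
open scoped ComplexConjugate

/-- A rational algebraic integer is an integer. -/
theorem kb_int_of_rat {z : ℂ} (hint : IsIntegral ℤ z) (r : ℚ) (hr : z = (r : ℂ)) :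
    ∃ m : ℤ, z = (m : ℂ) := by
  have h1 : z = algebraMap ℚ ℂ r := by rw [hr]; rfl
  rw [h1] at hint
  have h2 : IsIntegral ℤ r := (isIntegral_algebraMap_iff (algebraMap ℚ ℂ).injective).1 hint
  obtain ⟨m, hm⟩ := IsIntegrallyClosed.isIntegral_iff.1 h2
  refine ⟨m, ?_⟩
  rw [hr, ← hm]; simp

section count

variable {G : Type*} [Group G] {t s : G} {K : Subgroup G}

/-- `|C(t)| = 2|K|`. -/
theorem kb_card_cent_t [Finite G] (h : BswHyp t s K) :
    Nat.card (centralizer ({t} : Set G)) = 2 * Nat.card K := by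
  classical
  haveI := Fintype.ofFinite G
  have h1 : Nat.card (centralizer ({t} : Set G)) =
      (Finset.univ.filter (fun x : G => x ∈ centralizer ({t} : Set G))).card := by
    rw [Nat.card_eq_fintype_card, Fintype.card_subtype]
  have h2 : Nat.card K = (Finset.univ.filter (fun x : G => x ∈ K)).card := by
    rw [Nat.card_eq_fintype_card, Fintype.card_subtype]
  have h3 : Finset.univ.filter (fun x : G => x ∈ centralizer ({t} : Set G)) =
      Finset.univ.filter (fun x : G => x ∈ K) ∪ Finset.univ.filter (fun x : G => x * s ∈ K) := by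
    ext x
    simp only [Finset.mem_filter, Finset.mem_univ, true_and, Finset.mem_union]
    exact h.mem_cent_t x
  have h4 : Disjoint (Finset.univ.filter (fun x : G => x ∈ K))
      (Finset.univ.filter (fun x : G => x * s ∈ K)) := by
    rw [Finset.disjoint_filter]
    intro x _ hx hxs
    apply h.hsK
    have : s = x⁻¹ * (x * s) := by group
    rw [this]; exact K.mul_mem (K.inv_mem hx) hxs
  have h5 : (Finset.univ.filter (fun x : G => x * s ∈ K)).card =
      (Finset.univ.filter (fun x : G => x ∈ K)).card := by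
    apply Finset.card_bij (fun x _ => x * s)
    · intro x hx
      simp only [Finset.mem_filter, Finset.mem_univ, true_and] at hx ⊢
      exact hx
    · intro x _ y _ hxy; exact mul_right_cancel hxy
    · intro y hy
      simp only [Finset.mem_filter, Finset.mem_univ, true_and] at hy
      refine ⟨y * s⁻¹, ?_, by group⟩
      simp only [Finset.mem_filter, Finset.mem_univ, true_and]
      have : y * s⁻¹ * s = y := by group
      rw [this]; exact hy
  rw [h1, h3, Finset.card_union_of_disjoint h4, h5, ← h2]; ring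

/-- The number of non-identity elements conjugate into `K`. -/
theorem kb_card_cl [Fintype G] (h : BswHyp t s K) (C : Finset G)
    (hC : ∀ g, g ∈ C ↔ g ∈ bswCl K ∧ g ≠ 1) :
    2 * Nat.card K * C.card = Nat.card G * (Nat.card K - 1) := by
  classical
  set KF : Finset G := Finset.univ.filter (fun x : G => x ∈ K) with hKF
  have hKcard : Nat.card K = KF.card := by
    rw [Nat.card_eq_fintype_card, Fintype.card_subtype]
  have hCt := kb_card_cent_t h
  set CF : Finset G := Finset.univ.filter (fun x : G => x ∈ centralizer ({t} : Set G)) with hCF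
  have hCtcard : Nat.card (centralizer ({t} : Set G)) = CF.card := by
    rw [Nat.card_eq_fintype_card, Fintype.card_subtype]
  have key := Finset.sum_card_bipartiteAbove_eq_sum_card_bipartiteBelow
    (s := (Finset.univ : Finset G)) (t := (Finset.univ : Finset G))
    (fun x g => x * g * x⁻¹ ∈ K ∧ g ≠ 1)
  have hL : ∀ x ∈ (Finset.univ : Finset G), ((Finset.univ : Finset G).bipartiteAbove
      (fun x g => x * g * x⁻¹ ∈ K ∧ g ≠ 1) x).card = KF.card - 1 := by
    intro x _
    have h1K : (1 : G) ∈ KF := by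
      rw [hKF, Finset.mem_filter]; exact ⟨Finset.mem_univ _, K.one_mem⟩
    rw [← Finset.card_erase_of_mem h1K]
    apply Finset.card_bij (fun g _ => x * g * x⁻¹)
    · intro g hg
      simp only [Finset.bipartiteAbove, Finset.mem_filter, Finset.mem_univ, true_and] at hg
      simp only [Finset.mem_erase, hKF, Finset.mem_filter, Finset.mem_univ, true_and]
      exact ⟨fun h1 => hg.2 (conj_eq_one_iff.mp h1), hg.1⟩
    · intro g _ g' _ hgg
      have : g = x⁻¹ * (x * g * x⁻¹) * x := by group
      rw [this, hgg]; group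
    · intro y hy
      simp only [Finset.mem_erase, hKF, Finset.mem_filter, Finset.mem_univ, true_and] at hy
      have hxy : x * (x⁻¹ * y * x) * x⁻¹ = y := by group
      refine ⟨x⁻¹ * y * x, ?_, hxy⟩
      simp only [Finset.bipartiteAbove, Finset.mem_filter, Finset.mem_univ, true_and]
      refine ⟨by rw [hxy]; exact hy.2, ?_⟩
      intro h1
      apply hy.1
      rw [← hxy, h1]; group
  have hR : ∀ g ∈ (Finset.univ : Finset G), ((Finset.univ : Finset G).bipartiteBelow
      (fun x g => x * g * x⁻¹ ∈ K ∧ g ≠ 1) g).card = if g ∈ C then CF.card else 0 := by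
    intro g _
    split_ifs with hg
    · obtain ⟨⟨x0, hx0⟩, hg1⟩ := (hC g).mp hg
      have hy1 : x0 * g * x0⁻¹ ≠ 1 := fun h1 => hg1 (conj_eq_one_iff.mp h1)
      apply Finset.card_bij (fun x _ => x * x0⁻¹)
      · intro x hx
        simp only [Finset.bipartiteBelow, Finset.mem_filter, Finset.mem_univ, true_and] at hx
        simp only [hCF, Finset.mem_filter, Finset.mem_univ, true_and]
        apply h.mem_cent_t_of_inter' hx0 hy1
        have : x * x0⁻¹ * (x0 * g * x0⁻¹) * (x * x0⁻¹)⁻¹ = x * g * x⁻¹ := by group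
        rw [this]; exact hx.1
      · intro x _ x' _ hxx; exact mul_right_cancel hxx
      · intro u hu
        simp only [hCF, Finset.mem_filter, Finset.mem_univ, true_and] at hu
        refine ⟨u * x0, ?_, by group⟩
        simp only [Finset.bipartiteBelow, Finset.mem_filter, Finset.mem_univ, true_and]
        refine ⟨?_, hg1⟩
        have : u * x0 * g * (u * x0)⁻¹ = u * (x0 * g * x0⁻¹) * u⁻¹ := by group
        rw [this]
        exact h.conj_mem_of_cent_t (X := K) le_rfl hu hx0
    · rw [Finset.card_eq_zero, Finset.eq_empty_iff_forall_notMem]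
      intro x hx
      simp only [Finset.bipartiteBelow, Finset.mem_filter, Finset.mem_univ, true_and] at hx
      exact hg ((hC g).mpr ⟨⟨x, hx.1⟩, hx.2⟩)
  rw [Finset.sum_congr rfl hL, Finset.sum_congr rfl hR, Finset.sum_const, smul_eq_mul,
    Finset.sum_ite_mem, Finset.univ_inter, Finset.sum_const, smul_eq_mul, Finset.card_univ,
    ← Nat.card_eq_fintype_card, ← hKcard, ← hCtcard, hCt] at key
  rw [key]; ring

end count

/-- The arithmetic core: integer values `m` of the character, with the two orthogonality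
relations. -/
theorem kb_core {G : Type*} [Fintype G] [DecidableEq G] (Cl1 : Finset G) (one : G)
    (h1 : one ∉ Cl1) (m : G → ℤ) (ε k q : ℤ) (hε : ε = 1 ∨ ε = -1) (hk : 2 ≤ k)
    (hq : q = 2 * k + ε) (hG : (Fintype.card G : ℤ) = 2 * k * q * (k + ε))
    (hN1 : 2 * k * (Cl1.card : ℤ) = (Fintype.card G : ℤ) * (k - 1))
    (hm1 : m one = q) (hmCl : ∀ g ∈ Cl1, m g = ε)
    (hsum : ∑ g, m g = 0) (hsq : ∑ g, m g ^ 2 = (Fintype.card G : ℤ)) :
    (∀ g, g ≠ one → g ∉ Cl1 → m g = 0 ∨ m g = -ε) ∧
    (((Finset.univ.filter (fun g => g ≠ one ∧ g ∉ Cl1 ∧ m g = 0)).card : ℤ) = q ^ 2 - 1) := by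
  set S0 : Finset G := (Finset.univ.erase one).filter (fun g => g ∉ Cl1) with hS0
  have hS0mem : ∀ g, g ∈ S0 ↔ g ≠ one ∧ g ∉ Cl1 := by
    intro g; simp [hS0]
  have hdecomp : ∀ F : G → ℤ, ∑ g, F g = F one + (∑ g ∈ Cl1, F g + ∑ g ∈ S0, F g) := by
    intro F
    rw [← Finset.add_sum_erase Finset.univ F (Finset.mem_univ one),
      ← Finset.sum_filter_add_sum_filter_not (Finset.univ.erase one) (fun g => g ∈ Cl1) F]
    congr 2
    apply Finset.sum_congr _ (fun _ _ => rfl)
    ext g
    simp only [Finset.mem_filter, Finset.mem_erase, Finset.mem_univ, and_true]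
    exact ⟨fun hg => hg.2, fun hg => ⟨fun e => h1 (e ▸ hg), hg⟩⟩
  set N1 : ℤ := (Cl1.card : ℤ) with hN1def
  set A : ℤ := ∑ g ∈ S0, m g with hA
  set B : ℤ := ∑ g ∈ S0, m g ^ 2 with hB
  have hε2 : ε ^ 2 = 1 := by rcases hε with rfl | rfl <;> norm_num
  have e1 : q + (ε * N1 + A) = 0 := by
    have := hdecomp m
    rw [hsum, hm1, Finset.sum_congr rfl hmCl, Finset.sum_const, nsmul_eq_mul] at this
    linarith
  have e2 : q ^ 2 + (N1 + B) = (Fintype.card G : ℤ) := by
    have := hdecomp (fun g => m g ^ 2)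
    rw [hsq, hm1, Finset.sum_congr rfl (fun g hg => by rw [hmCl g hg]), Finset.sum_const,
      nsmul_eq_mul, hε2, mul_one] at this
    linarith
  have e3 : 1 + (N1 + (S0.card : ℤ)) = (Fintype.card G : ℤ) := by
    have := hdecomp (fun _ => 1)
    simp only [Finset.sum_const, nsmul_eq_mul, mul_one, Finset.card_univ] at this
    linarith
  have hN1val : N1 = q * (k + ε) * (k - 1) := by
    have h2k : (2 * k) ≠ 0 := by omega
    apply mul_left_cancel₀ h2k
    rw [hN1, hG]; ring
  have hT : ∑ g ∈ S0, m g * (m g + ε) = 0 := by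
    have : ∑ g ∈ S0, m g * (m g + ε) = B + ε * A := by
      rw [hA, hB, Finset.mul_sum, ← Finset.sum_add_distrib]
      apply Finset.sum_congr rfl; intro g _; ring
    rw [this]
    have hA' : A = -q - ε * N1 := by linarith
    have hB' : B = (Fintype.card G : ℤ) - q ^ 2 - N1 := by linarith
    rw [hA', hB', hG, hN1val, hq]
    rcases hε with rfl | rfl <;> ring
  have hnonneg : ∀ g ∈ S0, 0 ≤ m g * (m g + ε) := by
    intro g _
    rcases hε with rfl | rfl
    · rcases le_or_gt 0 (m g) with h0 | h0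
      · exact mul_nonneg h0 (by linarith)
      · nlinarith
    · rcases le_or_gt (m g) 0 with h0 | h0
      · nlinarith
      · exact mul_nonneg (by linarith) (by linarith)
  have hzero := (Finset.sum_eq_zero_iff_of_nonneg hnonneg).mp hT
  have hval : ∀ g ∈ S0, m g = 0 ∨ m g = -ε := by
    intro g hg
    rcases mul_eq_zero.mp (hzero g hg) with h0 | h0
    · exact Or.inl h0
    · exact Or.inr (by linarith)
  refine ⟨fun g hg1 hgC => hval g ((hS0mem g).mpr ⟨hg1, hgC⟩), ?_⟩
  have hfilt : Finset.univ.filter (fun g => g ≠ one ∧ g ∉ Cl1 ∧ m g = 0) =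
      S0.filter (fun g => m g = 0) := by
    ext g
    simp only [Finset.mem_filter, Finset.mem_univ, true_and, hS0mem, and_assoc]
  rw [hfilt]
  have hcard := Finset.card_filter_add_card_filter_not (s := S0) (fun g => m g = 0)
  have hA2 : A = -ε * ((S0.filter (fun g => ¬ m g = 0)).card : ℤ) := by
    rw [hA, ← Finset.sum_filter_add_sum_filter_not S0 (fun g => m g = 0) m]
    have z1 : ∑ g ∈ S0.filter (fun g => m g = 0), m g = 0 :=
      Finset.sum_eq_zero (fun g hg => (Finset.mem_filter.mp hg).2)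
    have z2 : ∑ g ∈ S0.filter (fun g => ¬ m g = 0), m g =
        ∑ g ∈ S0.filter (fun g => ¬ m g = 0), (-ε) := by
      apply Finset.sum_congr rfl
      intro g hg
      rw [Finset.mem_filter] at hg
      rcases hval g hg.1 with h0 | h0
      · exact absurd h0 hg.2
      · exact h0
    rw [z1, z2, Finset.sum_const, nsmul_eq_mul]; ring
  have hcard' : ((S0.filter (fun g => m g = 0)).card : ℤ) +
      ((S0.filter (fun g => ¬ m g = 0)).card : ℤ) = (S0.card : ℤ) := by exact_mod_cast hcard
  have hn1 : ((S0.filter (fun g => ¬ m g = 0)).card : ℤ) = ε * q + N1 := by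
    have h2 : ε * (q + (ε * N1 + A)) = 0 := by rw [e1, mul_zero]
    rw [hA2] at h2
    have h3 : ε * (q + (ε * N1 + -ε * ((S0.filter (fun g => ¬ m g = 0)).card : ℤ))) =
        ε * q + ε ^ 2 * N1 - ε ^ 2 * ((S0.filter (fun g => ¬ m g = 0)).card : ℤ) := by ring
    rw [h3, hε2] at h2
    linarith
  have h4 : ((S0.filter (fun g => m g = 0)).card : ℤ) =
      (Fintype.card G : ℤ) - 1 - 2 * N1 - ε * q := by linarith
  rw [h4, hG, hN1val, hq]
  rcases hε with rfl | rfl <;> ring

/-- PIECE CH of S3282: the counting with one irreducible character. -/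
theorem bsw_counts {G : Type*} [Group G] [Finite G] {t s : G} {K : Subgroup G} (h : BswHyp t s K) (ε : ℤ) (hε : ε = 1 ∨ ε = -1) (q : ℕ) (hq : (q : ℤ) = 2 * Nat.card K + ε) (X : G → ℂ) (hX : Cfsg.IsIrrCharacter G X) (hX1 : X 1 = q) (hXK : ∀ y ∈ K, y ≠ 1 → X y = ε) (hG : (Nat.card G : ℤ) = 2 * Nat.card K * q * (Nat.card K + ε)) (ha : ∀ g : G, g ∉ bswCl K → (bswA g : ℂ) = (if ε = 1 then (q : ℂ) else 0) + ((q : ℂ) - 1) / 2 * X g) : (ε = 1 ∧ BswOutPlus K q) ∨ (ε = -1 ∧ BswOutMinus K q) := by
  classical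
  haveI := Fintype.ofFinite G
  have hk2 : 2 ≤ Nat.card K := by
    have hne : K ≠ ⊥ := by
      intro hK
      have := h.htK
      rw [hK, Subgroup.mem_bot] at this
      exact bsw_ne_one_of_order_two h.ht this
    have := (K.one_lt_card_iff_ne_bot).mpr hne
    omega
  have hq3 : 3 ≤ q := by rcases hε with rfl | rfl <;> omega
  have hXchar : Cfsg.IsCharacter G X := Helper80.isCharacter_of_irr hX
  have hXcl : ∀ g x : G, X (x * g * x⁻¹) = X g := Helper80.isCharacter_conj hXchar
  have hXint : ∀ g : G, IsIntegral ℤ (X g) := Helper80.isCharacter_isIntegral hXchar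
  set Cl1 : Finset G := Finset.univ.filter (fun g => g ∈ bswCl K ∧ g ≠ 1) with hCl1
  have hCl1mem : ∀ g, g ∈ Cl1 ↔ g ∈ bswCl K ∧ g ≠ 1 := by
    intro g; rw [hCl1, Finset.mem_filter]; simp
  have hN1 := kb_card_cl h Cl1 hCl1mem
  have hXCl : ∀ g ∈ Cl1, X g = ε := by
    intro g hg
    obtain ⟨⟨x, hx⟩, hg1⟩ := (hCl1mem g).mp hg
    rw [← hXcl g x]
    exact hXK _ hx (fun h1 => hg1 (conj_eq_one_iff.mp h1))
  have hone : (1 : G) ∈ bswCl K := mem_bswCl_of_mem K.one_mem
  have hq1 : ((q : ℂ) - 1) ≠ 0 := by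
    intro h0
    have h5 : (q : ℂ) = 1 := by linear_combination h0
    have : q = 1 := by exact_mod_cast h5
    omega
  obtain ⟨c, hc⟩ : ∃ c : ℕ, (if ε = 1 then (q : ℂ) else 0) = (c : ℂ) := by
    by_cases he : ε = 1
    · exact ⟨q, by rw [if_pos he]⟩
    · exact ⟨0, by rw [if_neg he]; simp⟩
  have hint : ∀ g : G, ∃ m : ℤ, X g = (m : ℂ) := by
    intro g
    by_cases hg1 : g = 1
    · exact ⟨(q : ℤ), by rw [hg1, hX1]; norm_cast⟩
    by_cases hgC : g ∈ bswCl K
    · exact ⟨ε, hXCl g ((hCl1mem g).mpr ⟨hgC, hg1⟩)⟩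
    · have hag := ha g hgC
      rw [hc] at hag
      have hXg : X g = (2 * ((bswA g : ℂ) - (c : ℂ))) / ((q : ℂ) - 1) := by
        rw [hag]; field_simp; ring
      refine kb_int_of_rat (hXint g) (2 * ((bswA g : ℚ) - (c : ℚ)) / ((q : ℚ) - 1)) ?_
      rw [hXg]; push_cast; ring
  choose m hm using hint
  have hcardG : (Nat.card G : ℂ) ≠ 0 := by exact_mod_cast Nat.card_pos.ne'
  have hsumX : ∑ g : G, X g = 0 := by
    have h1 := Helper4.classInner_irr hX (Helper79.isIrrCharacter_one (G := G))
    have hne : X ≠ (fun _ => (1 : ℂ)) := by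
      intro e
      have h5 := congrFun e 1
      rw [hX1] at h5
      have : q = 1 := by exact_mod_cast h5
      omega
    rw [if_neg hne] at h1
    unfold Cfsg.classInner at h1
    rcases mul_eq_zero.mp h1 with h2 | h2
    · exact absurd (inv_eq_zero.mp h2) hcardG
    · simpa using h2
  have hsqX : ∑ g : G, X g * conj (X g) = (Nat.card G : ℂ) := by
    have h1 := Helper4.classInner_irr hX hX
    rw [if_pos rfl] at h1
    unfold Cfsg.classInner at h1
    rw [inv_mul_eq_iff_eq_mul₀ hcardG] at h1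
    rw [h1, mul_one]
  have hsum : ∑ g : G, m g = 0 := by
    have h5 : ((∑ g : G, m g : ℤ) : ℂ) = 0 := by
      rw [Int.cast_sum, ← hsumX]
      exact Finset.sum_congr rfl (fun g _ => (hm g).symm)
    exact_mod_cast h5
  have hsq : ∑ g : G, m g ^ 2 = (Fintype.card G : ℤ) := by
    have h5 : ((∑ g : G, m g ^ 2 : ℤ) : ℂ) = ((Fintype.card G : ℤ) : ℂ) := by
      push_cast
      rw [← Nat.card_eq_fintype_card, ← hsqX]
      apply Finset.sum_congr rfl
      intro g _
      rw [hm g, map_intCast, sq]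
    exact_mod_cast h5
  have hm1 : m 1 = (q : ℤ) := by
    have h5 := hm 1
    rw [hX1] at h5
    exact_mod_cast h5.symm
  have hmCl : ∀ g ∈ Cl1, m g = ε := by
    intro g hg
    have h5 := hXCl g hg
    rw [hm g] at h5
    exact_mod_cast h5
  have hGz : (Fintype.card G : ℤ) =
      2 * (Nat.card K : ℤ) * (q : ℤ) * ((Nat.card K : ℤ) + ε) := by
    rw [← Nat.card_eq_fintype_card]; exact hG
  have hN1z : 2 * (Nat.card K : ℤ) * (Cl1.card : ℤ) =
      (Fintype.card G : ℤ) * ((Nat.card K : ℤ) - 1) := by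
    rw [← Nat.card_eq_fintype_card]
    have h5 : ((Nat.card K - 1 : ℕ) : ℤ) = (Nat.card K : ℤ) - 1 := by
      rw [Nat.cast_sub (by omega)]; simp
    rw [← h5]
    exact_mod_cast hN1
  obtain ⟨R1, R2⟩ := kb_core Cl1 1 (fun h1 => ((hCl1mem 1).mp h1).2 rfl) m ε (Nat.card K : ℤ)
    (q : ℤ) hε (by exact_mod_cast hk2) hq hGz hN1z hm1 hmCl hsum hsq
  have hS0 : ∀ g : G, g ∉ bswCl K → g ≠ 1 ∧ g ∉ Cl1 := fun g hg =>
    ⟨fun e => hg (e ▸ hone), fun hgC => hg ((hCl1mem g).mp hgC).1⟩
  have hS0' : ∀ g : G, (g ≠ 1 ∧ g ∉ Cl1) → g ∉ bswCl K := by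
    rintro g ⟨h1, h2⟩ hgC
    exact h2 ((hCl1mem g).mpr ⟨hgC, h1⟩)
  rcases hε with rfl | rfl
  · -- ε = 1
    have ha1 : ∀ g : G, g ∉ bswCl K →
        (bswA g : ℂ) = (q : ℂ) + ((q : ℂ) - 1) / 2 * (m g : ℂ) := by
      intro g hg
      have h5 := ha g hg
      rw [if_pos rfl, hm g] at h5
      exact h5
    have hqk : q = 2 * Nat.card K + 1 := by omega
    left
    refine ⟨rfl, hqk, ?_, ?_, ?_⟩
    · have hG' : Nat.card G = 2 * Nat.card K * q * (Nat.card K + 1) := by exact_mod_cast hG
      rw [hG', hqk]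
      have h5 : 2 * Nat.card K + 1 - 1 = 2 * Nat.card K := by omega
      rw [h5]; ring
    · intro g hg
      have hag := ha1 g hg
      rcases R1 g (hS0 g hg).1 (hS0 g hg).2 with h0 | h0
      · left
        rw [h0] at hag
        have h5 : (bswA g : ℂ) = (q : ℂ) := by rw [hag]; simp
        exact_mod_cast h5
      · right
        rw [h0] at hag
        have h5 : ((2 * bswA g : ℕ) : ℂ) = ((q + 1 : ℕ) : ℂ) := by
          push_cast; rw [hag]; push_cast; ring
        exact_mod_cast h5
    · rw [Nat.card_eq_fintype_card, Fintype.card_subtype]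
      have hfilt : Finset.univ.filter (fun g : G => g ∉ bswCl K ∧ bswA g = q) =
          Finset.univ.filter (fun g => g ≠ 1 ∧ g ∉ Cl1 ∧ m g = 0) := by
        ext g
        simp only [Finset.mem_filter, Finset.mem_univ, true_and]
        constructor
        · rintro ⟨hg, hag⟩
          refine ⟨(hS0 g hg).1, (hS0 g hg).2, ?_⟩
          rcases R1 g (hS0 g hg).1 (hS0 g hg).2 with h0 | h0
          · exact h0
          · exfalso
            have h5 := ha1 g hg
            rw [h0, hag] at h5
            have h6 : (q : ℂ) = 1 := by push_cast at h5; linear_combination (2 : ℂ) * h5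
            have : q = 1 := by exact_mod_cast h6
            omega
        · rintro ⟨hg1, hgC, hmg⟩
          have hg := hS0' g ⟨hg1, hgC⟩
          refine ⟨hg, ?_⟩
          have h5 := ha1 g hg
          rw [hmg] at h5
          have h6 : (bswA g : ℂ) = (q : ℂ) := by rw [h5]; simp
          exact_mod_cast h6
      rw [hfilt]
      have h5 : ((Finset.univ.filter (fun g => g ≠ 1 ∧ g ∉ Cl1 ∧ m g = 0)).card + 1 : ℤ) =
          ((q ^ 2 : ℕ) : ℤ) := by
        push_cast; rw [R2]; ring
      have h6 : (Finset.univ.filter (fun g => g ≠ 1 ∧ g ∉ Cl1 ∧ m g = 0)).card + 1 = q ^ 2 := by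
        exact_mod_cast h5
      exact Nat.eq_sub_of_add_eq h6
  · -- ε = -1
    have ha2 : ∀ g : G, g ∉ bswCl K →
        (bswA g : ℂ) = ((q : ℂ) - 1) / 2 * (m g : ℂ) := by
      intro g hg
      have h5 := ha g hg
      rw [if_neg (by norm_num), hm g, zero_add] at h5
      exact h5
    have hqk : q + 1 = 2 * Nat.card K := by omega
    have hmval : ∀ g : G, g ∉ bswCl K → (m g = 0 ∧ bswA g = 0) ∨ (m g = 1 ∧ 2 * bswA g + 1 = q) := by
      intro g hg
      have hag := ha2 g hg
      rcases R1 g (hS0 g hg).1 (hS0 g hg).2 with h0 | h0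
      · left
        refine ⟨h0, ?_⟩
        rw [h0] at hag
        have h5 : (bswA g : ℂ) = ((0 : ℕ) : ℂ) := by rw [hag]; simp
        exact_mod_cast h5
      · right
        have h0' : m g = 1 := by rw [h0]; norm_num
        refine ⟨h0', ?_⟩
        rw [h0'] at hag
        have h5 : ((2 * bswA g + 1 : ℕ) : ℂ) = ((q : ℕ) : ℂ) := by
          push_cast; rw [hag]; push_cast; ring
        exact_mod_cast h5
    right
    refine ⟨rfl, hqk, ?_, ?_, ?_, ?_⟩
    · have hG' : (Nat.card G : ℤ) = 2 * Nat.card K * q * (Nat.card K - 1) := by rw [hG]; ring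
      have h5 : ((2 * Nat.card G : ℕ) : ℤ) = ((q * (q + 1) * (q - 1) : ℕ) : ℤ) := by
        have hq1' : ((q - 1 : ℕ) : ℤ) = (q : ℤ) - 1 := by
          rw [Nat.cast_sub (by omega)]; simp
        push_cast
        rw [hq1', hG', hq]; ring
      exact_mod_cast h5
    · intro g hg
      rcases hmval g hg with ⟨_, h0⟩ | ⟨_, h0⟩
      · exact Or.inl h0
      · right; omega
    · rw [Nat.card_eq_fintype_card, Fintype.card_subtype]
      have hfilt : Finset.univ.filter (fun g : G => g ∉ bswCl K ∧ bswA g = 0) =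
          Finset.univ.filter (fun g => g ≠ 1 ∧ g ∉ Cl1 ∧ m g = 0) := by
        ext g
        simp only [Finset.mem_filter, Finset.mem_univ, true_and]
        constructor
        · rintro ⟨hg, hag⟩
          refine ⟨(hS0 g hg).1, (hS0 g hg).2, ?_⟩
          rcases hmval g hg with ⟨h0, _⟩ | ⟨_, h0⟩
          · exact h0
          · omega
        · rintro ⟨hg1, hgC, hmg⟩
          have hg := hS0' g ⟨hg1, hgC⟩
          refine ⟨hg, ?_⟩
          rcases hmval g hg with ⟨_, h0⟩ | ⟨h0, _⟩
          · exact h0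
          · omega
      rw [hfilt]
      have h5 : ((Finset.univ.filter (fun g => g ≠ 1 ∧ g ∉ Cl1 ∧ m g = 0)).card + 1 : ℤ) =
          ((q ^ 2 : ℕ) : ℤ) := by
        push_cast; rw [R2]; ring
      have h6 : (Finset.univ.filter (fun g => g ≠ 1 ∧ g ∉ Cl1 ∧ m g = 0)).card + 1 = q ^ 2 := by
        exact_mod_cast h5
      exact Nat.eq_sub_of_add_eq h6
    · intro Y hY
      have hXY : ∀ y : Y, (y : G) ≠ 1 → X y = 0 := by
        intro y hy1
        obtain ⟨hyC, hay⟩ := hY y y.2 hy1
        rcases hmval y hyC with ⟨h0, _⟩ | ⟨_, h0⟩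
        · rw [hm, h0]; simp
        · omega
      haveI : Fintype Y := Fintype.ofFinite Y
      obtain ⟨n, hn⟩ := Helper3.classInner_isCharacter_nat
        (Helper79.isCharacter_restrict hXchar Y) (Helper79.isCharacter_one (G := Y))
      unfold Cfsg.classInner at hn
      have hsumY : ∑ y : Y, X y * conj (1 : ℂ) = (q : ℂ) := by
        rw [Finset.sum_eq_single (1 : Y)]
        · simp [hX1]
        · intro y _ hy1
          rw [hXY y (fun e => hy1 (Subtype.ext e))]; simp
        · intro h0; exact absurd (Finset.mem_univ _) h0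
      rw [hsumY] at hn
      have hYne : (Nat.card Y : ℂ) ≠ 0 := by exact_mod_cast Nat.card_pos.ne'
      have h5 : (q : ℂ) = (n : ℂ) * (Nat.card Y : ℂ) := by
        rw [inv_mul_eq_iff_eq_mul₀ hYne] at hn
        rw [hn]; ring
      have h6 : q = n * Nat.card Y := by exact_mod_cast h5
      exact Dvd.intro_left n h6.symm

end Cfsg.Agent.Helper81
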