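import Mathlib
import Cfsg.Agent.Helper25.Bsw4
import Cfsg.Agent.Helper81.CharBasic
import Cfsg.Agent.Helper2.BswR0

/-!
# Brauer–Suzuki–Wall: degrees and order formula from the normal configuration

Piece K4N of helper25's call for S3282.
-/

set_option autoImplicit false

namespace Cfsg.Agent.Helper81

open Cfsg.Agent.Helper25 Cfsg Subgroup
open scoped ComplexConjugate

theorem kn_sum_three {ι : Type*} [Fintype ι] {R : Type*} [AddCommMonoid R] (f : ι → R)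
    (a b c : ι) (hab : a ≠ b) (hac : a ≠ c) (hbc : b ≠ c)
    (h0 : ∀ i, i ≠ a → i ≠ b → i ≠ c → f i = 0) : ∑ i, f i = f a + f b + f c := by
  classical
  have h1 : ∑ i, f i = ∑ i ∈ ({a, b, c} : Finset ι), f i := by
    symm
    apply Finset.sum_subset (Finset.subset_univ _)
    intro i _ hi
    simp only [Finset.mem_insert, Finset.mem_singleton, not_or] at hi
    exact h0 i hi.1 hi.2.1 hi.2.2
  rw [h1, Finset.sum_insert (by simp [hab, hac]), Finset.sum_insert (by simp [hbc]),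
    Finset.sum_singleton, add_assoc]

theorem kn_sum_four {ι : Type*} [Fintype ι] {R : Type*} [AddCommMonoid R] (f : ι → R)
    (a b c d : ι) (hab : a ≠ b) (hac : a ≠ c) (had : a ≠ d) (hbc : b ≠ c) (hbd : b ≠ d)
    (hcd : c ≠ d) (h0 : ∀ i, i ≠ a → i ≠ b → i ≠ c → i ≠ d → f i = 0) :
    ∑ i, f i = f a + f b + f c + f d := by
  classical
  have h1 : ∑ i, f i = ∑ i ∈ ({a, b, c, d} : Finset ι), f i := by
    symm
    apply Finset.sum_subset (Finset.subset_univ _)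
    intro i _ hi
    simp only [Finset.mem_insert, Finset.mem_singleton, not_or] at hi
    exact h0 i hi.1 hi.2.1 hi.2.2.1 hi.2.2.2
  rw [h1, Finset.sum_insert (by simp [hab, hac, had]), Finset.sum_insert (by simp [hbc, hbd]),
    Finset.sum_insert (by simp [hcd]), Finset.sum_singleton, add_assoc, add_assoc]

theorem kn_sum_sq_eq_one {ι : Type*} [DecidableEq ι] (s : Finset ι) (f : ι → ℤ)
    (h : ∑ i ∈ s, f i ^ 2 = 1) : ∃ j ∈ s, f j ^ 2 = 1 ∧ ∀ i ∈ s, i ≠ j → f i = 0 := by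
  have hex : ∃ j ∈ s, f j ≠ 0 := by
    by_contra hcon
    push Not at hcon
    rw [Finset.sum_eq_zero (fun i hi => by rw [hcon i hi]; ring)] at h
    omega
  obtain ⟨j, hj, hfj⟩ := hex
  have hsplit := Finset.add_sum_erase s (fun i => f i ^ 2) hj
  rw [h] at hsplit
  have hnn : 0 ≤ ∑ i ∈ s.erase j, f i ^ 2 := Finset.sum_nonneg (fun i _ => sq_nonneg _)
  have hpos : 1 ≤ f j ^ 2 := by
    have : 0 < f j ^ 2 := by positivity
    omega
  have hrest : ∑ i ∈ s.erase j, f i ^ 2 = 0 := by omega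
  refine ⟨j, hj, by omega, ?_⟩
  intro i hi hij
  have h2 := (Finset.sum_eq_zero_iff_of_nonneg (fun i _ => sq_nonneg (f i))).mp hrest i
    (Finset.mem_erase.mpr ⟨hij, hi⟩)
  exact pow_eq_zero_iff (two_ne_zero) |>.mp h2

theorem kn_sum_sq_eq_two {ι : Type*} [DecidableEq ι] (s : Finset ι) (f : ι → ℤ)
    (h : ∑ i ∈ s, f i ^ 2 = 2) : ∃ j₁ ∈ s, ∃ j₂ ∈ s, j₁ ≠ j₂ ∧ f j₁ ^ 2 = 1 ∧ f j₂ ^ 2 = 1 ∧
      ∀ i ∈ s, i ≠ j₁ → i ≠ j₂ → f i = 0 := by
  have hex : ∃ j ∈ s, f j ≠ 0 := by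
    by_contra hcon
    push Not at hcon
    rw [Finset.sum_eq_zero (fun i hi => by rw [hcon i hi]; ring)] at h
    omega
  obtain ⟨j, hj, hfj⟩ := hex
  have hsplit := Finset.add_sum_erase s (fun i => f i ^ 2) hj
  rw [h] at hsplit
  have hnn : 0 ≤ ∑ i ∈ s.erase j, f i ^ 2 := Finset.sum_nonneg (fun i _ => sq_nonneg _)
  have hpos : 1 ≤ f j ^ 2 := by
    have : 0 < f j ^ 2 := by positivity
    omega
  have hle : f j ^ 2 ≤ 2 := by omega
  have hone : f j ^ 2 = 1 := by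
    have h1 : -1 ≤ f j ∧ f j ≤ 1 := by constructor <;> nlinarith
    have h2 : f j = 1 ∨ f j = -1 := by omega
    rcases h2 with h2 | h2 <;> rw [h2] <;> norm_num
  have hrest : ∑ i ∈ s.erase j, f i ^ 2 = 1 := by omega
  obtain ⟨j₂, hj₂, hf₂, hz⟩ := kn_sum_sq_eq_one (s.erase j) f hrest
  refine ⟨j, hj, j₂, (Finset.mem_erase.mp hj₂).2, (Finset.mem_erase.mp hj₂).1.symm, hone, hf₂, ?_⟩
  intro i hi h1 h2
  exact hz i (Finset.mem_erase.mpr ⟨h1, hi⟩) h2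

theorem kn_sum_ite_pair {ι : Type*} [Fintype ι] [DecidableEq ι] (a b : ι) (hab : a ≠ b) (c : ℂ)
    (F : ι → ℂ) : ∑ i, (if i = a ∨ i = b then c else 0) * F i = c * (F a + F b) := by
  rw [← Finset.sum_subset (Finset.subset_univ ({a, b} : Finset ι))]
  · rw [Finset.sum_pair hab, if_pos (Or.inl rfl), if_pos (Or.inr rfl)]
    ring
  · intro i _ hi
    simp only [Finset.mem_insert, Finset.mem_singleton, not_or] at hi
    rw [if_neg (by tauto), zero_mul]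

theorem kn_sum_ite_single {ι : Type*} [Fintype ι] [DecidableEq ι] (a : ι) (c : ℂ)
    (F : ι → ℂ) : ∑ i, (if i = a then c else 0) * F i = c * F a := by
  rw [Finset.sum_eq_single a]
  · rw [if_pos rfl]
  · intro i _ hi; rw [if_neg hi, zero_mul]
  · intro h; exact absurd (Finset.mem_univ a) h

/-- The arithmetic determining the degree of `X` and the size of the class of `t`. -/
theorem kn_arith_x (N k x n ε δ θ : ℤ) (hε : ε = 1 ∨ ε = -1) (hδ : δ = 1 ∨ δ = -1)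
    (hk : 4 ≤ k) (hx : 1 ≤ x) (hD : 1 + ε * x + δ * θ = 0)
    (hE : N * (x * θ + ε * θ + 4 * δ * x) = 2 * k ^ 2 * x * θ)
    (hn : x + (2 * k - 1) * ε = 2 * k * n) :
    x = 2 * k + ε ∧ N = (2 * k + ε) * (k + ε) := by
  have hε2 : ε ^ 2 = 1 := by rcases hε with rfl | rfl <;> norm_num
  have hδ2 : δ ^ 2 = 1 := by rcases hδ with rfl | rfl <;> norm_num
  have hmain : N * (x - ε) ^ 2 = 2 * k ^ 2 * x * (x + ε) := by
    linear_combination (-δ * ε) * hE + (ε * (N * (x + ε) - 2 * k ^ 2 * x)) * hD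
      - (N * x ^ 2 - 2 * k ^ 2 * x ^ 2 + ε * N * x) * hε2 + (4 * ε * N * x) * hδ2
  obtain ⟨m, hm⟩ : ∃ m : ℤ, m = n - ε := ⟨_, rfl⟩
  have hxm : x = ε + 2 * k * m := by rw [hm]; linear_combination hn
  have h4 : N * m ^ 2 = (2 * k * m + ε) * (k * m + ε) := by
    have h5 : (4 * k ^ 2) * (N * m ^ 2) = (4 * k ^ 2) * ((2 * k * m + ε) * (k * m + ε)) := by
      rw [hxm] at hmain; linear_combination hmain
    exact mul_left_cancel₀ (by positivity) h5
  have h6 : m * (N * m - 2 * k ^ 2 * m - 3 * k * ε) = 1 := by linear_combination h4 + hε2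
  have hm1 : m = 1 := by
    rcases Int.eq_one_or_neg_one_of_mul_eq_one h6 with h7 | h7
    · exact h7
    · exfalso
      rw [h7] at hxm
      rcases hε with rfl | rfl <;> omega
  refine ⟨by rw [hxm, hm1]; ring, ?_⟩
  rw [hm1] at h4
  linear_combination h4

/-- The arithmetic determining the degrees of the two characters attached to the real
character of `K`. -/
theorem kn_arith_pr (k ε p r : ℤ) (hε : ε = 1 ∨ ε = -1) (hk : 4 ≤ k)
    (hsum : 1 + ε * (2 * k + ε) + p + r = 0)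
    (hE : (2 * k + ε) * (k + ε) * ((2 * k + ε) * p * r + ε * p * r + (2 * k + ε) * r
      + (2 * k + ε) * p) = 2 * k ^ 2 * (2 * k + ε) * p * r) :
    p = -ε * (k + ε) ∧ r = -ε * (k + ε) := by
  rcases hε with rfl | rfl
  · have h7 : 2 * (2 * k + 1) ^ 2 * (p * r - (k + 1) ^ 2) = 0 := by
      linear_combination hE - ((2 * k + 1) ^ 2 * (k + 1)) * hsum
    have hpr : p * r = (k + 1) ^ 2 := by
      rcases mul_eq_zero.mp h7 with h8 | h8
      · exfalso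
        have : (2 * k + 1) ^ 2 = 0 := by omega
        have h9 : 2 * k + 1 = 0 := pow_eq_zero_iff (two_ne_zero) |>.mp this
        omega
      · linarith
    have hsq : (p - r) ^ 2 = 0 := by linear_combination (p + r - 2 - 2 * k) * hsum - 4 * hpr
    have hpr' : p - r = 0 := pow_eq_zero_iff (two_ne_zero) |>.mp hsq
    constructor <;> linarith
  · have h7 : -2 * (2 * k - 1) ^ 2 * (p * r - (k - 1) ^ 2) = 0 := by
      linear_combination hE - ((2 * k - 1) ^ 2 * (k - 1)) * hsum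
    have hpr : p * r = (k - 1) ^ 2 := by
      rcases mul_eq_zero.mp h7 with h8 | h8
      · exfalso
        have : (2 * k - 1) ^ 2 = 0 := by omega
        have h9 : 2 * k - 1 = 0 := pow_eq_zero_iff (two_ne_zero) |>.mp this
        omega
      · linarith
    have hsq : (p - r) ^ 2 = 0 := by linear_combination (p + r - 2 + 2 * k) * hsum - 4 * hpr
    have hpr' : p - r = 0 := pow_eq_zero_iff (two_ne_zero) |>.mp hsq
    constructor <;> linarith

set_option maxHeartbeats 1600000 in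
/-- PIECE K4N with the real character `l0` of `K` as a parameter. -/
theorem bsw_struct_normal_aux {G : Type*} [Group G] [Fintype G] {t s : G} {K : Subgroup G}
    [Fintype K] [Fintype (K →* ℂˣ)] [Fintype (IrrCharacter G)] (h : BswHyp t s K)
    (hk : 4 ≤ Nat.card K) (ε : ℤ) (X : IrrCharacter G) (hN : BswNormal K ε X)
    (l0 : K →* ℂˣ) (hl01 : l0 ≠ 1) (hl0r : l0⁻¹ = l0)
    (hl0u : ∀ l : K →* ℂˣ, l ≠ 1 → l⁻¹ = l → l = l0) : BswFS K t ε X := by
  classical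
  obtain ⟨hε, hXt, hvX⟩ := hN
  have hcomm := bsw_comm h
  have hε2 : ε ^ 2 = 1 := by rcases hε with rfl | rfl <;> norm_num
  have hεε : ε * ε = 1 := by rw [← sq]; exact hε2
  have hε2C : (ε : ℂ) * (ε : ℂ) = 1 := by exact_mod_cast hεε
  -- `t` as an element of `K`
  have htK1 : (⟨t, h.htK⟩ : K) ≠ 1 :=
    fun e => bsw_ne_one_of_order_two h.ht (congrArg Subtype.val e)
  have hsumdual : ∀ y : K, y ≠ 1 → ∑ lam : K →* ℂˣ, ((lam y : ℂˣ) : ℂ) = 0 := by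
    intro y hy
    rw [Cfsg.Agent.Helper82.excHom_sum_dual hcomm y, if_neg hy]
  have hlt : ∀ lam : K →* ℂˣ,
      ((lam ⟨t, h.htK⟩ : ℂˣ) : ℂ) * ((lam ⟨t, h.htK⟩ : ℂˣ) : ℂ) = 1 := by
    intro lam
    rw [← Units.val_mul, ← map_mul]
    have h1 : (⟨t, h.htK⟩ : K) * ⟨t, h.htK⟩ = 1 := Subtype.ext h.t_sq
    rw [h1, map_one, Units.val_one]
  have hlinv : ∀ lam : K →* ℂˣ,
      ((lam⁻¹ ⟨t, h.htK⟩ : ℂˣ) : ℂ) = ((lam ⟨t, h.htK⟩ : ℂˣ) : ℂ) := by
    intro lam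
    rw [MonoidHom.inv_apply, Units.val_inv_eq_inv_val]
    exact inv_eq_of_mul_eq_one_left (hlt lam)
  -- facts on the multiplicities
  have hv1 : ∀ χ : IrrCharacter G, bswV K (1 : K →* ℂˣ) χ = 0 := bswV_one_hom K
  have hvtriv : ∀ lam : K →* ℂˣ, lam ≠ 1 →
      bswV K lam (Cfsg.Agent.Helper79.trivIrr G) = 1 := fun lam hl => bswV_triv K hl
  have hvinv : ∀ lam : K →* ℂˣ, bswV K lam⁻¹ = bswV K lam := bswV_inv h
  have hvsum := bswV_sum_mul (G := G) h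
  have hirr := bsw_irr_apply (G := G) h
  have hdeg : ∀ χ : IrrCharacter G, (χ : G → ℂ) 1 = (Cfsg.charDegree (χ : G → ℂ) : ℂ) :=
    Cfsg.Agent.Helper81.irr_one_eq_charDegree
  have hdegpos : ∀ χ : IrrCharacter G, 0 < Cfsg.charDegree (χ : G → ℂ) :=
    Cfsg.Agent.Helper81.charDegree_pos
  have htriv1 : ∀ g : G, ((Cfsg.Agent.Helper79.trivIrr G : IrrCharacter G) : G → ℂ) g = 1 :=
    fun g => rfl
  -- non-real characters of `K`
  have hnr : ∀ mu : K →* ℂˣ, mu ≠ 1 → mu ≠ l0 → mu⁻¹ ≠ mu :=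
    fun mu h1 h2 h3 => h2 (hl0u mu h1 h3)
  have hcardL : Fintype.card (K →* ℂˣ) = Nat.card K := by
    rw [← Nat.card_eq_fintype_card, Cfsg.Agent.Helper82.excHom_card hcomm,
      Nat.card_eq_fintype_card]
  obtain ⟨mu1, hmu11, hmu1l⟩ : ∃ mu : K →* ℂˣ, mu ≠ 1 ∧ mu ≠ l0 := by
    by_contra hcon
    push Not at hcon
    have hsub : (Finset.univ : Finset (K →* ℂˣ)) ⊆ {1, l0} := by
      intro mu _
      by_cases h1 : mu = 1
      · simp [h1]
      · simp [hcon mu h1]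
    have h2 := Finset.card_le_card hsub
    rw [Finset.card_univ, hcardL] at h2
    have h3 : ({1, l0} : Finset (K →* ℂˣ)).card ≤ 2 := Finset.card_le_two
    omega
  have hmu1nr := hnr mu1 hmu11 hmu1l
  -- structure of `v μ` for non-real `μ`
  have hS : ∀ mu : K →* ℂˣ, mu ≠ 1 → mu⁻¹ ≠ mu → ∃ (Θ : IrrCharacter G) (δ : ℤ),
      Θ ≠ Cfsg.Agent.Helper79.trivIrr G ∧ Θ ≠ X ∧ (δ = 1 ∨ δ = -1) ∧ bswV K mu Θ = δ ∧
      (∀ χ : IrrCharacter G, χ ≠ Cfsg.Agent.Helper79.trivIrr G → χ ≠ X → χ ≠ Θ →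
        bswV K mu χ = 0) ∧
      (∀ lam : K →* ℂˣ, bswV K lam Θ = if lam = mu ∨ lam = mu⁻¹ then δ else 0) := by
    intro mu hmu hmur
    have h3 := hvsum mu mu hmu hmu
    rw [if_pos rfl, if_neg (fun e => hmur e.symm)] at h3
    have hXmem : X ∈ (Finset.univ : Finset (IrrCharacter G)).erase
        (Cfsg.Agent.Helper79.trivIrr G) := Finset.mem_erase.mpr ⟨hXt, Finset.mem_univ _⟩
    rw [← Finset.add_sum_erase Finset.univ _ (Finset.mem_univ (Cfsg.Agent.Helper79.trivIrr G)),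
      ← Finset.add_sum_erase _ _ hXmem, hvtriv mu hmu, hvX mu hmu] at h3
    have hrest : ∑ χ ∈ ((Finset.univ : Finset (IrrCharacter G)).erase
        (Cfsg.Agent.Helper79.trivIrr G)).erase X, bswV K mu χ ^ 2 = 1 := by
      rw [Finset.sum_congr rfl (fun χ _ => sq (bswV K mu χ))]
      linarith
    obtain ⟨Θ, hΘmem, hΘsq, hΘz⟩ := kn_sum_sq_eq_one _ _ hrest
    rw [Finset.mem_erase, Finset.mem_erase] at hΘmem
    have hz : ∀ χ : IrrCharacter G, χ ≠ Cfsg.Agent.Helper79.trivIrr G → χ ≠ X → χ ≠ Θ →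
        bswV K mu χ = 0 := by
      intro χ h1 h2 h3
      exact hΘz χ (Finset.mem_erase.mpr ⟨h2, Finset.mem_erase.mpr ⟨h1, Finset.mem_univ _⟩⟩) h3
    have hδ : bswV K mu Θ = 1 ∨ bswV K mu Θ = -1 := by
      have h5 : (bswV K mu Θ - 1) * (bswV K mu Θ + 1) = 0 := by linear_combination hΘsq
      rcases mul_eq_zero.mp h5 with h6 | h6
      · left; linarith
      · right; linarith
    refine ⟨Θ, bswV K mu Θ, hΘmem.2.1, hΘmem.1, hδ, rfl, hz, ?_⟩
    intro lam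
    by_cases hl : lam = mu ∨ lam = mu⁻¹
    · rw [if_pos hl]
      rcases hl with rfl | rfl
      · rfl
      · rw [hvinv]
    · rw [if_neg hl]
      push Not at hl
      by_cases hl1 : lam = 1
      · rw [hl1]; exact hv1 Θ
      · have h4 := hvsum lam mu hl1 hmu
        rw [if_neg hl.1, if_neg hl.2] at h4
        rw [kn_sum_three (fun χ => bswV K lam χ * bswV K mu χ) (Cfsg.Agent.Helper79.trivIrr G)
          X Θ hXt.symm hΘmem.2.1.symm hΘmem.1.symm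
          (fun χ h1 h2 h3 => by rw [hz χ h1 h2 h3, mul_zero]), hvtriv lam hl1, hvtriv mu hmu,
          hvX lam hl1, hvX mu hmu] at h4
        have h5 : bswV K lam Θ * bswV K mu Θ = 0 := by linarith
        rcases mul_eq_zero.mp h5 with h6 | h6
        · exact h6
        · rw [h6] at hΘsq; norm_num at hΘsq
  -- the values of `X` on `K ∖ 1`
  have hXK : ∀ y : K, y ≠ 1 → (X : G → ℂ) (y : G) = (ε : ℂ) := by
    intro y hy
    rw [hirr X y hy]
    have e : ∀ lam : K →* ℂˣ, (bswV K lam X : ℂ) * ((lam y : ℂˣ) : ℂ) =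
        (ε : ℂ) * ((lam y : ℂˣ) : ℂ) - (if lam = 1 then (ε : ℂ) else 0) := by
      intro lam
      by_cases hl : lam = 1
      · rw [if_pos hl, hl, hv1 X]; simp
      · rw [if_neg hl, hvX lam hl]; ring
    rw [Finset.sum_congr rfl (fun lam _ => e lam), Finset.sum_sub_distrib, ← Finset.mul_sum,
      hsumdual y hy, Finset.sum_ite_eq' Finset.univ (1 : K →* ℂˣ), if_pos (Finset.mem_univ _)]
    ring
  have hXtval : (X : G → ℂ) t = (ε : ℂ) := hXK ⟨t, h.htK⟩ htK1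
  -- the class of `t`
  have hcardG := bsw_card_G h
  have hkey := fun (mu : K →* ℂˣ) (hm : mu ≠ 1) => bsw_key (G := G) h hm
  have hvdeg := bswV_deg (G := G) K
  have hNpos : 0 < Nat.card {x : G // IsConj t x} := by
    apply Nat.pos_of_ne_zero
    intro e
    rw [e, zero_mul] at hcardG
    exact (Nat.card_pos (α := G)).ne hcardG
  have hx0 : ((Cfsg.charDegree (X : G → ℂ) : ℕ) : ℂ) ≠ 0 := by exact_mod_cast (hdegpos X).ne'
  -- consequences of the structure for a non-real `μ`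
  have hS' : ∀ (mu : K →* ℂˣ) (Θ : IrrCharacter G) (δ : ℤ), mu ≠ 1 → mu⁻¹ ≠ mu →
      Θ ≠ Cfsg.Agent.Helper79.trivIrr G → Θ ≠ X → (δ = 1 ∨ δ = -1) → bswV K mu Θ = δ →
      (∀ χ : IrrCharacter G, χ ≠ Cfsg.Agent.Helper79.trivIrr G → χ ≠ X → χ ≠ Θ →
        bswV K mu χ = 0) →
      (∀ lam : K →* ℂˣ, bswV K lam Θ = if lam = mu ∨ lam = mu⁻¹ then δ else 0) →
      (1 + ε * (Cfsg.charDegree (X : G → ℂ) : ℤ) + δ * (Cfsg.charDegree (Θ : G → ℂ) : ℤ) = 0) ∧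
      ((Θ : G → ℂ) t * (Θ : G → ℂ) t = 4) ∧
      (∑ lam : K →* ℂˣ, (bswV K lam Θ : ℂ) = 2 * (δ : ℂ)) ∧
      ((Nat.card {x : G // IsConj t x} : ℤ) * ((Cfsg.charDegree (X : G → ℂ) : ℤ)
          * (Cfsg.charDegree (Θ : G → ℂ) : ℤ) + ε * (Cfsg.charDegree (Θ : G → ℂ) : ℤ)
          + 4 * δ * (Cfsg.charDegree (X : G → ℂ) : ℤ))
        = 2 * (Nat.card K : ℤ) ^ 2 * (Cfsg.charDegree (X : G → ℂ) : ℤ)
          * (Cfsg.charDegree (Θ : G → ℂ) : ℤ)) := by
    intro mu Θ δ hmu hmur hΘt hΘX hδ hvΘ hz hΘv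
    have hδδ : (δ : ℂ) * (δ : ℂ) = 1 := by
      rcases hδ with rfl | rfl <;> norm_num
    have hΘC : ∀ lam : K →* ℂˣ, (bswV K lam Θ : ℂ) =
        if lam = mu ∨ lam = mu⁻¹ then (δ : ℂ) else 0 := by
      intro lam
      rw [hΘv lam]
      split_ifs <;> simp
    have hθ0 : ((Cfsg.charDegree (Θ : G → ℂ) : ℕ) : ℂ) ≠ 0 := by
      exact_mod_cast (hdegpos Θ).ne'
    -- value at t
    have hΘt' : (Θ : G → ℂ) t = -(2 * (δ : ℂ) * ((mu ⟨t, h.htK⟩ : ℂˣ) : ℂ)) := by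
      have h1 := hirr Θ ⟨t, h.htK⟩ htK1
      rw [Finset.sum_congr rfl (fun lam _ => by rw [hΘC lam]),
        kn_sum_ite_pair mu mu⁻¹ (fun e => hmur e.symm) (δ : ℂ)
          (fun lam => ((lam ⟨t, h.htK⟩ : ℂˣ) : ℂ)), hlinv mu] at h1
      rw [h1]; ring
    have hΘsq : (Θ : G → ℂ) t * (Θ : G → ℂ) t = 4 := by
      rw [hΘt']
      linear_combination (4 * ((mu ⟨t, h.htK⟩ : ℂˣ) : ℂ) * ((mu ⟨t, h.htK⟩ : ℂˣ) : ℂ)) * hδδ
        + 4 * hlt mu
    -- degree equation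
    have hD : 1 + (ε : ℂ) * (Cfsg.charDegree (X : G → ℂ) : ℂ)
        + (δ : ℂ) * (Cfsg.charDegree (Θ : G → ℂ) : ℂ) = 0 := by
      have h1 := hvdeg mu
      rw [kn_sum_three (fun ψ : IrrCharacter G => (bswV K mu ψ : ℂ) * (ψ : G → ℂ) 1)
        (Cfsg.Agent.Helper79.trivIrr G) X Θ hXt.symm hΘt.symm hΘX.symm
        (fun χ h1 h2 h3 => by rw [hz χ h1 h2 h3]; simp), hvtriv mu hmu, hvX mu hmu, hvΘ,
        htriv1, hdeg X, hdeg Θ] at h1
      rw [← h1]; push_cast; ring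
    -- key equation
    have hKy : (Nat.card {x : G // IsConj t x} : ℂ) * (1 + (ε : ℂ) / (Cfsg.charDegree (X : G → ℂ) : ℂ)
        + 4 * (δ : ℂ) / (Cfsg.charDegree (Θ : G → ℂ) : ℂ)) = 2 * (Nat.card K : ℂ) ^ 2 := by
      have h1 := hkey mu hmu
      rw [kn_sum_three (fun χ : IrrCharacter G => (bswV K mu χ : ℂ) *
          ((χ : G → ℂ) t * (χ : G → ℂ) t / (χ : G → ℂ) 1))
        (Cfsg.Agent.Helper79.trivIrr G) X Θ hXt.symm hΘt.symm hΘX.symm
        (fun χ h1 h2 h3 => by rw [hz χ h1 h2 h3]; simp), hvtriv mu hmu, hvX mu hmu, hvΘ,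
        htriv1, htriv1, hXtval, hΘsq, hdeg X, hdeg Θ] at h1
      rw [← h1]
      congr 1
      have : (ε : ℂ) * ((ε : ℂ) * (ε : ℂ) / (Cfsg.charDegree (X : G → ℂ) : ℂ))
          = (ε : ℂ) / (Cfsg.charDegree (X : G → ℂ) : ℂ) := by rw [hε2C, mul_one_div]
      rw [this]; push_cast; ring
    refine ⟨by exact_mod_cast hD, hΘsq, ?_, ?_⟩
    · rw [Finset.sum_congr rfl (fun lam _ => hΘC lam)]
      have h1 := kn_sum_ite_pair mu mu⁻¹ (fun e => hmur e.symm) (δ : ℂ) (fun _ => (1 : ℂ))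
      simp only [mul_one] at h1
      rw [h1]; ring
    · have h8 : (1 + (ε : ℂ) / (Cfsg.charDegree (X : G → ℂ) : ℂ)
          + 4 * (δ : ℂ) / (Cfsg.charDegree (Θ : G → ℂ) : ℂ))
          * ((Cfsg.charDegree (X : G → ℂ) : ℂ) * (Cfsg.charDegree (Θ : G → ℂ) : ℂ))
          = (Cfsg.charDegree (X : G → ℂ) : ℂ) * (Cfsg.charDegree (Θ : G → ℂ) : ℂ)
            + (ε : ℂ) * (Cfsg.charDegree (Θ : G → ℂ) : ℂ)
            + 4 * (δ : ℂ) * (Cfsg.charDegree (X : G → ℂ) : ℂ) := by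
        field_simp
      have h9 : (Nat.card {x : G // IsConj t x} : ℂ) * ((Cfsg.charDegree (X : G → ℂ) : ℂ)
          * (Cfsg.charDegree (Θ : G → ℂ) : ℂ) + (ε : ℂ) * (Cfsg.charDegree (Θ : G → ℂ) : ℂ)
          + 4 * (δ : ℂ) * (Cfsg.charDegree (X : G → ℂ) : ℂ))
          = 2 * (Nat.card K : ℂ) ^ 2 * (Cfsg.charDegree (X : G → ℂ) : ℂ)
            * (Cfsg.charDegree (Θ : G → ℂ) : ℂ) := by
        rw [← h8, ← mul_assoc, hKy]; ring
      exact_mod_cast h9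
  -- the degree of `X` and the size of the class of `t`
  obtain ⟨Θ1, δ1, hΘ1t, hΘ1X, hδ1, hvΘ1, hz1, hΘ1v⟩ := hS mu1 hmu11 hmu1nr
  obtain ⟨hD1, -, -, hE1⟩ := hS' mu1 Θ1 δ1 hmu11 hmu1nr hΘ1t hΘ1X hδ1 hvΘ1 hz1 hΘ1v
  have hXC : ∀ u : G, u ∈ centralizer ({t} : Set G) → u ≠ 1 → (X : G → ℂ) u = (ε : ℂ) := by
    intro u hu hu1
    by_cases huK : u ∈ K
    · exact hXK ⟨u, huK⟩ (fun e => hu1 (congrArg Subtype.val e))
    · have h2 := h.order_two_of_cent_not_mem hu huK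
      obtain ⟨c, hc⟩ := isConj_iff.mp ((bsw_isConj_iff h u).mpr h2)
      rw [← hc, Cfsg.Agent.Helper81.irr_isClassFunction X t c]
      exact hXtval
  obtain ⟨n, hn⟩ : ∃ n : ℕ, (Cfsg.charDegree (X : G → ℂ) : ℤ) + (2 * (Nat.card K : ℤ) - 1) * ε
      = 2 * (Nat.card K : ℤ) * n := by
    haveI : Fintype (centralizer ({t} : Set G)) := Fintype.ofFinite _
    obtain ⟨n, hn⟩ := Cfsg.Agent.Helper3.classInner_isCharacter_nat
      (Cfsg.Agent.Helper79.isCharacter_restrict (Cfsg.Agent.Helper79.irr_isCharacter X)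
        (centralizer ({t} : Set G)))
      (Cfsg.Agent.Helper79.isCharacter_one (G := centralizer ({t} : Set G)))
    refine ⟨n, ?_⟩
    unfold Cfsg.classInner at hn
    have hcardC : Nat.card (centralizer ({t} : Set G)) = 2 * Nat.card K := bsw_card_cent h
    have hsum : ∑ u : centralizer ({t} : Set G), (X : G → ℂ) u * conj (1 : ℂ)
        = (Cfsg.charDegree (X : G → ℂ) : ℂ) + (2 * (Nat.card K : ℂ) - 1) * ε := by
      rw [← Finset.add_sum_erase Finset.univ _ (Finset.mem_univ (1 : centralizer ({t} : Set G)))]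
      have h5 : ∀ u ∈ (Finset.univ : Finset (centralizer ({t} : Set G))).erase 1,
          (X : G → ℂ) u * conj (1 : ℂ) = (ε : ℂ) := by
        intro u hu
        rw [hXC u u.2 (fun e => (Finset.mem_erase.mp hu).1 (Subtype.ext e))]; simp
      rw [Finset.sum_congr rfl h5, Finset.sum_const, Finset.card_erase_of_mem (Finset.mem_univ _),
        Finset.card_univ, ← Nat.card_eq_fintype_card, hcardC]
      have h6 : ((2 * Nat.card K - 1 : ℕ) : ℂ) = 2 * (Nat.card K : ℂ) - 1 := by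
        rw [Nat.cast_sub (by omega)]; push_cast; ring
      simp only [OneMemClass.coe_one, map_one, mul_one, nsmul_eq_mul]
      rw [h6, hdeg X]
    rw [hsum, hcardC] at hn
    have hne : ((2 * Nat.card K : ℕ) : ℂ) ≠ 0 := by
      exact_mod_cast (by omega : 2 * Nat.card K ≠ 0)
    have h7 : (Cfsg.charDegree (X : G → ℂ) : ℂ) + (2 * (Nat.card K : ℂ) - 1) * ε
        = 2 * (Nat.card K : ℂ) * n := by
      rw [inv_mul_eq_iff_eq_mul₀ hne] at hn
      rw [hn]; push_cast; ring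
    exact_mod_cast h7
  obtain ⟨hxval, hNval⟩ := kn_arith_x _ _ _ n ε δ1 _ hε hδ1 (by exact_mod_cast hk)
    (by exact_mod_cast hdegpos X) hD1 hE1 hn
  -- structure of `v l0`
  obtain ⟨Xa, Xb, hab, hXat, hXaX, hXbt, hXbX, hεa, hεb, hz0⟩ : ∃ Xa Xb : IrrCharacter G,
      Xa ≠ Xb ∧ Xa ≠ Cfsg.Agent.Helper79.trivIrr G ∧ Xa ≠ X ∧
      Xb ≠ Cfsg.Agent.Helper79.trivIrr G ∧ Xb ≠ X ∧
      (bswV K l0 Xa = 1 ∨ bswV K l0 Xa = -1) ∧ (bswV K l0 Xb = 1 ∨ bswV K l0 Xb = -1) ∧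
      (∀ χ : IrrCharacter G, χ ≠ Cfsg.Agent.Helper79.trivIrr G → χ ≠ X → χ ≠ Xa → χ ≠ Xb →
        bswV K l0 χ = 0) := by
    have h3 := hvsum l0 l0 hl01 hl01
    rw [if_pos rfl, if_pos hl0r.symm] at h3
    have hXmem : X ∈ (Finset.univ : Finset (IrrCharacter G)).erase
        (Cfsg.Agent.Helper79.trivIrr G) := Finset.mem_erase.mpr ⟨hXt, Finset.mem_univ _⟩
    rw [← Finset.add_sum_erase Finset.univ _ (Finset.mem_univ (Cfsg.Agent.Helper79.trivIrr G)),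
      ← Finset.add_sum_erase _ _ hXmem, hvtriv l0 hl01, hvX l0 hl01] at h3
    have hrest : ∑ χ ∈ ((Finset.univ : Finset (IrrCharacter G)).erase
        (Cfsg.Agent.Helper79.trivIrr G)).erase X, bswV K l0 χ ^ 2 = 2 := by
      rw [Finset.sum_congr rfl (fun χ _ => sq (bswV K l0 χ))]
      linarith
    obtain ⟨Xa, hXa, Xb, hXb, hab, hsa, hsb, hz⟩ := kn_sum_sq_eq_two _ _ hrest
    rw [Finset.mem_erase, Finset.mem_erase] at hXa hXb
    have hpm : ∀ z : ℤ, z ^ 2 = 1 → z = 1 ∨ z = -1 := by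
      intro z hz2
      have h5 : (z - 1) * (z + 1) = 0 := by linear_combination hz2
      rcases mul_eq_zero.mp h5 with h6 | h6
      · left; linarith
      · right; linarith
    refine ⟨Xa, Xb, hab, hXa.2.1, hXa.1, hXb.2.1, hXb.1, hpm _ hsa, hpm _ hsb, ?_⟩
    intro χ h1 h2 h3 h4
    exact hz χ (Finset.mem_erase.mpr ⟨h2, Finset.mem_erase.mpr ⟨h1, Finset.mem_univ _⟩⟩) h3 h4
  have hsuppA : ∀ χ : IrrCharacter G, χ ≠ Cfsg.Agent.Helper79.trivIrr G → χ ≠ X →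
      bswV K l0 χ ≠ 0 → ∀ lam : K →* ℂˣ,
        bswV K lam χ = if lam = l0 then bswV K l0 χ else 0 := by
    intro χ hχt hχX hχ0 lam
    by_cases hl : lam = l0
    · rw [if_pos hl, hl]
    · rw [if_neg hl]
      by_cases hl1 : lam = 1
      · rw [hl1]; exact hv1 χ
      · obtain ⟨Θ, δ, hΘt, hΘX, hδ, hvΘ, hz, hΘv⟩ := hS lam hl1 (hnr lam hl1 hl)
        apply hz χ hχt hχX
        rintro rfl
        apply hχ0
        rw [hΘv l0, if_neg]
        push Not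
        exact ⟨fun e => hl e.symm, fun e => hl (by rw [← inv_inv lam, ← e, hl0r])⟩
  have hA' : ∀ χ : IrrCharacter G, χ ≠ Cfsg.Agent.Helper79.trivIrr G → χ ≠ X →
      (bswV K l0 χ = 1 ∨ bswV K l0 χ = -1) →
      ((χ : G → ℂ) t * (χ : G → ℂ) t = 1) ∧
      (∑ lam : K →* ℂˣ, (bswV K lam χ : ℂ) = (bswV K l0 χ : ℂ)) := by
    intro χ hχt hχX hχ
    have hχ0 : bswV K l0 χ ≠ 0 := by rcases hχ with h1 | h1 <;> rw [h1] <;> norm_num
    have hsup := hsuppA χ hχt hχX hχ0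
    have hC : ∀ lam : K →* ℂˣ, (bswV K lam χ : ℂ) =
        if lam = l0 then (bswV K l0 χ : ℂ) else 0 := by
      intro lam
      rw [hsup lam]
      split_ifs <;> simp
    have hεχ : (bswV K l0 χ : ℂ) * (bswV K l0 χ : ℂ) = 1 := by
      rcases hχ with h1 | h1 <;> rw [h1] <;> norm_num
    constructor
    · have h1 := hirr χ ⟨t, h.htK⟩ htK1
      rw [Finset.sum_congr rfl (fun lam _ => by rw [hC lam]),
        kn_sum_ite_single l0 _ (fun lam => ((lam ⟨t, h.htK⟩ : ℂˣ) : ℂ))] at h1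
      rw [h1]
      linear_combination (((l0 ⟨t, h.htK⟩ : ℂˣ) : ℂ) * ((l0 ⟨t, h.htK⟩ : ℂˣ) : ℂ)) * hεχ
        + hlt l0
    · rw [Finset.sum_congr rfl (fun lam _ => hC lam)]
      have h1 := kn_sum_ite_single l0 (bswV K l0 χ : ℂ) (fun _ => (1 : ℂ))
      simp only [mul_one] at h1
      exact h1
  -- the degrees of `Xa`, `Xb`
  obtain ⟨hpa, hpb⟩ : bswV K l0 Xa * (Cfsg.charDegree (Xa : G → ℂ) : ℤ)
        = -ε * ((Nat.card K : ℤ) + ε) ∧
      bswV K l0 Xb * (Cfsg.charDegree (Xb : G → ℂ) : ℤ) = -ε * ((Nat.card K : ℤ) + ε) := by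
    have hxa0 : ((Cfsg.charDegree (Xa : G → ℂ) : ℕ) : ℂ) ≠ 0 := by
      exact_mod_cast (hdegpos Xa).ne'
    have hxb0 : ((Cfsg.charDegree (Xb : G → ℂ) : ℕ) : ℂ) ≠ 0 := by
      exact_mod_cast (hdegpos Xb).ne'
    have hεaC : (bswV K l0 Xa : ℂ) * (bswV K l0 Xa : ℂ) = 1 := by
      rcases hεa with h1 | h1 <;> rw [h1] <;> norm_num
    have hεbC : (bswV K l0 Xb : ℂ) * (bswV K l0 Xb : ℂ) = 1 := by
      rcases hεb with h1 | h1 <;> rw [h1] <;> norm_num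
    have hD0 : 1 + (ε : ℂ) * (Cfsg.charDegree (X : G → ℂ) : ℂ)
        + (bswV K l0 Xa : ℂ) * (Cfsg.charDegree (Xa : G → ℂ) : ℂ)
        + (bswV K l0 Xb : ℂ) * (Cfsg.charDegree (Xb : G → ℂ) : ℂ) = 0 := by
      have h1 := hvdeg l0
      rw [kn_sum_four (fun ψ : IrrCharacter G => (bswV K l0 ψ : ℂ) * (ψ : G → ℂ) 1)
        (Cfsg.Agent.Helper79.trivIrr G) X Xa Xb hXt.symm hXat.symm hXbt.symm hXaX.symm
        hXbX.symm hab
        (fun χ h1 h2 h3 h4 => by rw [hz0 χ h1 h2 h3 h4]; simp), hvtriv l0 hl01, hvX l0 hl01,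
        htriv1, hdeg X, hdeg Xa, hdeg Xb] at h1
      rw [← h1]; push_cast; ring
    have hKy0 : (Nat.card {x : G // IsConj t x} : ℂ) * (1
        + (ε : ℂ) / (Cfsg.charDegree (X : G → ℂ) : ℂ)
        + (bswV K l0 Xa : ℂ) / (Cfsg.charDegree (Xa : G → ℂ) : ℂ)
        + (bswV K l0 Xb : ℂ) / (Cfsg.charDegree (Xb : G → ℂ) : ℂ))
        = 2 * (Nat.card K : ℂ) ^ 2 := by
      have h1 := hkey l0 hl01
      rw [kn_sum_four (fun χ : IrrCharacter G => (bswV K l0 χ : ℂ) *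
          ((χ : G → ℂ) t * (χ : G → ℂ) t / (χ : G → ℂ) 1))
        (Cfsg.Agent.Helper79.trivIrr G) X Xa Xb hXt.symm hXat.symm hXbt.symm hXaX.symm
        hXbX.symm hab
        (fun χ h1 h2 h3 h4 => by rw [hz0 χ h1 h2 h3 h4]; simp), hvtriv l0 hl01, hvX l0 hl01,
        htriv1, htriv1, hXtval, (hA' Xa hXat hXaX hεa).1, (hA' Xb hXbt hXbX hεb).1, hdeg X,
        hdeg Xa, hdeg Xb] at h1
      rw [← h1]
      congr 1
      have e0 : (ε : ℂ) * ((ε : ℂ) * (ε : ℂ) / (Cfsg.charDegree (X : G → ℂ) : ℂ))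
          = (ε : ℂ) / (Cfsg.charDegree (X : G → ℂ) : ℂ) := by rw [hε2C, mul_one_div]
      rw [e0]; push_cast; ring
    have e1 : (bswV K l0 Xa : ℂ) / (Cfsg.charDegree (Xa : G → ℂ) : ℂ)
        * ((bswV K l0 Xa : ℂ) * (Cfsg.charDegree (Xa : G → ℂ) : ℂ)) = 1 := by
      calc (bswV K l0 Xa : ℂ) / (Cfsg.charDegree (Xa : G → ℂ) : ℂ)
            * ((bswV K l0 Xa : ℂ) * (Cfsg.charDegree (Xa : G → ℂ) : ℂ))
          = (bswV K l0 Xa : ℂ) * (bswV K l0 Xa : ℂ) * ((Cfsg.charDegree (Xa : G → ℂ) : ℂ)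
              / (Cfsg.charDegree (Xa : G → ℂ) : ℂ)) := by ring
        _ = 1 := by rw [div_self hxa0, hεaC, mul_one]
    have e2 : (bswV K l0 Xb : ℂ) / (Cfsg.charDegree (Xb : G → ℂ) : ℂ)
        * ((bswV K l0 Xb : ℂ) * (Cfsg.charDegree (Xb : G → ℂ) : ℂ)) = 1 := by
      calc (bswV K l0 Xb : ℂ) / (Cfsg.charDegree (Xb : G → ℂ) : ℂ)
            * ((bswV K l0 Xb : ℂ) * (Cfsg.charDegree (Xb : G → ℂ) : ℂ))
          = (bswV K l0 Xb : ℂ) * (bswV K l0 Xb : ℂ) * ((Cfsg.charDegree (Xb : G → ℂ) : ℂ)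
              / (Cfsg.charDegree (Xb : G → ℂ) : ℂ)) := by ring
        _ = 1 := by rw [div_self hxb0, hεbC, mul_one]
    obtain ⟨P, hP⟩ : ∃ P : ℂ, P = (bswV K l0 Xa : ℂ) * (Cfsg.charDegree (Xa : G → ℂ) : ℂ) :=
      ⟨_, rfl⟩
    obtain ⟨R, hR⟩ : ∃ R : ℂ, R = (bswV K l0 Xb : ℂ) * (Cfsg.charDegree (Xb : G → ℂ) : ℂ) :=
      ⟨_, rfl⟩
    rw [← hP] at e1
    rw [← hR] at e2
    have h8 : (1 + (ε : ℂ) / (Cfsg.charDegree (X : G → ℂ) : ℂ)
        + (bswV K l0 Xa : ℂ) / (Cfsg.charDegree (Xa : G → ℂ) : ℂ)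
        + (bswV K l0 Xb : ℂ) / (Cfsg.charDegree (Xb : G → ℂ) : ℂ))
        * ((Cfsg.charDegree (X : G → ℂ) : ℂ) * P * R)
        = (Cfsg.charDegree (X : G → ℂ) : ℂ) * P * R + (ε : ℂ) * P * R
          + (Cfsg.charDegree (X : G → ℂ) : ℂ) * R + (Cfsg.charDegree (X : G → ℂ) : ℂ) * P := by
      calc (1 + (ε : ℂ) / (Cfsg.charDegree (X : G → ℂ) : ℂ)
            + (bswV K l0 Xa : ℂ) / (Cfsg.charDegree (Xa : G → ℂ) : ℂ)
            + (bswV K l0 Xb : ℂ) / (Cfsg.charDegree (Xb : G → ℂ) : ℂ))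
            * ((Cfsg.charDegree (X : G → ℂ) : ℂ) * P * R)
          = (Cfsg.charDegree (X : G → ℂ) : ℂ) * P * R
            + ((ε : ℂ) / (Cfsg.charDegree (X : G → ℂ) : ℂ)
              * (Cfsg.charDegree (X : G → ℂ) : ℂ)) * P * R
            + ((bswV K l0 Xa : ℂ) / (Cfsg.charDegree (Xa : G → ℂ) : ℂ) * P)
              * (Cfsg.charDegree (X : G → ℂ) : ℂ) * R
            + ((bswV K l0 Xb : ℂ) / (Cfsg.charDegree (Xb : G → ℂ) : ℂ) * R)
              * (Cfsg.charDegree (X : G → ℂ) : ℂ) * P := by ring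
        _ = _ := by rw [div_mul_cancel₀ _ hx0, e1, e2]; ring
    have h9 : (Nat.card {x : G // IsConj t x} : ℂ) * ((Cfsg.charDegree (X : G → ℂ) : ℂ) * P * R
        + (ε : ℂ) * P * R + (Cfsg.charDegree (X : G → ℂ) : ℂ) * R
        + (Cfsg.charDegree (X : G → ℂ) : ℂ) * P)
        = 2 * (Nat.card K : ℂ) ^ 2 * (Cfsg.charDegree (X : G → ℂ) : ℂ) * P * R := by
      rw [← h8, ← mul_assoc, hKy0]; ring
    rw [hP, hR] at h9
    have h9Z : (Nat.card {x : G // IsConj t x} : ℤ) * ((Cfsg.charDegree (X : G → ℂ) : ℤ)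
        * (bswV K l0 Xa * (Cfsg.charDegree (Xa : G → ℂ) : ℤ))
        * (bswV K l0 Xb * (Cfsg.charDegree (Xb : G → ℂ) : ℤ))
        + ε * (bswV K l0 Xa * (Cfsg.charDegree (Xa : G → ℂ) : ℤ))
          * (bswV K l0 Xb * (Cfsg.charDegree (Xb : G → ℂ) : ℤ))
        + (Cfsg.charDegree (X : G → ℂ) : ℤ) * (bswV K l0 Xb * (Cfsg.charDegree (Xb : G → ℂ) : ℤ))
        + (Cfsg.charDegree (X : G → ℂ) : ℤ) * (bswV K l0 Xa * (Cfsg.charDegree (Xa : G → ℂ) : ℤ)))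
        = 2 * (Nat.card K : ℤ) ^ 2 * (Cfsg.charDegree (X : G → ℂ) : ℤ)
          * (bswV K l0 Xa * (Cfsg.charDegree (Xa : G → ℂ) : ℤ))
          * (bswV K l0 Xb * (Cfsg.charDegree (Xb : G → ℂ) : ℤ)) := by
      exact_mod_cast h9
    have hD0Z : 1 + ε * (Cfsg.charDegree (X : G → ℂ) : ℤ)
        + bswV K l0 Xa * (Cfsg.charDegree (Xa : G → ℂ) : ℤ)
        + bswV K l0 Xb * (Cfsg.charDegree (Xb : G → ℂ) : ℤ) = 0 := by exact_mod_cast hD0
    rw [hxval, hNval] at h9Z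
    rw [hxval] at hD0Z
    exact kn_arith_pr _ ε _ _ hε (by exact_mod_cast hk) hD0Z h9Z
  -- assembly
  refine ⟨hε, hvX, ?_, ?_, ?_⟩
  · rw [hdeg X]
    exact_mod_cast hxval
  · have h1 : (Nat.card G : ℤ) = (Nat.card {x : G // IsConj t x} : ℤ)
        * (2 * (Nat.card K : ℤ)) := by exact_mod_cast hcardG.symm
    rw [h1, hNval]; ring
  · intro χ hχt hχX
    by_cases hΘ : ∃ mu : K →* ℂˣ, mu ≠ 1 ∧ mu⁻¹ ≠ mu ∧ bswV K mu χ ≠ 0
    · obtain ⟨mu, hmu, hmur, hvχ⟩ := hΘ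
      obtain ⟨Θ, δ, hΘt, hΘX, hδ, hvΘ, hz, hΘv⟩ := hS mu hmu hmur
      have hχΘ : χ = Θ := by
        by_contra hne
        exact hvχ (hz χ hχt hχX hne)
      subst hχΘ
      obtain ⟨hD, hsq, hS2, -⟩ := hS' mu χ δ hmu hmur hΘt hΘX hδ hvΘ hz hΘv
      rw [hsq, hS2, hdeg χ]
      have hD' : δ * (Cfsg.charDegree (χ : G → ℂ) : ℤ) = -2 - 2 * (Nat.card K : ℤ) * ε := by
        rw [hxval] at hD; linear_combination hD - hεε
      have hD'' : (δ : ℂ) * (Cfsg.charDegree (χ : G → ℂ) : ℂ)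
          = -2 - 2 * (Nat.card K : ℂ) * ε := by exact_mod_cast hD'
      linear_combination (2 * (ε : ℂ)) * hD'' - (4 * (Nat.card K : ℂ)) * hε2C
    · by_cases hA : bswV K l0 χ ≠ 0
      · have hχab : χ = Xa ∨ χ = Xb := by
          by_contra hne
          push Not at hne
          exact hA (hz0 χ hχt hχX hne.1 hne.2)
        have hfin : ∀ Y : IrrCharacter G, Y ≠ Cfsg.Agent.Helper79.trivIrr G → Y ≠ X →
            (bswV K l0 Y = 1 ∨ bswV K l0 Y = -1) →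
            bswV K l0 Y * (Cfsg.charDegree (Y : G → ℂ) : ℤ) = -ε * ((Nat.card K : ℤ) + ε) →
            (Y : G → ℂ) t * (Y : G → ℂ) t * ((Nat.card K : ℂ) + (ε : ℂ)) =
              - (ε : ℂ) * (∑ lam : K →* ℂˣ, (bswV K lam Y : ℂ)) * (Y : G → ℂ) 1 := by
          intro Y hYt hYX hY hp
          obtain ⟨hsq, hSY⟩ := hA' Y hYt hYX hY
          rw [hsq, hSY, hdeg Y]
          have hpC : (bswV K l0 Y : ℂ) * (Cfsg.charDegree (Y : G → ℂ) : ℂ)
              = -(ε : ℂ) * ((Nat.card K : ℂ) + ε) := by exact_mod_cast hp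
          linear_combination (ε : ℂ) * hpC - ((Nat.card K : ℂ) + ε) * hε2C
        rcases hχab with rfl | rfl
        · exact hfin _ hXat hXaX hεa hpa
        · exact hfin _ hXbt hXbX hεb hpb
      · push Not at hA
        have hall : ∀ lam : K →* ℂˣ, bswV K lam χ = 0 := by
          intro lam
          by_cases hl1 : lam = 1
          · rw [hl1]; exact hv1 χ
          by_cases hl : lam = l0
          · rw [hl]; exact hA
          · by_contra hne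
            exact hΘ ⟨lam, hl1, hnr lam hl1 hl, hne⟩
        have h1 := hirr χ ⟨t, h.htK⟩ htK1
        rw [Finset.sum_eq_zero (fun lam _ => by rw [hall lam]; simp), neg_zero] at h1
        have h2 : (χ : G → ℂ) t = 0 := h1
        rw [h2, Finset.sum_eq_zero (fun lam _ => by rw [hall lam]; simp)]
        ring

/-- PIECE K4N of S3282: degrees and order formula from the normal configuration. -/
theorem bsw_struct_normal {G : Type*} [Group G] [Fintype G] {t s : G} {K : Subgroup G} [Fintype K] [Fintype (K →* ℂˣ)] [Fintype (IrrCharacter G)] (h : BswHyp t s K) (hk : 4 ≤ Nat.card K) (ε : ℤ) (X : IrrCharacter G) (hN : BswNormal K ε X) : BswFS K t ε X := by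
  obtain ⟨l0, hl01, hl0r, hl0u⟩ := Cfsg.Agent.Helper2.bsw_exists_real h
  exact bsw_struct_normal_aux h hk ε X hN l0 hl01 hl0r hl0u

end Cfsg.Agent.Helper81
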