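import Mathlib
import Cfsg.Agent.Helper32.JorDefs

/-!
# Piece Z of the CALL for S3620 (Marggraf): the design count `lemmaZ`
-/

set_option autoImplicit false

namespace Cfsg.Agent.Helper81.JorZ

open Equiv Cfsg.Agent.Helper32.Jor

variable {Ω : Type*} [Fintype Ω] [DecidableEq Ω]

/-- PIECE Z (design count). `Y` a set off `T` such that every translate of `Y` (by elements
fixing `T`) that avoids `α` and meets `Y` equals `Y`.  Then `n₀ + 1 ≤ 2|Y|`, `n₀ = |Ω| - |T|`. -/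
theorem lemmaZ (G : Subgroup (Perm Ω)) (T : Finset Ω) (h2 : Rel2 G T)
    (Y : Finset Ω) (hYT : Disjoint Y T) (hY : 2 ≤ Y.card) (α : Ω) (hαT : α ∉ T) (hαY : α ∉ Y)
    (hstar : ∀ g ∈ G, (∀ x ∈ T, g x = x) → α ∉ mv g Y → ¬ Disjoint (mv g Y) Y → mv g Y = Y) :
    Fintype.card Ω + 1 ≤ 2 * Y.card + T.card := by
  classical
  -- two points of `Y`
  obtain ⟨β, hβ, β', hβ', hββ'⟩ := Finset.one_lt_card.mp hY
  have hβT : β ∉ T := fun h => Finset.disjoint_left.mp hYT hβ h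
  have hβ'T : β' ∉ T := fun h => Finset.disjoint_left.mp hYT hβ' h
  have hβα : β ≠ α := fun h => hαY (h ▸ hβ)
  obtain ⟨k₀, hk₀G, hk₀T, hk₀β, hk₀β'⟩ := h2 β β' β α hβT hβ'T hβT hαT hββ' hβα
  have hβY₀ : β ∈ mv k₀ Y := by
    have h := (apply_mem_mv (g := k₀) (J := Y) (x := β)).mpr hβ
    rwa [hk₀β] at h
  have hαY₀ : α ∈ mv k₀ Y := by
    have h := (apply_mem_mv (g := k₀) (J := Y) (x := β')).mpr hβ'
    rwa [hk₀β'] at h
  -- the claim
  have hclaim : (Y ∪ T)ᶜ ⊆ mv k₀ Y := by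
    intro ξ hξ
    rw [Finset.mem_compl, Finset.mem_union, not_or] at hξ
    obtain ⟨hξY, hξT⟩ := hξ
    by_cases hξα : ξ = α
    · rw [hξα]; exact hαY₀
    let 𝒴 : Finset (Finset Ω) :=
      Finset.univ.filter (fun Z => ∃ k ∈ G, (∀ x ∈ T, k x = x) ∧ mv k Y = Z)
    let 𝒜 : Finset (Finset Ω) := 𝒴.filter (fun Z => β ∈ Z ∧ ξ ∈ Z)
    let ℬ : Finset (Finset Ω) := 𝒴.filter (fun Z => β ∈ Z ∧ α ∈ Z)
    have hmemY : ∀ Z, Z ∈ 𝒴 ↔ ∃ k ∈ G, (∀ x ∈ T, k x = x) ∧ mv k Y = Z := by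
      intro Z
      simp only [𝒴, Finset.mem_filter, Finset.mem_univ, true_and]
    have hmemA : ∀ Z, Z ∈ 𝒜 ↔ Z ∈ 𝒴 ∧ β ∈ Z ∧ ξ ∈ Z := by
      intro Z
      simp only [𝒜, Finset.mem_filter]
    have hmemB : ∀ Z, Z ∈ ℬ ↔ Z ∈ 𝒴 ∧ β ∈ Z ∧ α ∈ Z := by
      intro Z
      simp only [ℬ, Finset.mem_filter]
    have hAB : 𝒜 ⊆ ℬ := by
      intro Z hZ
      rw [hmemA] at hZ
      obtain ⟨hZY, hβZ, hξZ⟩ := hZ
      rw [hmemB]
      refine ⟨hZY, hβZ, ?_⟩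
      obtain ⟨k, hkG, hkT, rfl⟩ := (hmemY Z).mp hZY
      by_contra hα
      have hmeet : ¬ Disjoint (mv k Y) Y := by
        rw [Finset.not_disjoint_iff]; exact ⟨β, hβZ, hβ⟩
      have h := hstar k hkG hkT hα hmeet
      rw [h] at hξZ
      exact hξY hξZ
    have hβξ : β ≠ ξ := fun h => hξY (h ▸ hβ)
    obtain ⟨k₁, hk₁G, hk₁T, hk₁β, hk₁α⟩ := h2 β α β ξ hβT hαT hβT hξT hβα hβξ
    have hcard : ℬ.card ≤ 𝒜.card := by
      apply Finset.card_le_card_of_injOn (fun Z => mv k₁ Z)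
      · intro Z hZ
        have hZ' : Z ∈ ℬ := hZ
        rw [hmemB] at hZ'
        obtain ⟨hZY, hβZ, hαZ⟩ := hZ'
        obtain ⟨k, hkG, hkT, rfl⟩ := (hmemY Z).mp hZY
        show mv k₁ (mv k Y) ∈ 𝒜
        rw [hmemA]
        refine ⟨(hmemY _).mpr ⟨k₁ * k, G.mul_mem hk₁G hkG, ?_, mv_mul k₁ k Y⟩, ?_, ?_⟩
        · intro x hx
          rw [Perm.mul_apply, hkT x hx, hk₁T x hx]
        · have h := (apply_mem_mv (g := k₁) (J := mv k Y) (x := β)).mpr hβZ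
          rwa [hk₁β] at h
        · have h := (apply_mem_mv (g := k₁) (J := mv k Y) (x := α)).mpr hαZ
          rwa [hk₁α] at h
      · intro Z _ Z' _ h
        exact Finset.map_injective _ h
    have hAeqB : 𝒜 = ℬ := Finset.eq_of_subset_of_card_le hAB hcard
    have hY₀B : mv k₀ Y ∈ ℬ := by
      rw [hmemB]
      exact ⟨(hmemY _).mpr ⟨k₀, hk₀G, hk₀T, rfl⟩, hβY₀, hαY₀⟩
    rw [← hAeqB, hmemA] at hY₀B
    exact hY₀B.2.2
  -- the count
  have h1 : insert β (Y ∪ T)ᶜ ⊆ mv k₀ Y := Finset.insert_subset hβY₀ hclaim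
  have h2' : β ∉ (Y ∪ T)ᶜ := by
    rw [Finset.mem_compl, not_not]; exact Finset.mem_union_left _ hβ
  have h3 := Finset.card_le_card h1
  rw [Finset.card_insert_of_notMem h2', Finset.card_compl, Finset.card_union_of_disjoint hYT,
    card_mv] at h3
  have h4 : Y.card + T.card ≤ Fintype.card Ω := by
    rw [← Finset.card_union_of_disjoint hYT]; exact Finset.card_le_univ _
  omega

end Cfsg.Agent.Helper81.JorZ
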