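import Mathlib
import Cfsg.Agent.Helper32.JorDefs
import Cfsg.Agent.Helper81.JorZ

/-!
# Piece S1 of the CALL for S3620 (Marggraf): a maximal Jordan set has at least half of the points
-/

set_option autoImplicit false

namespace Cfsg.Agent.Helper81.JorS1

open Equiv Cfsg.Agent.Helper32.Jor Cfsg.Agent.Helper81.JorZ

variable {Ω : Type*} [Fintype Ω] [DecidableEq Ω]

/-- PIECE S1 (uses Z). A maximal Jordan set `M` off `insert α T` has at least half of the
`n₀ = |Ω| - |T|` points. -/
theorem step1 (G : Subgroup (Perm Ω)) (T : Finset Ω) (h2 : Rel2 G T) (α : Ω) (hαT : α ∉ T)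
    (M : Finset Ω) (hM : IsJ G M) (hMT : Disjoint M T) (hαM : α ∉ M) (hM2 : 2 ≤ M.card)
    (hmax : ∀ J' : Finset Ω, IsJ G J' → M ⊆ J' → Disjoint J' T → α ∉ J' →
      J' = M ∨ J' = (insert α T)ᶜ) :
    Fintype.card Ω ≤ 2 * M.card + T.card := by
  classical
  by_contra hlt
  push_neg at hlt
  have hstar : ∀ g ∈ G, (∀ x ∈ T, g x = x) → α ∉ mv g M → ¬ Disjoint (mv g M) M →
      mv g M = M := by
    intro g hg hgT hαg hmeet
    have hmeet' : ¬ Disjoint M (mv g M) := fun h => hmeet h.symm
    have hJ : IsJ G (M ∪ mv g M) := IsJ.union hM (IsJ.mv hM hg) hmeet'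
    have hgMT : Disjoint (mv g M) T := by
      rw [Finset.disjoint_left]
      intro x hx hxT
      rw [mem_mv] at hx
      have h1 : g x = x := hgT x hxT
      have h2' : g.symm x = x := by
        rw [Equiv.symm_apply_eq]; exact h1.symm
      rw [h2'] at hx
      exact Finset.disjoint_left.mp hMT hx hxT
    have hJT : Disjoint (M ∪ mv g M) T := Finset.disjoint_union_left.mpr ⟨hMT, hgMT⟩
    have hαJ : α ∉ M ∪ mv g M := by
      rw [Finset.mem_union, not_or]; exact ⟨hαM, hαg⟩
    rcases hmax (M ∪ mv g M) hJ Finset.subset_union_left hJT hαJ with h | h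
    · -- `mv g M ⊆ M`
      apply Finset.eq_of_subset_of_card_le
      · have h3 : mv g M ⊆ M ∪ mv g M := Finset.subset_union_right
        rw [h] at h3
        exact h3
      · rw [card_mv]
    · exfalso
      -- the union has at most `2|M| - 1` points
      have hc1 : (M ∪ mv g M).card + (M ∩ mv g M).card = M.card + (mv g M).card :=
        Finset.card_union_add_card_inter M (mv g M)
      have hc2 : 1 ≤ (M ∩ mv g M).card := by
        rw [Finset.one_le_card]
        rw [Finset.not_disjoint_iff] at hmeet'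
        obtain ⟨x, hx1, hx2⟩ := hmeet'
        exact ⟨x, Finset.mem_inter.mpr ⟨hx1, hx2⟩⟩
      have hc3 : (M ∪ mv g M).card = Fintype.card Ω - (T.card + 1) := by
        rw [h, Finset.card_compl, Finset.card_insert_of_notMem hαT]
      have hc4 : (insert α T).card ≤ Fintype.card Ω := Finset.card_le_univ _
      rw [Finset.card_insert_of_notMem hαT] at hc4
      rw [card_mv] at hc1
      omega
  have hZ := lemmaZ G T h2 M hMT hM2 α hαT hαM hstar
  omega

end Cfsg.Agent.Helper81.JorS1
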