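import Mathlib
import Cfsg.Agent.Helper32.JorDefs

/-!
# Piece H3b1 of the CALL for S3620 (Marggraf): the point stabiliser of `Alt(X)`, `|X| ≥ 6`, is
simple (in the form needed)
-/

set_option autoImplicit false

namespace Cfsg.Agent.Helper81.JorH3b1

open Equiv

/-- `toPerm` is multiplicative. -/
theorem toPerm_mul' {G X : Type*} [Group G] [MulAction G X] (g h : G) :
    (MulAction.toPerm (g * h) : Perm X) = MulAction.toPerm g * MulAction.toPerm h :=
  (MulAction.toPermHom G X).map_mul g h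

theorem toPerm_one' {G X : Type*} [Group G] [MulAction G X] :
    (MulAction.toPerm (1 : G) : Perm X) = 1 :=
  (MulAction.toPermHom G X).map_one

theorem toPerm_inv' {G X : Type*} [Group G] [MulAction G X] (g : G) :
    (MulAction.toPerm (g⁻¹) : Perm X) = (MulAction.toPerm g)⁻¹ :=
  (MulAction.toPermHom G X).map_inv g

/-- An even permutation fixing `x₀` comes from an even permutation of the other points. -/
theorem exists_ofSubtype_eq {X : Type*} [Fintype X] [DecidableEq X] (x₀ : X) (σ : Perm X)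
    (hs : Perm.sign σ = 1) (hx : σ x₀ = x₀) :
    ∃ σ' : alternatingGroup {x : X // x ≠ x₀},
      Perm.ofSubtype (σ' : Perm {x : X // x ≠ x₀}) = σ := by
  have h₁ : ∀ x, (σ x ≠ x₀) ↔ (x ≠ x₀) := by
    intro x
    constructor
    · intro h hxx
      apply h
      rw [hxx, hx]
    · intro h hxx
      apply h
      have : σ x = σ x₀ := by rw [hxx, hx]
      exact σ.injective this
  have h₂ : ∀ x, σ x ≠ x → x ≠ x₀ := by
    intro x h hxx
    apply h
    rw [hxx, hx]
  refine ⟨⟨Perm.subtypePerm σ h₁, ?_⟩, Perm.ofSubtype_subtypePerm h₁ h₂⟩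
  rw [Equiv.Perm.mem_alternatingGroup, Perm.sign_subtypePerm σ h₁ h₂, hs]

/-- PIECE H3b1 of the CALL for S3620. -/
theorem stabilizer_alt_simple {G X : Type*} [Group G] [MulAction G X] [Fintype X]
    [DecidableEq X] [FaithfulSMul G X]
    (halt : ∀ σ : Perm X, Perm.sign σ = 1 → ∃ g : G, MulAction.toPerm g = σ)
    (h6 : 6 ≤ Fintype.card X) (x₀ : X) (M₀ : Subgroup G)
    (hnorm : ∀ d : G, Perm.sign (MulAction.toPerm d : Perm X) = 1 → d • x₀ = x₀ →
      ∀ m ∈ M₀, d * m * d⁻¹ ∈ M₀)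
    (τ : G) (hτM : τ ∈ M₀) (hτ1 : τ ≠ 1) (hτs : Perm.sign (MulAction.toPerm τ : Perm X) = 1)
    (hτx : τ • x₀ = x₀) :
    ∀ ν : G, Perm.sign (MulAction.toPerm ν : Perm X) = 1 → ν • x₀ = x₀ → ν ∈ M₀ := by
  classical
  -- the alternating group on the other points is simple
  have hcard : 5 ≤ Nat.card {x : X // x ≠ x₀} := by
    rw [Nat.card_eq_fintype_card, Fintype.card_subtype_compl, Fintype.card_subtype_eq]
    omega
  haveI : IsSimpleGroup (alternatingGroup {x : X // x ≠ x₀}) :=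
    alternatingGroup.isSimpleGroup hcard
  -- the normal subgroup of `Alt(X')` cut out by `M₀`
  let N : Subgroup (alternatingGroup {x : X // x ≠ x₀}) :=
    { carrier := {σ' | ∃ m ∈ M₀, (MulAction.toPerm m : Perm X) =
        Perm.ofSubtype (σ' : Perm {x : X // x ≠ x₀})}
      one_mem' := ⟨1, M₀.one_mem, by rw [toPerm_one']; simp⟩
      mul_mem' := by
        rintro a b ⟨m₁, hm₁, h₁⟩ ⟨m₂, hm₂, h₂⟩
        refine ⟨m₁ * m₂, M₀.mul_mem hm₁ hm₂, ?_⟩
        rw [toPerm_mul', h₁, h₂, Subgroup.coe_mul, map_mul]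
      inv_mem' := by
        rintro a ⟨m, hm, h⟩
        refine ⟨m⁻¹, M₀.inv_mem hm, ?_⟩
        rw [toPerm_inv', h, Subgroup.coe_inv, map_inv] }
  have hNmem : ∀ σ' : alternatingGroup {x : X // x ≠ x₀}, σ' ∈ N ↔
      ∃ m ∈ M₀, (MulAction.toPerm m : Perm X) =
        Perm.ofSubtype (σ' : Perm {x : X // x ≠ x₀}) := fun σ' => Iff.rfl
  have hNnormal : N.Normal := by
    refine ⟨fun σ' hσ' ρ' => ?_⟩
    obtain ⟨m, hm, h⟩ := (hNmem σ').mp hσ'
    have hρs : Perm.sign (Perm.ofSubtype (ρ' : Perm {x : X // x ≠ x₀})) = 1 := by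
      rw [Perm.sign_ofSubtype]
      exact Equiv.Perm.mem_alternatingGroup.mp ρ'.2
    obtain ⟨d, hd⟩ := halt _ hρs
    have hdx : d • x₀ = x₀ := by
      have h1 : (MulAction.toPerm d : Perm X) x₀ = x₀ := by
        rw [hd]
        exact Perm.ofSubtype_apply_of_not_mem _ (by simp)
      exact h1
    have hds : Perm.sign (MulAction.toPerm d : Perm X) = 1 := by rw [hd]; exact hρs
    rw [hNmem]
    refine ⟨d * m * d⁻¹, hnorm d hds hdx m hm, ?_⟩
    rw [toPerm_mul', toPerm_mul', toPerm_inv', hd, h, Subgroup.coe_mul, Subgroup.coe_mul,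
      Subgroup.coe_inv, map_mul, map_mul, map_inv]
  -- `N` is not trivial
  have hτperm : (MulAction.toPerm τ : Perm X) x₀ = x₀ := hτx
  obtain ⟨σ'τ, hσ'τ⟩ := exists_ofSubtype_eq x₀ (MulAction.toPerm τ : Perm X) hτs hτperm
  have hτN : σ'τ ∈ N := (hNmem σ'τ).mpr ⟨τ, hτM, hσ'τ.symm⟩
  have hσ'τ1 : σ'τ ≠ 1 := by
    intro h
    apply hτ1
    apply MulAction.toPerm_injective (α := G) (β := X)
    rw [← hσ'τ, h, toPerm_one']
    simp
  have hNtop : N = ⊤ := by
    rcases hNnormal.eq_bot_or_eq_top with h | h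
    · exfalso
      rw [h, Subgroup.mem_bot] at hτN
      exact hσ'τ1 hτN
    · exact h
  -- conclusion
  intro ν hνs hνx
  have hνperm : (MulAction.toPerm ν : Perm X) x₀ = x₀ := hνx
  obtain ⟨σ'ν, hσ'ν⟩ := exists_ofSubtype_eq x₀ (MulAction.toPerm ν : Perm X) hνs hνperm
  have hνN : σ'ν ∈ N := by rw [hNtop]; exact Subgroup.mem_top _
  obtain ⟨m, hm, h⟩ := (hNmem σ'ν).mp hνN
  have hmν : m = ν := by
    apply MulAction.toPerm_injective (α := G) (β := X)
    rw [h, hσ'ν]
  rw [← hmν]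
  exact hm

end Cfsg.Agent.Helper81.JorH3b1
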