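import Cfsg.Agent.Helper75.Contrib3
import Cfsg.Agent.Helper73.BrauerFeit2
import Cfsg.Agent.Helper76.CentralChar
import Cfsg.Agent.Helper81.LocalRing

/-!
# Contributions of involution subsections are odd integers

For a `2`-element `y` with `y * y = 1`, a subgroup `H` in which `y` is central and a block `b` of
`H`, the contribution `2^d m_{χψ}^{(y,b)}` (`Helper75.contrib`) is a rational integer.  For a
block `B` of defect `d ≤ 2` (all heights are zero) and a subsection `(y, b)` with `b` of the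
same defect and `l(b) = 1`, this forces `k(B) = 2^d`.

* `kf_central_invol_scalar`: a central involution acts on an irreducible character by a sign.
* `kf_secCoeff_int`, `kf_contrib_int`: integrality.
* `kf_height_zero`: all heights are zero in a block of defect at most two.
* `kf_card_of_major`: `k(B) = 2^d`.
* `kf_defect_one`: a `2`-block of defect one has `k = 2`, `l = 1`.
-/

set_option autoImplicit false
open Cfsg
open scoped ComplexConjugate

namespace Cfsg.Agent.Helper81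

universe u

/-- A central involution acts on an irreducible character by a sign. -/
theorem kf_central_invol_scalar {H : Type u} [Group H] (z : H) (hz : z ∈ Subgroup.center H)
    (hz2 : z * z = 1) (θ : Cfsg.IrrCharacter H) :
    ∃ ε : ℤ, (ε = 1 ∨ ε = -1) ∧ ∀ h : H, (θ : H → ℂ) (z * h) = (ε : ℂ) * (θ : H → ℂ) h := by
  obtain ⟨c, hc⟩ := Helper76.exists_central_scalar (Subgroup.center H).subtype (fun w => w.2) θ
  obtain ⟨hc1, hcmul⟩ := Helper76.scalar_mul (Subgroup.center H).subtype (θ : H → ℂ)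
    (irr_one_ne_zero θ) c hc
  have hsq : c ⟨z, hz⟩ * c ⟨z, hz⟩ = 1 := by
    rw [← hcmul, ← hc1]
    congr 1
    exact Subtype.ext hz2
  have key : ∀ h : H, (θ : H → ℂ) (z * h) = c ⟨z, hz⟩ * (θ : H → ℂ) h := by
    intro h
    have h1 := hc ⟨z, hz⟩ h
    rw [← h1]
    show (θ : H → ℂ) (z * h) = (θ : H → ℂ) (h * z)
    rw [Subgroup.mem_center_iff.mp hz h]
  have hcases : c ⟨z, hz⟩ = 1 ∨ c ⟨z, hz⟩ = -1 := by
    have h2 : (c ⟨z, hz⟩ - 1) * (c ⟨z, hz⟩ + 1) = 0 := by linear_combination hsq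
    rcases mul_eq_zero.mp h2 with h | h
    · left; linear_combination h
    · right; linear_combination h
  rcases hcases with h | h
  · exact ⟨1, Or.inl rfl, fun x => by rw [key, h]; push_cast; ring⟩
  · exact ⟨-1, Or.inr rfl, fun x => by rw [key, h]; push_cast; ring⟩

section sub

variable {G : Type u} [Group G] [Fintype G]

/-- The coefficient of `θ` in `c ↦ χ(y c)` is a rational integer when `y` is a central
involution of `H` (or trivial). -/
theorem kf_secCoeff_int (H : Subgroup G) [Fintype H] (y : G) (hyH : y ∈ H)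
    (hcent : ∀ h : H, y * (h : G) = (h : G) * y) (hy2 : y * y = 1)
    (χ : Cfsg.IrrCharacter G) (θ : Cfsg.IrrCharacter H) :
    ∃ n : ℤ, Cfsg.classInner (fun c : H => (χ : G → ℂ) (y * c)) (θ : H → ℂ) = (n : ℂ) := by
  have hz : (⟨y, hyH⟩ : H) ∈ Subgroup.center H := by
    rw [Subgroup.mem_center_iff]
    intro h
    exact Subtype.ext (hcent h).symm
  have hz2 : (⟨y, hyH⟩ : H) * ⟨y, hyH⟩ = 1 := Subtype.ext hy2
  obtain ⟨ε, hε, hεθ⟩ := kf_central_invol_scalar (⟨y, hyH⟩ : H) hz hz2 θ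
  obtain ⟨a, ha⟩ := Helper3.classInner_isCharacter_nat
    (Helper79.isCharacter_restrict (Helper79.irr_isCharacter χ) H) (Helper79.irr_isCharacter θ)
  refine ⟨ε * a, ?_⟩
  have hsum : ∑ g : H, (χ : G → ℂ) (y * (g : G)) * conj ((θ : H → ℂ) g)
      = (ε : ℂ) * ∑ g : H, (χ : G → ℂ) (g : G) * conj ((θ : H → ℂ) g) := by
    rw [Finset.mul_sum, ← Equiv.sum_comp (Equiv.mulLeft (⟨y, hyH⟩ : H))
      (fun g : H => (χ : G → ℂ) (y * (g : G)) * conj ((θ : H → ℂ) g))]
    refine Finset.sum_congr rfl fun g _ => ?_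
    simp only [Equiv.coe_mulLeft]
    rw [hεθ g]
    have h3 : y * ((⟨y, hyH⟩ * g : H) : G) = (g : G) := by
      rw [Subgroup.coe_mul, ← mul_assoc]
      show y * y * (g : G) = (g : G)
      rw [hy2, one_mul]
    rw [h3, map_mul, map_intCast]
    ring
  have ha' : (Nat.card H : ℂ)⁻¹ * ∑ g : H, (χ : G → ℂ) (g : G) * conj ((θ : H → ℂ) g) = (a : ℂ) := ha
  unfold Cfsg.classInner
  rw [hsum]
  push_cast
  rw [← ha']
  ring

/-- Contributions of an involution subsection are rational integers. -/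
theorem kf_contrib_int (H : Subgroup G) [Fintype H] {M : Ideal Cfsg.AlgInt}
    (hM : Cfsg.IsPModular 2 M) (y : G) (hyH : y ∈ H)
    (hcent : ∀ h : H, y * (h : G) = (h : G) * y) (hy2 : y * y = 1)
    {b : Set (Cfsg.IrrCharacter H)} (hb : Cfsg.IsPBlock M b) {d : ℕ}
    (hd : Cfsg.blockDefect 2 b = d) (χ ψ : Cfsg.IrrCharacter G) :
    ∃ n : ℤ, Helper75.contrib H y b 2 d (χ : G → ℂ) (ψ : G → ℂ) = (n : ℂ) := by
  classical
  have := Fintype.ofFinite (Cfsg.IrrCharacter H)
  rw [Helper75.contrib_eq_sum]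
  choose a ha using fun θ : Cfsg.IrrCharacter H => kf_secCoeff_int H y hyH hcent hy2 χ θ
  choose a' ha' using fun θ : Cfsg.IrrCharacter H => kf_secCoeff_int H y hyH hcent hy2 ψ θ
  have hcn : ∀ θ θ' : Cfsg.IrrCharacter H, ∃ j : ℤ, θ' ∈ b →
      Helper75.cn 2 d (θ : H → ℂ) (θ' : H → ℂ) = (j : ℂ) := by
    intro θ θ'
    by_cases hθ' : θ' ∈ b
    · obtain ⟨j, hj⟩ := Helper75.cn_int hM hb hd θ hθ'
      exact ⟨j, fun _ => hj⟩
    · exact ⟨0, fun h => absurd h hθ'⟩
  choose j hj using hcn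
  refine ⟨∑ θ ∈ Finset.univ.filter (fun θ : Cfsg.IrrCharacter H => θ ∈ b),
      ∑ θ' ∈ Finset.univ.filter (fun θ : Cfsg.IrrCharacter H => θ ∈ b),
        a θ * a' θ' * j θ θ', ?_⟩
  push_cast
  refine Finset.sum_congr rfl fun θ _ => Finset.sum_congr rfl fun θ' hθ' => ?_
  rw [Finset.mem_filter] at hθ'
  rw [ha θ, ha' θ', hj θ θ' hθ'.2, map_intCast]

end sub

section main

variable {G : Type u} [Group G] [Fintype G]

/-- All heights are zero in a block of defect at most two. -/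
theorem kf_height_zero {p : ℕ} {M : Ideal Cfsg.AlgInt} (hM : Cfsg.IsPModular p M)
    {B : Set (Cfsg.IrrCharacter G)} (hB : Cfsg.IsPBlock M B)
    (hd : Cfsg.blockDefect p B ≤ 2) {χ : Cfsg.IrrCharacter G} (hχ : χ ∈ B) :
    Cfsg.blockHeight p B (χ : G → ℂ) = 0 := by
  by_contra h
  have := Helper73.height_add_two_le hM hB hχ (Nat.pos_of_ne_zero h)
  omega

/-- The contribution of two height zero characters, as an integer, is odd. -/
theorem kf_contrib_odd (H : Subgroup G) [Fintype H] {M : Ideal Cfsg.AlgInt}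
    (hM : Cfsg.IsPModular 2 M) (y : G) (hyH : y ∈ H)
    (hcent : ∀ h : H, y * (h : G) = (h : G) * y) (hyp : ∃ k : ℕ, orderOf y = 2 ^ k)
    {b : Set (Cfsg.IrrCharacter H)} {B : Set (Cfsg.IrrCharacter G)}
    (hind : Cfsg.IsInducedBlock M H b B) {d : ℕ} (hd : Cfsg.blockDefect 2 b = d)
    {χ ψ : Cfsg.IrrCharacter G} (hχ : χ ∈ B) (hχ0 : Cfsg.blockHeight 2 B (χ : G → ℂ) = 0)
    (hψ : ψ ∈ B) (hψ0 : Cfsg.blockHeight 2 B (ψ : G → ℂ) = 0) {n : ℤ}
    (hn : Helper75.contrib H y b 2 d (χ : G → ℂ) (ψ : G → ℂ) = (n : ℂ)) : ¬ (2 : ℤ) ∣ n := by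
  rintro ⟨m, rfl⟩
  have hP := isPrime_of_isPModular hM
  apply Helper75.contrib_not_memLocalIdeal H hM y hyH hcent hyp hind hd hχ hχ0 hψ hψ0
  rw [hn]
  push_cast
  have h2 : Cfsg.MemLocalIdeal M ((2 : ℕ) : ℂ) := memLocalIdeal_natCast_of_dvd hM dvd_rfl
  exact memLocalIdeal_mul_right (by simpa using h2)
    (memLocalRing_intCast (ne_top_of_isPModular hM) m)

omit [Group G] [Fintype G] in
/-- A symmetric-type integer matrix with odd entries, trace `2^d` and row sums of squares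
`2^d n_ii` (with `d ≤ 2`) has exactly `2^d` rows. -/
theorem kf_card_of_odd_matrix {ι : Type*} (s : Finset ι) (hs : s.Nonempty) (n : ι → ι → ℤ)
    (d : ℕ) (hd : d ≤ 2) (hodd : ∀ i ∈ s, ∀ j ∈ s, ¬ (2 : ℤ) ∣ n i j)
    (htr : ∑ i ∈ s, n i i = 2 ^ d)
    (hrow : ∀ i ∈ s, ∑ j ∈ s, (n i j) ^ 2 = 2 ^ d * n i i) : s.card = 2 ^ d := by
  classical
  have h2d : (2 : ℤ) ^ d ≤ 4 := by
    have : (2 : ℤ) ^ d ≤ 2 ^ 2 := pow_le_pow_right₀ (by norm_num) hd
    simpa using this
  have h2d0 : (0 : ℤ) < 2 ^ d := by positivity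
  have hpos : ∀ i ∈ s, 1 ≤ n i i := by
    intro i hi
    have h1 : (n i i) ^ 2 ≤ ∑ j ∈ s, (n i j) ^ 2 :=
      Finset.single_le_sum (f := fun j => (n i j) ^ 2) (fun j _ => sq_nonneg _) hi
    rw [hrow i hi] at h1
    have h0 : n i i ≠ 0 := by
      intro h
      exact hodd i hi i hi (by rw [h]; exact dvd_zero _)
    have h3 : 0 < (n i i) ^ 2 := by positivity
    nlinarith
  obtain ⟨i₀, hi₀, h1⟩ : ∃ i ∈ s, n i i = 1 := by
    by_contra hcon
    push Not at hcon
    have h3 : ∀ i ∈ s, 3 ≤ n i i := by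
      intro i hi
      have h1 := hpos i hi
      have h2 := hcon i hi
      have h4 : n i i ≠ 2 := by
        intro h
        exact hodd i hi i hi (by rw [h])
      omega
    have h5 : (3 : ℤ) * s.card ≤ ∑ i ∈ s, n i i := by
      have : ∑ _i ∈ s, (3 : ℤ) ≤ ∑ i ∈ s, n i i := Finset.sum_le_sum h3
      simpa [mul_comm] using this
    rw [htr] at h5
    have hc1 : 1 ≤ s.card := Finset.card_pos.mpr hs
    have hc2 : s.card = 1 := by
      have : (s.card : ℤ) ≤ 1 := by omega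
      have : s.card ≤ 1 := by exact_mod_cast this
      omega
    obtain ⟨i, hi⟩ := Finset.card_eq_one.mp hc2
    rw [hi, Finset.sum_singleton] at htr
    have hi' : i ∈ s := by rw [hi]; exact Finset.mem_singleton_self i
    have h6 := h3 i hi'
    have h7 : n i i = 4 := by
      have : d = 0 ∨ d = 1 ∨ d = 2 := by omega
      rcases this with rfl | rfl | rfl
      · norm_num at htr; omega
      · norm_num at htr; omega
      · norm_num at htr; exact htr
    exact hodd i hi' i hi' (by rw [h7]; norm_num)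
  have hr := hrow i₀ hi₀
  rw [h1, mul_one] at hr
  have hone : ∀ j ∈ s, (n i₀ j) ^ 2 = 1 := by
    intro j hj
    have h3 : (n i₀ j) ^ 2 ≤ ∑ j ∈ s, (n i₀ j) ^ 2 :=
      Finset.single_le_sum (f := fun j => (n i₀ j) ^ 2) (fun j _ => sq_nonneg _) hj
    rw [hr] at h3
    have h4 : (n i₀ j) ^ 2 ≤ 4 := le_trans h3 h2d
    have hlo : -2 ≤ n i₀ j := by nlinarith
    have hhi : n i₀ j ≤ 2 := by nlinarith
    have ho := hodd i₀ hi₀ j hj
    have h5 : n i₀ j = 1 ∨ n i₀ j = -1 := by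
      have : n i₀ j = -2 ∨ n i₀ j = -1 ∨ n i₀ j = 0 ∨ n i₀ j = 1 ∨ n i₀ j = 2 := by omega
      rcases this with h | h | h | h | h
      · exact absurd (by rw [h]; norm_num) ho
      · exact Or.inr h
      · exact absurd (by rw [h]; exact dvd_zero _) ho
      · exact Or.inl h
      · exact absurd (by rw [h]) ho
    rcases h5 with h | h <;> rw [h] <;> norm_num
  rw [Finset.sum_congr rfl hone] at hr
  have h8 : ((s.card : ℕ) : ℤ) = ((2 ^ d : ℕ) : ℤ) := by
    push_cast
    rw [← hr]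
    simp
  exact_mod_cast h8

/-- **Major involution subsections with one Brauer character.**  Let `B` be a `2`-block of
defect `d ≤ 2`, `y` an element with `y * y = 1`, and `b` a block of `C_G(y)` of defect `d`
inducing `B` with `l(b) = 1`.  Then `k(B) = 2^d`. -/
theorem kf_card_of_major {M : Ideal Cfsg.AlgInt} (hM : Cfsg.IsPModular 2 M)
    {B : Set (Cfsg.IrrCharacter G)} (hB : Cfsg.IsPBlock M B) {d : ℕ}
    (hd : Cfsg.blockDefect 2 B = d) (hd2 : d ≤ 2) (y : G) (hy2 : y * y = 1)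
    (H : Subgroup G) (hH : H = Subgroup.centralizer ({y} : Set G))
    (b : Set (Cfsg.IrrCharacter H)) (hind : Cfsg.IsInducedBlock M H b B)
    (hbd : Cfsg.blockDefect 2 b = d) (hl : Cfsg.blockRank 2 b = 1) :
    Nat.card B = 2 ^ d := by
  classical
  subst hH
  have hpf : Fact (Nat.Prime 2) := ⟨hM.1⟩
  let _ : Fintype (Subgroup.centralizer ({y} : Set G)) := Fintype.ofFinite _
  have := Fintype.ofFinite (Cfsg.IrrCharacter G)
  have hyC : y ∈ Subgroup.centralizer ({y} : Set G) := by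
    rw [Subgroup.mem_centralizer_iff]
    intro s hs
    rw [Set.mem_singleton_iff] at hs
    rw [hs]
  have hcent : ∀ h : Subgroup.centralizer ({y} : Set G), y * (h : G) = (h : G) * y :=
    fun c => Subgroup.mem_centralizer_iff.mp c.2 y rfl
  have hyp : ∃ k : ℕ, orderOf y = 2 ^ k := by
    have h1 : orderOf y ∣ 2 := orderOf_dvd_of_pow_eq_one (by rw [pow_two, hy2])
    rcases (Nat.dvd_prime Nat.prime_two).mp h1 with h | h
    · exact ⟨0, by rw [h, pow_zero]⟩
    · exact ⟨1, by rw [h, pow_one]⟩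
  obtain ⟨BF, hBFdef⟩ : ∃ BF : Finset (Cfsg.IrrCharacter G),
      BF = Finset.univ.filter (fun χ : Cfsg.IrrCharacter G => χ ∈ B) := ⟨_, rfl⟩
  have hBF : ∀ χ, χ ∈ BF ↔ χ ∈ B := by
    intro χ
    rw [hBFdef]
    simp
  have hcardB : Nat.card B = BF.card := by
    rw [Nat.card_eq_fintype_card, hBFdef, Fintype.card_subtype]
  have hh : ∀ χ ∈ B, Cfsg.blockHeight 2 B (χ : G → ℂ) = 0 :=
    fun χ hχ => kf_height_zero hM hB (by omega) hχ
  choose n hn using fun χ ψ : Cfsg.IrrCharacter G =>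
    kf_contrib_int (Subgroup.centralizer ({y} : Set G)) hM y hyC hcent hy2 hind.1 hbd χ ψ
  have hodd : ∀ χ ∈ BF, ∀ ψ ∈ BF, ¬ (2 : ℤ) ∣ n χ ψ := fun χ hχ ψ hψ =>
    kf_contrib_odd _ hM y hyC hcent hyp hind hbd ((hBF χ).mp hχ) (hh χ ((hBF χ).mp hχ))
      ((hBF ψ).mp hψ) (hh ψ ((hBF ψ).mp hψ)) (hn χ ψ)
  have htr : ∑ χ ∈ BF, n χ χ = 2 ^ d := by
    have h1 := Helper75.contrib_trace hM y hyp B b hind BF hBF d
    rw [hl] at h1
    have h2 : ((∑ χ ∈ BF, n χ χ : ℤ) : ℂ) = (((2 : ℤ) ^ d : ℤ) : ℂ) := by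
      push_cast
      rw [← Finset.sum_congr rfl (fun χ _ => hn χ χ), h1]
      push_cast
      ring
    exact_mod_cast h2
  have hrow : ∀ χ ∈ BF, ∑ ψ ∈ BF, (n χ ψ) ^ 2 = 2 ^ d * n χ χ := by
    intro χ _
    have h1 := Helper75.contrib_row hM y hyp B b hind BF hBF d χ
    have h2 : ((∑ ψ ∈ BF, (n χ ψ) ^ 2 : ℤ) : ℂ) = (((2 : ℤ) ^ d * n χ χ : ℤ) : ℂ) := by
      push_cast
      rw [← hn χ χ]
      have h3 : ∀ ψ ∈ BF, ((n χ ψ : ℤ) : ℂ) ^ 2
          = Helper75.contrib (Subgroup.centralizer ({y} : Set G)) y b 2 d (χ : G → ℂ) (ψ : G → ℂ)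
            * conj (Helper75.contrib (Subgroup.centralizer ({y} : Set G)) y b 2 d
              (χ : G → ℂ) (ψ : G → ℂ)) := by
        intro ψ _
        rw [hn χ ψ, map_intCast, sq]
      rw [Finset.sum_congr rfl h3, h1]
      push_cast
      ring
    exact_mod_cast h2
  obtain ⟨χ₀, hχ₀⟩ := Helper77.block_nonempty hM.2.1 hB
  rw [hcardB]
  exact kf_card_of_odd_matrix BF ⟨χ₀, (hBF χ₀).mpr hχ₀⟩ n d hd2 hodd htr hrow

/-- **Blocks of defect one for the prime `2`** have exactly two irreducible characters and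
`2`-regular rank one. -/
theorem kf_defect_one {M : Ideal Cfsg.AlgInt} (hM : Cfsg.IsPModular 2 M)
    {B : Set (Cfsg.IrrCharacter G)} (hB : Cfsg.IsPBlock M B)
    (hd : Cfsg.blockDefect 2 B = 1) : Nat.card B = 2 ∧ Cfsg.blockRank 2 B = 1 := by
  classical
  have hpf : Fact (Nat.Prime 2) := ⟨hM.1⟩
  have := Fintype.ofFinite (Cfsg.IrrCharacter G)
  have hG : (Nat.card G : ℂ) ≠ 0 := by exact_mod_cast Nat.card_pos.ne'
  obtain ⟨BF, hBFdef⟩ : ∃ BF : Finset (Cfsg.IrrCharacter G),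
      BF = Finset.univ.filter (fun χ : Cfsg.IrrCharacter G => χ ∈ B) := ⟨_, rfl⟩
  have hBF : ∀ χ, χ ∈ BF ↔ χ ∈ B := by
    intro χ
    rw [hBFdef]
    simp
  have hcardB : Nat.card B = BF.card := by
    rw [Nat.card_eq_fintype_card, hBFdef, Fintype.card_subtype]
  have key : ∀ χ ∈ B, (BF.erase χ).card = 1 ∧
      Helper77.pregInner 2 (χ : G → ℂ) (χ : G → ℂ) = (Nat.card G : ℂ) / 2 := by
    intro χ hχ
    obtain ⟨m, hm, hout, hin⟩ := Helper73.exists_mult_of_height_zero hM hB hχ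
      (kf_height_zero hM hB (by omega) hχ)
    have hpar := Helper73.sum_sq_classInner_pregScal 2 (2 ^ Cfsg.blockDefect 2 B) χ m hm
    rw [hd] at hpar
    have hodd : ∀ ψ ∈ B, ¬ (2 : ℤ) ∣ m ψ := by
      intro ψ hψ hdvd
      obtain ⟨h0, hv⟩ := hin ψ hψ
      rw [kf_height_zero hM hB (by omega) hψ] at hv
      have h1 : ((2 : ℕ) : ℤ) ^ 1 ∣ m ψ := by simpa using hdvd
      rw [padicValInt_dvd_iff] at h1
      rcases h1 with h1 | h1
      · exact h0 h1
      · omega
    have hmχ : m χ = 1 := by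
      have h1 : (m χ) ^ 2 ≤ ∑ ψ : Cfsg.IrrCharacter G, (m ψ) ^ 2 :=
        Finset.single_le_sum (f := fun ψ => (m ψ) ^ 2) (fun ψ _ => sq_nonneg _)
          (Finset.mem_univ χ)
      rw [hpar] at h1
      have h0 : m χ ≠ 0 := (hin χ hχ).1
      have h3 : 0 < (m χ) ^ 2 := by positivity
      have ho := hodd χ hχ
      have h4 : 0 < m χ := by
        push_cast at h1
        nlinarith
      have h5 : m χ ≤ 2 := by
        push_cast at h1
        nlinarith
      have h6 : m χ ≠ 2 := by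
        intro h
        exact ho (by rw [h])
      omega
    have hsum : ∑ ψ ∈ BF.erase χ, (m ψ) ^ 2 = 1 := by
      have h1 : ∑ ψ ∈ Finset.univ.erase χ, (m ψ) ^ 2 = 1 := by
        rw [← Finset.add_sum_erase _ _ (Finset.mem_univ χ), hmχ] at hpar
        push_cast at hpar
        linarith
      rw [← h1]
      apply Finset.sum_subset (Finset.erase_subset_erase _ (Finset.subset_univ _))
      intro ψ hψ hψ'
      have hψB : ψ ∉ B := by
        intro h
        apply hψ'
        rw [Finset.mem_erase] at hψ ⊢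
        exact ⟨hψ.1, (hBF ψ).mpr h⟩
      rw [hout ψ hψB]
      norm_num
    refine ⟨?_, ?_⟩
    · have h1 : ∀ ψ ∈ BF.erase χ, (1 : ℤ) ≤ (m ψ) ^ 2 := by
        intro ψ hψ
        have hψB : ψ ∈ B := (hBF ψ).mp (Finset.mem_of_mem_erase hψ)
        exact Helper73.one_le_sq_of_ne_zero (hin ψ hψB).1
      have h2 : ((BF.erase χ).card : ℤ) ≤ 1 := by
        have : ∑ _ψ ∈ BF.erase χ, (1 : ℤ) ≤ ∑ ψ ∈ BF.erase χ, (m ψ) ^ 2 := Finset.sum_le_sum h1
        rw [hsum] at this
        simpa using this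
      have h3 : (BF.erase χ).card ≠ 0 := by
        intro h
        rw [Finset.card_eq_zero] at h
        rw [h, Finset.sum_empty] at hsum
        norm_num at hsum
      have h4 : (BF.erase χ).card ≤ 1 := by exact_mod_cast h2
      omega
    · have h1 := hm χ
      rw [hmχ, hd] at h1
      unfold Cfsg.classInner Helper73.pregScal at h1
      have h2 : ∑ x : G, (if 2 ∣ orderOf x then 0 else ((2 ^ 1 : ℕ) : ℂ) * (χ : G → ℂ) x)
            * conj ((χ : G → ℂ) x)
          = 2 * Helper77.pregInner 2 (χ : G → ℂ) (χ : G → ℂ) := by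
        unfold Helper77.pregInner
        rw [Finset.mul_sum]
        refine Finset.sum_congr rfl fun x _ => ?_
        split_ifs
        · simp
        · push_cast
          ring
      rw [h2] at h1
      push_cast at h1
      field_simp at h1
      field_simp
      linear_combination h1
  obtain ⟨χ₀, hχ₀⟩ := Helper77.block_nonempty hM.2.1 hB
  have hc2 : BF.card = 2 := by
    have h1 := (key χ₀ hχ₀).1
    have h2 := Finset.card_erase_add_one ((hBF χ₀).mpr hχ₀)
    omega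
  refine ⟨by rw [hcardB, hc2], ?_⟩
  have htr := Helper77.card_mul_blockRank hM hB
  rw [← hBFdef, Finset.sum_congr rfl (fun χ hχ => (key χ ((hBF χ).mp hχ)).2), Finset.sum_const,
    hc2] at htr
  have h3 : (Nat.card G : ℂ) * (Cfsg.blockRank 2 B : ℂ) = (Nat.card G : ℂ) * 1 := by
    rw [htr]
    simp only [nsmul_eq_mul]
    push_cast
    ring
  have h4 := mul_left_cancel₀ hG h3
  exact_mod_cast h4

end main

end Cfsg.Agent.Helper81
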