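import Mathlib

/-!
# Piece B1 of S4607 (helper81, for helper77): one simple module, and `ker g = Ann(z)`

Let `𝔅` be a finite-dimensional symmetric algebra over a field `k` whose centre has dimension at
most two and contains a nonzero element `z` with `z * z = 0`, and let `f` be a surjection onto a
product of matrix rings with nilpotent kernel.  Then the product has exactly one factor, and the
kernel of the resulting surjection `g` onto a matrix ring is the annihilator of `z`.

* `k2b1_dual`: a functional vanishing on commutators is `lam (c * ·)` with `c` central.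
* `k2b1_central_sq_zero`: a central matrix with square zero vanishes.
* `k2b1_span`: two independent central elements span the centre.
* `k2_single_block`: the statement.
-/

set_option autoImplicit false

namespace Cfsg.Agent.Helper81

universe u v

section k2b1

variable {k : Type v} [Field k] {𝔅 : Type u} [Ring 𝔅] [Algebra k 𝔅]

/-- Duality for a symmetric algebra: a functional vanishing on commutators is `lam (c * ·)` with
`c` central. -/
theorem k2b1_dual [FiniteDimensional k 𝔅] (lam : 𝔅 →ₗ[k] k)
    (hsym : ∀ x y, lam (x * y) = lam (y * x))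
    (hnd : ∀ x, (∀ y, lam (x * y) = 0) → x = 0)
    (t : 𝔅 →ₗ[k] k) (ht : ∀ x y, t (x * y) = t (y * x)) :
    ∃ c : 𝔅, (∀ x, t x = lam (c * x)) ∧ ∀ a, c * a = a * c := by
  let Φ : 𝔅 →ₗ[k] Module.Dual k 𝔅 := (LinearMap.mul k 𝔅).compr₂ lam
  have hΦ : ∀ c x, Φ c x = lam (c * x) := fun c x => rfl
  have hinj : Function.Injective Φ := by
    rw [← LinearMap.ker_eq_bot, LinearMap.ker_eq_bot']
    intro c hc
    apply hnd
    intro y
    rw [← hΦ, hc]
    rfl
  have hsurj : Function.Surjective Φ :=
    (LinearMap.injective_iff_surjective_of_finrank_eq_finrank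
      (Subspace.dual_finrank_eq (K := k) (V := 𝔅)).symm).mp hinj
  obtain ⟨c, hc⟩ := hsurj t
  have hc' : ∀ x, t x = lam (c * x) := fun x => by rw [← hc]; rfl
  refine ⟨c, hc', fun a => ?_⟩
  have h0 : c * a - a * c = 0 := by
    apply hnd
    intro y
    have e1 : lam (c * a * y) = t (a * y) := by rw [mul_assoc, ← hc']
    have e2 : lam (a * c * y) = t (y * a) := by
      rw [mul_assoc, hsym a (c * y), mul_assoc, ← hc']
    rw [sub_mul, map_sub, e1, e2, ht, sub_self]
  exact sub_eq_zero.mp h0

/-- A central matrix with square zero vanishes. -/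
theorem k2b1_central_sq_zero {n : ℕ} (A : Matrix (Fin n) (Fin n) k)
    (hA : ∀ B : Matrix (Fin n) (Fin n) k, A * B = B * A) (hA2 : A * A = 0) : A = 0 := by
  ext a b
  rw [Matrix.zero_apply]
  have h1 : A * Matrix.single b a (1 : k) * A = 0 := by
    rw [hA, Matrix.mul_assoc, hA2, Matrix.mul_zero]
  have h2 := congrFun (congrFun h1 a) b
  rw [Matrix.mul_apply, Matrix.zero_apply] at h2
  rw [Finset.sum_eq_single a] at h2
  · rw [Matrix.mul_single_apply_same, mul_one] at h2
    exact mul_self_eq_zero.mp h2
  · intro j _ hj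
    rw [Matrix.mul_single_apply_of_ne (c := (1 : k)) b a a j hj A, zero_mul]
  · intro h
    exact absurd (Finset.mem_univ _) h

/-- Two independent central elements span the centre, when it has dimension at most two. -/
theorem k2b1_span
    (hZ : ∀ v : Fin 3 → 𝔅, (∀ i a, v i * a = a * v i) → ¬ LinearIndependent k v)
    (c₀ c₁ w : 𝔅) (h0 : ∀ a, c₀ * a = a * c₀) (h1 : ∀ a, c₁ * a = a * c₁)
    (hw : ∀ a, w * a = a * w) (hli : ∀ α β : k, α • c₀ + β • c₁ = 0 → α = 0 ∧ β = 0) :
    ∃ α β : k, w = α • c₀ + β • c₁ := by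
  have h := hZ ![c₀, c₁, w] (by
    intro i a
    fin_cases i
    · simpa using h0 a
    · simpa using h1 a
    · simpa using hw a)
  rw [Fintype.not_linearIndependent_iff] at h
  obtain ⟨g, hg, i, hi⟩ := h
  rw [Fin.sum_univ_three] at hg
  simp only [Matrix.cons_val_zero, Matrix.cons_val_one, Matrix.cons_val_two,
    Matrix.head_cons, Matrix.tail_cons] at hg
  have hg2 : g 2 ≠ 0 := by
    intro h2
    rw [h2, zero_smul, add_zero] at hg
    obtain ⟨ha, hb⟩ := hli _ _ hg
    fin_cases i
    · exact hi ha
    · exact hi hb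
    · exact hi h2
  refine ⟨-((g 2)⁻¹ * g 0), -((g 2)⁻¹ * g 1), ?_⟩
  have h3 : g 2 • w = -(g 0 • c₀ + g 1 • c₁) := by
    rw [eq_neg_iff_add_eq_zero, add_comm]
    exact hg
  calc w = (g 2)⁻¹ • (g 2 • w) := by rw [smul_smul, inv_mul_cancel₀ hg2, one_smul]
    _ = -((g 2)⁻¹ * g 0) • c₀ + -((g 2)⁻¹ * g 1) • c₁ := by
        rw [h3, smul_neg, smul_add, smul_smul, smul_smul, neg_add, neg_smul, neg_smul]

/-- The identity matrix as a sum of diagonal matrix units. -/
theorem k2b1_sum_single (n : ℕ) :
    ∑ l : Fin n, Matrix.single l l (1 : k) = (1 : Matrix (Fin n) (Fin n) k) := by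
  ext i j
  rw [Matrix.sum_apply]
  by_cases hij : i = j
  · subst hij
    rw [Matrix.one_apply_eq, Finset.sum_eq_single i]
    · rw [Matrix.single_apply_same]
    · intro l _ hl
      exact Matrix.single_apply_of_ne _ _ _ _ _ (fun h => hl h.1)
    · intro h
      exact absurd (Finset.mem_univ _) h
  · rw [Matrix.one_apply_ne hij]
    apply Finset.sum_eq_zero
    intro l _
    exact Matrix.single_apply_of_ne _ _ _ _ _ (fun h => hij (h.1.symm.trans h.2))

/-- **Piece B1.** -/
theorem k2_single_block {k : Type v} [Field k] {𝔅 : Type u} [Ring 𝔅] [Algebra k 𝔅]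
    [FiniteDimensional k 𝔅] (lam : 𝔅 →ₗ[k] k) (hsym : ∀ x y, lam (x * y) = lam (y * x))
    (hnd : ∀ x, (∀ y, lam (x * y) = 0) → x = 0)
    (hZ : ∀ v : Fin 3 → 𝔅, (∀ i a, v i * a = a * v i) → ¬ LinearIndependent k v)
    (z : 𝔅) (hzc : ∀ a, z * a = a * z) (hz0 : z ≠ 0) (hzz : z * z = 0)
    (m : ℕ) (d : Fin m → ℕ) (f : 𝔅 →ₐ[k] (∀ i : Fin m, Matrix (Fin (d i)) (Fin (d i)) k))
    (hf : Function.Surjective f) (hd : ∀ i, 0 < d i)
    (N : ℕ) (hN : ∀ l : List 𝔅, l.length = N → (∀ x ∈ l, f x = 0) → l.prod = 0) :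
    ∃ (n : ℕ) (g : 𝔅 →ₐ[k] Matrix (Fin n) (Fin n) k), 0 < n ∧ Function.Surjective g ∧
      (∃ N' : ℕ, ∀ l : List 𝔅, l.length = N' → (∀ x ∈ l, g x = 0) → l.prod = 0) ∧
      ∀ x, g x = 0 ↔ z * x = 0 := by
  classical
  -- the trace functionals
  let t : Fin m → (𝔅 →ₗ[k] k) := fun i =>
    (Matrix.traceLinearMap (Fin (d i)) k k).comp ((LinearMap.proj i).comp f.toLinearMap)
  have ht : ∀ i x, t i x = Matrix.trace (f x i) := fun i x => rfl
  have htc : ∀ i x y, t i (x * y) = t i (y * x) := by
    intro i x y
    rw [ht, ht, map_mul, map_mul, Pi.mul_apply, Pi.mul_apply, Matrix.trace_mul_comm]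
  have htker : ∀ i x, f x = 0 → t i x = 0 := by
    intro i x hx
    rw [ht, hx, Pi.zero_apply, Matrix.trace_zero]
  -- test elements
  have hx : ∀ i : Fin m, ∃ x : 𝔅, ∀ j, t j x = if j = i then 1 else 0 := by
    intro i
    obtain ⟨x, hx⟩ := hf (Pi.single i (Matrix.single ⟨0, hd i⟩ ⟨0, hd i⟩ (1 : k)))
    refine ⟨x, fun j => ?_⟩
    rw [ht, hx]
    by_cases hji : j = i
    · subst hji
      rw [Pi.single_eq_same, Matrix.trace_single_eq_same, if_pos rfl]
    · rw [Pi.single_eq_of_ne hji, if_neg hji, Matrix.trace_zero]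
  choose x hx using hx
  have hc : ∀ i, ∃ c : 𝔅, (∀ y, t i y = lam (c * y)) ∧ ∀ a, c * a = a * c :=
    fun i => k2b1_dual lam hsym hnd (t i) (htc i)
  choose c hc hcc using hc
  have hkey : ∀ (r : ℕ) (e : Fin r → Fin m), Function.Injective e → ∀ (g : Fin r → k)
      (j₀ : Fin r), lam ((∑ j, g j • c (e j)) * x (e j₀)) = g j₀ := by
    intro r e he g j₀
    rw [Finset.sum_mul, map_sum, Finset.sum_eq_single j₀]
    · rw [smul_mul_assoc, map_smul, ← hc, hx, if_pos rfl, smul_eq_mul, mul_one]
    · intro j _ hj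
      rw [smul_mul_assoc, map_smul, ← hc, hx, if_neg (fun h => hj (he h)), smul_zero]
    · intro h
      exact absurd (Finset.mem_univ _) h
  -- at most two factors
  have hm3 : m < 3 := by
    by_contra hge
    push_neg at hge
    let e : Fin 3 → Fin m := fun j => ⟨j.val, lt_of_lt_of_le j.isLt hge⟩
    have he : Function.Injective e := by
      intro a b hab
      exact Fin.ext (by simpa [e] using congrArg Fin.val hab)
    apply hZ (fun j => c (e j)) (fun j a => hcc (e j) a)
    rw [Fintype.linearIndependent_iff]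
    intro g hg j₀
    have h := hkey 3 e he g j₀
    rw [hg, zero_mul, map_zero] at h
    exact h.symm
  -- at least one factor
  have hm0 : m ≠ 0 := by
    rintro rfl
    have h1 : (1 : 𝔅) = 0 := by
      have h := hN (List.replicate N 1) (List.length_replicate ..) (fun x _ => by
        funext i
        exact i.elim0)
      simpa using h
    exact hz0 (by rw [← mul_one z, h1, mul_zero])
  obtain rfl | rfl : m = 1 ∨ m = 2 := by omega
  · -- one factor
    let g : 𝔅 →ₐ[k] Matrix (Fin (d 0)) (Fin (d 0)) k :=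
      (Pi.evalAlgHom k (fun i : Fin 1 => Matrix (Fin (d i)) (Fin (d i)) k) 0).comp f
    have hg : ∀ y, g y = f y 0 := fun y => rfl
    have hgf : ∀ y, g y = 0 ↔ f y = 0 := by
      intro y
      constructor
      · intro h
        funext i
        rw [Subsingleton.elim i 0]
        exact h
      · intro h
        rw [hg, h]
        rfl
    have hgs : Function.Surjective g := by
      intro A
      obtain ⟨a, ha⟩ := hf (Pi.single 0 A)
      exact ⟨a, by rw [hg, ha, Pi.single_eq_same]⟩
    have hgz : g z = 0 := by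
      apply k2b1_central_sq_zero (g z)
      · intro A
        obtain ⟨a, ha⟩ := hgs A
        rw [← ha, ← map_mul, ← map_mul, hzc]
      · rw [← map_mul, hzz, map_zero]
    have hc0 : c 0 ≠ 0 := by
      intro h0
      have h1 := hx 0 0
      rw [if_pos rfl, hc, h0, zero_mul, map_zero] at h1
      exact zero_ne_one h1
    have hcJ : ∀ j, g j = 0 → c 0 * j = 0 := by
      intro j hj
      apply hnd
      intro y
      rw [mul_assoc, ← hc]
      apply htker
      rw [map_mul, (hgf j).mp hj, zero_mul]
    have hli : ∀ α β : k, α • (1 : 𝔅) + β • z = 0 → α = 0 ∧ β = 0 := by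
      intro α β h
      have hα : α = 0 := by
        by_contra hα
        have h2 : (α • (1 : 𝔅) + β • z) * z = α • z := by
          rw [add_mul, smul_mul_assoc, smul_mul_assoc, one_mul, hzz, smul_zero, add_zero]
        rw [h, zero_mul] at h2
        rcases smul_eq_zero.mp h2.symm with h3 | h3
        · exact hα h3
        · exact hz0 h3
      refine ⟨hα, ?_⟩
      rw [hα, zero_smul, zero_add] at h
      rcases smul_eq_zero.mp h with h3 | h3
      · exact h3
      · exact absurd h3 hz0
    obtain ⟨α, β, hcab⟩ := k2b1_span hZ 1 z (c 0) (fun a => by rw [one_mul, mul_one]) hzc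
      (hcc 0) hli
    have hα : α = 0 := by
      by_contra hα
      have h2 : c 0 * z = α • z := by
        rw [hcab, add_mul, smul_mul_assoc, smul_mul_assoc, one_mul, hzz, smul_zero, add_zero]
      rw [hcJ z hgz] at h2
      rcases smul_eq_zero.mp h2.symm with h3 | h3
      · exact hα h3
      · exact hz0 h3
    rw [hα, zero_smul, zero_add] at hcab
    have hβ : β ≠ 0 := by
      intro hβ
      rw [hβ, zero_smul] at hcab
      exact hc0 hcab
    have hdir : ∀ y, g y = 0 → z * y = 0 := by
      intro y hy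
      have h2 := hcJ y hy
      rw [hcab, smul_mul_assoc] at h2
      rcases smul_eq_zero.mp h2 with h3 | h3
      · exact absurd h3 hβ
      · exact h3
    refine ⟨d 0, g, hd 0, hgs,
      ⟨N, fun l hl hxl => hN l hl (fun y hy => (hgf y).mp (hxl y hy))⟩, fun y => ⟨hdir y, ?_⟩⟩
    intro hzy
    by_contra hgy
    have hex : ∃ a b, g y a b ≠ 0 := by
      by_contra hno
      push_neg at hno
      apply hgy
      ext a b
      rw [hno a b, Matrix.zero_apply]
    obtain ⟨a, b, hab⟩ := hex
    have hu : ∀ l : Fin (d 0), ∃ u : 𝔅, g u = Matrix.single l a (1 : k) := fun l => hgs _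
    have hv : ∀ l : Fin (d 0), ∃ v : 𝔅, g v = Matrix.single b l ((g y a b)⁻¹) := fun l => hgs _
    choose u hu using hu
    choose v hv using hv
    have hgw : g (∑ l, u l * y * v l) = 1 := by
      rw [map_sum, ← k2b1_sum_single (k := k) (d 0)]
      apply Finset.sum_congr rfl
      intro l _
      rw [map_mul, map_mul, hu, hv, Matrix.single_mul_mul_single, one_mul, mul_inv_cancel₀ hab]
    have hzw : z * (∑ l, u l * y * v l) = 0 := by
      rw [Finset.mul_sum]
      apply Finset.sum_eq_zero
      intro l _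
      rw [← mul_assoc, ← mul_assoc, hzc (u l), mul_assoc (u l) z y, hzy, mul_zero, zero_mul]
    have h1 : z * (1 - ∑ l, u l * y * v l) = 0 := by
      apply hdir
      rw [map_sub, map_one, hgw, sub_self]
    rw [mul_sub, mul_one, hzw, sub_zero] at h1
    exact hz0 h1
  · -- two factors: impossible
    exfalso
    have hli : ∀ α β : k, α • c 0 + β • c 1 = 0 → α = 0 ∧ β = 0 := by
      intro α β h
      have h0 := hkey 2 id Function.injective_id ![α, β] 0
      have h1 := hkey 2 id Function.injective_id ![α, β] 1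
      simp only [Fin.sum_univ_two, id, Matrix.cons_val_zero, Matrix.cons_val_one] at h0 h1
      rw [h, zero_mul, map_zero] at h0 h1
      exact ⟨h0.symm, h1.symm⟩
    obtain ⟨α, β, h1⟩ := k2b1_span hZ (c 0) (c 1) 1 (hcc 0) (hcc 1)
      (fun a => by rw [one_mul, mul_one]) hli
    have hJ : ∀ j, f j = 0 → j = 0 := by
      intro j hj
      apply hnd
      intro y
      have hjy : f (j * y) = 0 := by rw [map_mul, hj, zero_mul]
      calc lam (j * y) = lam (1 * (j * y)) := by rw [one_mul]
        _ = α * lam (c 0 * (j * y)) + β * lam (c 1 * (j * y)) := by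
            rw [h1, add_mul, map_add, smul_mul_assoc, smul_mul_assoc, map_smul, map_smul,
              smul_eq_mul, smul_eq_mul]
        _ = 0 := by
            rw [← hc, ← hc, htker 0 _ hjy, htker 1 _ hjy, mul_zero, mul_zero, add_zero]
    apply hz0
    apply hJ
    funext i
    apply k2b1_central_sq_zero (f z i)
    · intro A
      obtain ⟨a, ha⟩ := hf (Pi.single i A)
      have h2 := congrFun (congrArg f (hzc a)) i
      rw [map_mul, map_mul, ha, Pi.mul_apply, Pi.mul_apply, Pi.single_eq_same] at h2
      exact h2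
    · rw [← Pi.mul_apply, ← map_mul, hzz, map_zero]
      rfl

end k2b1

end Cfsg.Agent.Helper81
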