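/-
helper81: piece C1 of helper8's CALL S0980 (Gram matrix of the induced functions
`(1 - lam^i)^G` for a self-centralizing cyclic group of order 5 inverted by `t`); adapted from
`Cfsg.Agent.Helper39.bsw7_gram`.
-/
import Mathlib
import Cfsg.Prelude.Def_Characters
import Cfsg.Prelude.Def_Blocks
import Cfsg.Agent.Helper39.Ord4032G1

set_option autoImplicit false

namespace Cfsg.Agent.Helper81

universe u

open Cfsg

/-- powers of a linear character of order 5 -/
theorem bsw5_lam {H : Type*} [Group H] [Finite H] (hH : Nat.card H = 5) (lam : H →* ℂˣ)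
    (hlam : lam ≠ 1) (i j : ℕ) (hi : 1 ≤ i) (hi2 : i ≤ 2) (hj : 1 ≤ j) (hj2 : j ≤ 2) :
    lam ^ i ≠ 1 ∧ lam ^ j ≠ 1 ∧ (lam ^ i = lam ^ j ↔ i = j) ∧ lam ^ i ≠ (lam ^ j)⁻¹ := by
  have hlam7 : @HPow.hPow (H →* ℂˣ) ℕ (H →* ℂˣ) (@instHPow _ ℕ NPow.toPow) lam 5 = 1 := by
    rw [← Cfsg.Agent.Helper39.bsw7_pow_eq]
    ext h
    have h7 : h ^ 5 = 1 := by
      have := pow_card_eq_one' (G := H) (x := h)
      rw [hH] at this
      exact this
    rw [MonoidHom.pow_apply, ← map_pow, h7, map_one, MonoidHom.one_apply]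
  have hord : orderOf lam = 5 := by
    have hdvd := orderOf_dvd_of_pow_eq_one hlam7
    rcases (Nat.dvd_prime (by norm_num : Nat.Prime 5)).mp hdvd with h | h
    · exact absurd (orderOf_eq_one_iff.mp h) hlam
    · exact h
  have hpow_ne : ∀ k : ℕ, 1 ≤ k → k ≤ 4 → lam ^ k ≠ 1 := by
    intro k hk1 hk6 h
    rw [Cfsg.Agent.Helper39.bsw7_pow_eq] at h
    have := orderOf_dvd_of_pow_eq_one h
    rw [hord] at this
    have := Nat.le_of_dvd (by omega) this
    omega
  refine ⟨hpow_ne i hi (by omega), hpow_ne j hj (by omega), ?_, ?_⟩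
  · constructor
    · intro h
      rw [Cfsg.Agent.Helper39.bsw7_pow_eq, Cfsg.Agent.Helper39.bsw7_pow_eq] at h
      have := (pow_eq_pow_iff_modEq (x := lam) (n := i) (m := j)).mp h
      rw [hord] at this
      unfold Nat.ModEq at this
      omega
    · rintro rfl
      rfl
  · intro h
    have : lam ^ (i + j) = 1 := by
      ext g
      have hg := congrArg (fun f : H →* ℂˣ => f g) h
      simp only [MonoidHom.pow_apply, MonoidHom.inv_apply, MonoidHom.one_apply] at hg ⊢
      rw [pow_add, hg, inv_mul_cancel]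
    exact hpow_ne (i + j) (by omega) (by omega) this

theorem bsw5_gram {G : Type u} [Group G] [Fintype G] (x t : G) (hx : orderOf x = 5)
    (hcent : ∀ g : G, g * x = x * g → g ∈ Subgroup.zpowers x)
    (hnorm : ∀ g : G, g * x * g⁻¹ ∈ Subgroup.zpowers x → g * x * g⁻¹ = x ∨ g * x * g⁻¹ = x⁻¹)
    (ht : t * x * t⁻¹ = x⁻¹)
    (lam : ↥(Subgroup.zpowers x) →* ℂˣ) (hlam : lam ≠ 1) (i j : ℕ) (hi : 1 ≤ i) (hi2 : i ≤ 2)
    (hj : 1 ≤ j) (hj2 : j ≤ 2) :
    classInner (indFun (Subgroup.zpowers x) (fun h => 1 - (((lam ^ i) h : ℂˣ) : ℂ)))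
      (indFun (Subgroup.zpowers x) (fun h => 1 - (((lam ^ j) h : ℂˣ) : ℂ)))
      = 2 + if i = j then 1 else 0 := by
  classical
  have hxP : x ∈ (Subgroup.zpowers x) := Subgroup.mem_zpowers x
  have hcardP : Nat.card (Subgroup.zpowers x) = 5 := by rw [Nat.card_zpowers, hx]
  have hxinv : x⁻¹ ≠ x := by
    intro h
    have h2 : x ^ 2 = 1 := by
      rw [pow_two]
      nth_rewrite 1 [← h]
      exact inv_mul_cancel x
    have := orderOf_dvd_of_pow_eq_one h2
    rw [hx] at this
    norm_num at this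
  -- t normalizes P
  have htN : t ∈ Subgroup.normalizer ((Subgroup.zpowers x) : Set G) := by
    rw [Subgroup.mem_normalizer_iff]
    intro h
    constructor
    · intro hh
      rw [(Cfsg.Agent.Helper39.bsw7_conj_inv x t ht h hh).1]
      exact (Subgroup.zpowers x).inv_mem hh
    · intro hh
      have h1 := (Cfsg.Agent.Helper39.bsw7_conj_inv x t ht _ hh).2
      have h2 : t⁻¹ * (t * h * t⁻¹) * t = h := by group
      rw [h2] at h1
      rw [h1]
      exact (Subgroup.zpowers x).inv_mem hh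
  have htP : t ∉ (Subgroup.zpowers x) := by
    intro htP
    obtain ⟨k, hk⟩ := Subgroup.mem_zpowers_iff.mp htP
    have hcomm : t * x = x * t := by
      rw [← hk]
      exact (Commute.zpow_left (Commute.refl x) k).eq
    have : t * x * t⁻¹ = x := by rw [hcomm]; group
    rw [ht] at this
    exact hxinv this
  have hPle : (Subgroup.zpowers x) ≤ Subgroup.normalizer ((Subgroup.zpowers x) : Set G) := Subgroup.le_normalizer
  -- description of the normalizer
  have hdesc : ∀ g : G, g * x * g⁻¹ ∈ (Subgroup.zpowers x) → g ∈ (Subgroup.zpowers x) ∨ t⁻¹ * g ∈ (Subgroup.zpowers x) := by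
    intro g h1
    rcases hnorm g h1 with h2 | h2
    · left
      apply hcent
      calc g * x = g * x * g⁻¹ * g := by group
        _ = x * g := by rw [h2]
    · right
      apply hcent
      have h3 : t⁻¹ * x⁻¹ * t = x := by rw [← ht]; group
      calc t⁻¹ * g * x = t⁻¹ * (g * x * g⁻¹) * t * (t⁻¹ * g) := by group
        _ = x * (t⁻¹ * g) := by rw [h2, h3]
  have hNdesc : ∀ g ∈ Subgroup.normalizer ((Subgroup.zpowers x) : Set G), g ∈ (Subgroup.zpowers x) ∨ t⁻¹ * g ∈ (Subgroup.zpowers x) := by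
    intro g hg
    exact hdesc g ((Subgroup.mem_normalizer_iff.mp hg x).mp hxP)
  -- TI
  have hTI : IsTISubset ((Subgroup.zpowers x) : Set G) := by
    intro g hg y hy hgy
    by_contra hy1
    apply hg
    have hyo : orderOf y = 5 := by
      have hdvd := orderOf_dvd_of_mem_zpowers hy
      rw [hx] at hdvd
      rcases (Nat.dvd_prime (by norm_num : Nat.Prime 5)).mp hdvd with h | h
      · exact absurd (orderOf_eq_one_iff.mp h) hy1
      · exact h
    have hzy : Subgroup.zpowers y = (Subgroup.zpowers x) :=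
      Subgroup.eq_of_le_of_card_ge (Subgroup.zpowers_le.mpr hy)
        (by rw [Nat.card_zpowers, Nat.card_zpowers, hyo, hx])
    have hxy : x ∈ Subgroup.zpowers y := by rw [hzy]; exact hxP
    obtain ⟨a, ha⟩ := Subgroup.mem_zpowers_iff.mp hxy
    have hgx : g * x * g⁻¹ ∈ (Subgroup.zpowers x) := by
      have : g * x * g⁻¹ = (g * y * g⁻¹) ^ a := by
        rw [conj_zpow, ha]
      rw [this]
      exact (Subgroup.zpowers x).zpow_mem hgy a
    rcases hdesc g hgx with h2 | h2
    · exact hPle h2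
    · have h4 := Subgroup.mul_mem _ htN (hPle h2)
      have h5 : t * (t⁻¹ * g) = g := by group
      rw [h5] at h4
      exact h4
  -- powers of lam
  obtain ⟨hi1, hj1, hpow_eq, hpow_inv⟩ := bsw5_lam hcardP lam hlam i j hi hi2 hj hj2
  -- the induced inner product
  have key := Cfsg.Agent.Helper3.classInner_indFun_TI_sub (Subgroup.zpowers x) hTI
    (fun h => 1 - (((lam ^ i) h : ℂˣ) : ℂ)) (fun h => 1 - (((lam ^ j) h : ℂˣ) : ℂ))
    (by simp)
  rw [key, hcardP]
  -- each term
  have hterm : ∀ n : Subgroup.normalizer ((Subgroup.zpowers x) : Set G),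
      classInner (fun h : ↥(Subgroup.zpowers x) => 1 - (((lam ^ i) h : ℂˣ) : ℂ))
        (fun h => 1 - (((lam ^ j) (Cfsg.Agent.Helper3.tiConj (Subgroup.zpowers x) n h) : ℂˣ) : ℂ))
      = 1 + if lam ^ i = (lam ^ j).comp (Cfsg.Agent.Helper3.tiConj (Subgroup.zpowers x) n) then 1 else 0 := by
    intro n
    exact Cfsg.Agent.Helper3.classInner_one_sub_hom (lam ^ i)
      ((lam ^ j).comp (Cfsg.Agent.Helper3.tiConj (Subgroup.zpowers x) n)) hi1
      (Cfsg.Agent.Helper3.tiConj_comp_ne_one (Subgroup.zpowers x) n _ hj1)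
  simp only [hterm]
  -- reindex the normalizer
  let e : ↥(Subgroup.zpowers x) ⊕ ↥(Subgroup.zpowers x) → ↥(Subgroup.normalizer ((Subgroup.zpowers x) : Set G)) := fun s =>
    match s with
    | Sum.inl h => ⟨h, hPle h.2⟩
    | Sum.inr h => ⟨t * h, Subgroup.mul_mem _ htN (hPle h.2)⟩
  have hbij : Function.Bijective e := by
    constructor
    · rintro (h | h) (h' | h') heq
      · have := congrArg Subtype.val heq
        simp only [e] at this
        rw [Subtype.ext this]
      · exfalso
        have := congrArg Subtype.val heq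
        simp only [e] at this
        apply htP
        have h2 : t = (h : G) * (h' : G)⁻¹ := by rw [this]; group
        rw [h2]
        exact (Subgroup.zpowers x).mul_mem h.2 ((Subgroup.zpowers x).inv_mem h'.2)
      · exfalso
        have := congrArg Subtype.val heq
        simp only [e] at this
        apply htP
        have h2 : t = (h' : G) * (h : G)⁻¹ := by rw [← this]; group
        rw [h2]
        exact (Subgroup.zpowers x).mul_mem h'.2 ((Subgroup.zpowers x).inv_mem h.2)
      · have := congrArg Subtype.val heq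
        simp only [e] at this
        rw [Subtype.ext (mul_left_cancel this)]
    · intro n
      rcases hNdesc n n.2 with h | h
      · exact ⟨Sum.inl ⟨n, h⟩, rfl⟩
      · refine ⟨Sum.inr ⟨t⁻¹ * n, h⟩, ?_⟩
        apply Subtype.ext
        simp only [e]
        group
  rw [← (Equiv.ofBijective e hbij).sum_comp, Fintype.sum_sum_type]
  -- terms for n ∈ P
  have h1 : ∀ h : ↥(Subgroup.zpowers x),
      (lam ^ j).comp (Cfsg.Agent.Helper3.tiConj (Subgroup.zpowers x) (e (Sum.inl h))) = lam ^ j := by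
    intro h
    exact Cfsg.Agent.Helper3.tiConj_comp_of_mem (Subgroup.zpowers x) _ h.2 _
  have htinv : (lam ^ j).comp (Cfsg.Agent.Helper3.tiConj (Subgroup.zpowers x) ⟨t, htN⟩) = (lam ^ j)⁻¹ := by
    ext h
    have : Cfsg.Agent.Helper3.tiConj (Subgroup.zpowers x) ⟨t, htN⟩ h = h⁻¹ := by
      apply Subtype.ext
      rw [Cfsg.Agent.Helper3.tiConj_coe]
      simp only [Subgroup.coe_inv]
      exact (Cfsg.Agent.Helper39.bsw7_conj_inv x t ht h h.2).2
    rw [MonoidHom.comp_apply, this, map_inv, MonoidHom.inv_apply]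
  have h2 : ∀ h : ↥(Subgroup.zpowers x),
      (lam ^ j).comp (Cfsg.Agent.Helper3.tiConj (Subgroup.zpowers x) (e (Sum.inr h))) = (lam ^ j)⁻¹ := by
    intro h
    have he : e (Sum.inr h) = ⟨t, htN⟩ * ⟨h, hPle h.2⟩ := rfl
    rw [he, Cfsg.Agent.Helper3.tiConj_mul, ← MonoidHom.comp_assoc,
      Cfsg.Agent.Helper3.tiConj_comp_of_mem (Subgroup.zpowers x) ⟨h, hPle h.2⟩ h.2, htinv]
  simp only [Equiv.ofBijective_apply, h1, h2, if_neg hpow_inv, hpow_eq]
  rw [Finset.sum_const, Finset.sum_const, Finset.card_univ, ← Nat.card_eq_fintype_card, hcardP]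
  split_ifs <;> norm_num

end Cfsg.Agent.Helper81
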