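/-
helper81: S2181 (`E₇(q)`, `q` even, five classes of involutions) - the table checks of the Levi recursion, part D
(generated; the tables are checked by the kernel).
-/
import Cfsg.Agent.Helper81.E7IDefs

set_option autoImplicit false
set_option linter.unusedSectionVars false
set_option linter.unusedVariables false
set_option maxRecDepth 100000

namespace Cfsg.Agent.Helper81

open Cfsg Cfsg.Lie Cfsg.Agent.Helper36 Cfsg.Agent.Helper17 Cfsg.Agent.Helper18 Cfsg.Agent.Helper18.RSub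
  Cfsg.Agent.Helper38


theorem e7i_ok_234567_1 : ChiStepOK chevE7 e7iP234567 1 92 [5, 6, 4, 5, 3, 4, 2, 3] [63, 64, 65, 66, 67, 68, 73, 87, 88, 89, 90, 91, 92] [(69, 79), (70, 80), (71, 81), (72, 82), (74, 83), (75, 84), (76, 85), (77, 86)] e7iP23457 e7iL23457 e7iL234567 := by
  decide +kernel

theorem e7i_ok_234567_2 : ChiStepOK chevE7 e7iP234567 2 92 [5, 6, 4, 5, 3, 4, 1, 3] [63, 64, 65, 66, 67, 68, 78, 87, 88, 89, 90, 91, 92] [(69, 74), (70, 75), (71, 76), (72, 77), (79, 83), (80, 84), (81, 85), (82, 86)] e7iP23457 e7iL23457 e7iL234567 := by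
  decide +kernel

theorem e7i_ok_234567_3 : ChiStepOK chevE7 e7iP234567 3 92 [5, 6, 4, 5, 3, 4, 2, 1] [63, 64, 65, 75, 76, 77, 80, 81, 82, 83, 90, 91, 92] [(66, 70), (67, 71), (68, 72), (73, 74), (78, 79), (84, 87), (85, 88), (86, 89)] e7iP23457 e7iL23457 e7iL234567 := by
  decide +kernel

theorem e7i_ok_234567_4 : ChiStepOK chevE7 e7iP234567 4 92 [5, 6, 4, 5, 3, 2, 1, 3] [63, 71, 72, 73, 76, 77, 78, 81, 82, 85, 86, 87, 92] [(64, 67), (65, 68), (69, 70), (74, 75), (79, 80), (83, 84), (88, 90), (89, 91)] e7iP23457 e7iL23457 e7iL234567 := by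
  decide +kernel

theorem e7i_ok_234567_5 : ChiStepOK chevE7 e7iP234567 5 92 [5, 6, 4, 3, 2, 1, 3, 4] [68, 69, 72, 73, 74, 77, 78, 79, 82, 83, 86, 89, 90] [(63, 65), (66, 67), (70, 71), (75, 76), (80, 81), (84, 85), (87, 88), (91, 92)] e7iP23457 e7iL23457 e7iL234567 := by
  decide +kernel

theorem e7i_ok_234567_6 : ChiStepOK chevE7 e7iP234567 6 92 [5, 4, 3, 2, 1, 3, 4, 5] [66, 69, 70, 73, 74, 75, 78, 79, 80, 83, 84, 87, 92] [(64, 65), (67, 68), (71, 72), (76, 77), (81, 82), (85, 86), (88, 89), (90, 91)] e7iP23457 e7iL23457 e7iL234567 := by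
  decide +kernel

theorem e7i_low_234567 : LowOK chevE7 e7iP234567 [1, 2, 3, 4, 5, 6] := by
  decide +kernel

end Cfsg.Agent.Helper81
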