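/-
helper81: S2181 (`E₇(q)`, `q` even, five classes of involutions) - the table checks of the Levi recursion, part T0
(generated; the tables are checked by the kernel).
-/
import Cfsg.Agent.Helper81.E7IDefs

set_option autoImplicit false
set_option linter.unusedSectionVars false
set_option linter.unusedVariables false
set_option maxRecDepth 100000

namespace Cfsg.Agent.Helper81

open Cfsg Cfsg.Lie Cfsg.Agent.Helper36 Cfsg.Agent.Helper17 Cfsg.Agent.Helper18 Cfsg.Agent.Helper18.RSub
  Cfsg.Agent.Helper38


theorem e7i_ok_1234567_0 : ChiStepOK chevE7 e7iP1234567 0 125 [0, 2, 3, 4, 5, 6, 1, 3, 4, 5, 2, 3, 4, 1, 3, 2] [63, 64, 65, 66, 67, 68, 69, 70, 71, 72, 78, 79, 80, 81, 82, 109, 110, 111, 112, 113, 114, 115, 116, 117, 118, 119, 120, 121, 122, 123] [(73, 94), (74, 95), (75, 96), (76, 97), (77, 98), (83, 99), (84, 100), (85, 101), (86, 102), (87, 103), (88, 104), (89, 105), (90, 106), (91, 107), (92, 108), (124, 125)] e7iP234567 e7iL234567 e7iL1234567 := by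
  decide +kernel

end Cfsg.Agent.Helper81
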