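/-
helper81: S2181 (`E₇(q)`, `q` even, five classes of involutions) - the table checks of the Levi recursion, part T1
(generated; the tables are checked by the kernel).
-/
import Cfsg.Agent.Helper81.E7IDefs

set_option autoImplicit false
set_option linter.unusedSectionVars false
set_option linter.unusedVariables false
set_option maxRecDepth 100000

namespace Cfsg.Agent.Helper81

open Cfsg Cfsg.Lie Cfsg.Agent.Helper36 Cfsg.Agent.Helper17 Cfsg.Agent.Helper18 Cfsg.Agent.Helper18.RSub
  Cfsg.Agent.Helper38


theorem e7i_ok_1234567_1 : ChiStepOK chevE7 e7iP1234567 1 125 [0, 2, 3, 4, 5, 6, 1, 3, 4, 5, 2, 3, 4, 0, 2, 3] [63, 64, 65, 66, 67, 68, 73, 87, 88, 89, 90, 91, 92, 93, 94, 103, 104, 105, 106, 107, 108, 109, 110, 111, 112, 113, 114, 123, 124, 125] [(69, 79), (70, 80), (71, 81), (72, 82), (74, 83), (75, 84), (76, 85), (77, 86), (95, 99), (96, 100), (97, 101), (98, 102), (115, 119), (116, 120), (117, 121), (118, 122)] e7iP234567 e7iL234567 e7iL1234567 := by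
  decide +kernel

end Cfsg.Agent.Helper81
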