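/-
helper81: S2181 (`E₇(q)`, `q` even, five classes of involutions) - the table checks of the Levi recursion, part T2
(generated; the tables are checked by the kernel).
-/
import Cfsg.Agent.Helper81.E7IDefs

set_option autoImplicit false
set_option linter.unusedSectionVars false
set_option linter.unusedVariables false
set_option maxRecDepth 100000

namespace Cfsg.Agent.Helper81

open Cfsg Cfsg.Lie Cfsg.Agent.Helper36 Cfsg.Agent.Helper17 Cfsg.Agent.Helper18 Cfsg.Agent.Helper18.RSub
  Cfsg.Agent.Helper38


theorem e7i_ok_1234567_2 : ChiStepOK chevE7 e7iP1234567 2 125 [0, 2, 3, 4, 5, 6, 1, 3, 4, 5, 2, 3, 4, 1, 3, 0] [63, 64, 65, 66, 67, 68, 78, 87, 88, 89, 90, 91, 92, 95, 96, 97, 98, 99, 100, 101, 102, 115, 116, 117, 118, 119, 120, 121, 122, 125] [(69, 74), (70, 75), (71, 76), (72, 77), (79, 83), (80, 84), (81, 85), (82, 86), (93, 94), (103, 109), (104, 110), (105, 111), (106, 112), (107, 113), (108, 114), (123, 124)] e7iP234567 e7iL234567 e7iL1234567 := by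
  decide +kernel

end Cfsg.Agent.Helper81
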