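/-
helper81: S2181 (`E₇(q)`, `q` even, five classes of involutions) - the table checks of the Levi recursion, part T3
(generated; the tables are checked by the kernel).
-/
import Cfsg.Agent.Helper81.E7IDefs

set_option autoImplicit false
set_option linter.unusedSectionVars false
set_option linter.unusedVariables false
set_option maxRecDepth 100000

namespace Cfsg.Agent.Helper81

open Cfsg Cfsg.Lie Cfsg.Agent.Helper36 Cfsg.Agent.Helper17 Cfsg.Agent.Helper18 Cfsg.Agent.Helper18.RSub
  Cfsg.Agent.Helper38


theorem e7i_ok_1234567_3 : ChiStepOK chevE7 e7iP1234567 3 125 [0, 2, 3, 4, 5, 6, 1, 3, 4, 5, 2, 3, 4, 0, 2, 1] [63, 64, 65, 75, 76, 77, 80, 81, 82, 83, 90, 91, 92, 93, 96, 97, 98, 99, 106, 107, 108, 109, 110, 111, 118, 119, 120, 121, 124, 125] [(66, 70), (67, 71), (68, 72), (73, 74), (78, 79), (84, 87), (85, 88), (86, 89), (94, 95), (100, 103), (101, 104), (102, 105), (112, 115), (113, 116), (114, 117), (122, 123)] e7iP234567 e7iL234567 e7iL1234567 := by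
  decide +kernel

end Cfsg.Agent.Helper81
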