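/-
helper81: S2181 (`E₇(q)`, `q` even, five classes of involutions) - the table checks of the Levi recursion, part T5
(generated; the tables are checked by the kernel).
-/
import Cfsg.Agent.Helper81.E7IDefs

set_option autoImplicit false
set_option linter.unusedSectionVars false
set_option linter.unusedVariables false
set_option maxRecDepth 100000

namespace Cfsg.Agent.Helper81

open Cfsg Cfsg.Lie Cfsg.Agent.Helper36 Cfsg.Agent.Helper17 Cfsg.Agent.Helper18 Cfsg.Agent.Helper18.RSub
  Cfsg.Agent.Helper38


theorem e7i_ok_1234567_5 : ChiStepOK chevE7 e7iP1234567 5 125 [0, 2, 3, 4, 5, 6, 1, 3, 4, 2, 3, 0, 2, 1, 3, 4] [68, 69, 72, 73, 74, 77, 78, 79, 82, 83, 86, 89, 90, 93, 94, 95, 98, 99, 102, 105, 106, 111, 112, 115, 118, 119, 122, 123, 124, 125] [(63, 65), (66, 67), (70, 71), (75, 76), (80, 81), (84, 85), (87, 88), (91, 92), (96, 97), (100, 101), (103, 104), (107, 108), (109, 110), (113, 114), (116, 117), (120, 121)] e7iP234567 e7iL234567 e7iL1234567 := by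
  decide +kernel

end Cfsg.Agent.Helper81
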