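/-
helper81: S2181 (`E₇(q)`, `q` even, five classes of involutions) - the table checks of the Levi recursion, part T6
(generated; the tables are checked by the kernel).
-/
import Cfsg.Agent.Helper81.E7IDefs

set_option autoImplicit false
set_option linter.unusedSectionVars false
set_option linter.unusedVariables false
set_option maxRecDepth 100000

namespace Cfsg.Agent.Helper81

open Cfsg Cfsg.Lie Cfsg.Agent.Helper36 Cfsg.Agent.Helper17 Cfsg.Agent.Helper18 Cfsg.Agent.Helper18.RSub
  Cfsg.Agent.Helper38


theorem e7i_ok_1234567_6 : ChiStepOK chevE7 e7iP1234567 6 125 [0, 2, 3, 4, 5, 1, 3, 4, 2, 3, 0, 2, 1, 3, 4, 5] [66, 69, 70, 73, 74, 75, 78, 79, 80, 83, 84, 87, 92, 93, 94, 95, 96, 99, 100, 103, 108, 109, 114, 117, 118, 121, 122, 123, 124, 125] [(64, 65), (67, 68), (71, 72), (76, 77), (81, 82), (85, 86), (88, 89), (90, 91), (97, 98), (101, 102), (104, 105), (106, 107), (110, 111), (112, 113), (115, 116), (119, 120)] e7iP234567 e7iL234567 e7iL1234567 := by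
  decide +kernel

end Cfsg.Agent.Helper81
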