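/-
helper81: S2181 (`E₇(q)`, `q` even, five classes of involutions) - the Levi recursion: every involution of the subgroup of the positive roots is conjugate to one of 85 standard words
(generated; the tables are checked by the kernel).
-/
import Cfsg.Agent.Helper81.E7IOkS
import Cfsg.Agent.Helper81.E7IOkD
import Cfsg.Agent.Helper81.E7IOkT0
import Cfsg.Agent.Helper81.E7IOkT1
import Cfsg.Agent.Helper81.E7IOkT2
import Cfsg.Agent.Helper81.E7IOkT3
import Cfsg.Agent.Helper81.E7IOkT4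
import Cfsg.Agent.Helper81.E7IOkT5
import Cfsg.Agent.Helper81.E7IOkT6
import Cfsg.Agent.Helper81.E7IOkTL

set_option autoImplicit false
set_option linter.unusedSectionVars false
set_option linter.unusedVariables false
set_option maxRecDepth 100000

namespace Cfsg.Agent.Helper81

open Cfsg Cfsg.Lie Cfsg.Agent.Helper36 Cfsg.Agent.Helper17 Cfsg.Agent.Helper18 Cfsg.Agent.Helper18.RSub
  Cfsg.Agent.Helper38


section E7IRec

variable {F : Type*} [Field F] {η : ℕ → ℕ → ℤ}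

theorem e7i_hD : chevE7 ∈ [chevG2, chevB2, chevD4, chevF4, chevE6, chevE7, chevE8] := by simp

theorem e7i_claim_2 [Finite F] [CharP F 2] (R : BRel chevE7 F η) (hL : ChiLowS R) (hC : ChiCocS R) :
    ChiClaim R e7iP2 e7iL2 := by
  refine chi_claim e7i_hD R hL hC e7iP2 [1] e7iL2 e7i_low_2 (by decide +kernel) (by decide +kernel) ?_
  intro j hj
  simp only [List.mem_cons, List.not_mem_nil, or_false] at hj
  subst hj
  · exact ⟨78, [], [], [], [], [[]], e7i_ok_2_1, chi_claim_nil R⟩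

theorem e7i_claim_3 [Finite F] [CharP F 2] (R : BRel chevE7 F η) (hL : ChiLowS R) (hC : ChiCocS R) :
    ChiClaim R e7iP3 e7iL3 := by
  refine chi_claim e7i_hD R hL hC e7iP3 [2] e7iL3 e7i_low_3 (by decide +kernel) (by decide +kernel) ?_
  intro j hj
  simp only [List.mem_cons, List.not_mem_nil, or_false] at hj
  subst hj
  · exact ⟨73, [], [], [], [], [[]], e7i_ok_3_2, chi_claim_nil R⟩

theorem e7i_claim_5 [Finite F] [CharP F 2] (R : BRel chevE7 F η) (hL : ChiLowS R) (hC : ChiCocS R) :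
    ChiClaim R e7iP5 e7iL5 := by
  refine chi_claim e7i_hD R hL hC e7iP5 [4] e7iL5 e7i_low_5 (by decide +kernel) (by decide +kernel) ?_
  intro j hj
  simp only [List.mem_cons, List.not_mem_nil, or_false] at hj
  subst hj
  · exact ⟨66, [], [], [], [], [[]], e7i_ok_5_4, chi_claim_nil R⟩

theorem e7i_claim_7 [Finite F] [CharP F 2] (R : BRel chevE7 F η) (hL : ChiLowS R) (hC : ChiCocS R) :
    ChiClaim R e7iP7 e7iL7 := by
  refine chi_claim e7i_hD R hL hC e7iP7 [6] e7iL7 e7i_low_7 (by decide +kernel) (by decide +kernel) ?_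
  intro j hj
  simp only [List.mem_cons, List.not_mem_nil, or_false] at hj
  subst hj
  · exact ⟨63, [], [], [], [], [[]], e7i_ok_7_6, chi_claim_nil R⟩

theorem e7i_claim_23 [Finite F] [CharP F 2] (R : BRel chevE7 F η) (hL : ChiLowS R) (hC : ChiCocS R) :
    ChiClaim R e7iP23 e7iL23 := by
  refine chi_claim e7i_hD R hL hC e7iP23 [1, 2] e7iL23 e7i_low_23 (by decide +kernel) (by decide +kernel) ?_
  intro j hj
  simp only [List.mem_cons, List.not_mem_nil, or_false] at hj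
  rcases hj with rfl | rfl
  · exact ⟨78, [], [73], [], e7iP3, e7iL3, e7i_ok_23_1, e7i_claim_3 R hL hC⟩
  · exact ⟨73, [], [78], [], e7iP2, e7iL2, e7i_ok_23_2, e7i_claim_2 R hL hC⟩

theorem e7i_claim_25 [Finite F] [CharP F 2] (R : BRel chevE7 F η) (hL : ChiLowS R) (hC : ChiCocS R) :
    ChiClaim R e7iP25 e7iL25 := by
  refine chi_claim e7i_hD R hL hC e7iP25 [1, 4] e7iL25 e7i_low_25 (by decide +kernel) (by decide +kernel) ?_
  intro j hj
  simp only [List.mem_cons, List.not_mem_nil, or_false] at hj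
  rcases hj with rfl | rfl
  · exact ⟨78, [], [66], [], e7iP5, e7iL5, e7i_ok_25_1, e7i_claim_5 R hL hC⟩
  · exact ⟨66, [], [78], [], e7iP2, e7iL2, e7i_ok_25_4, e7i_claim_2 R hL hC⟩

theorem e7i_claim_27 [Finite F] [CharP F 2] (R : BRel chevE7 F η) (hL : ChiLowS R) (hC : ChiCocS R) :
    ChiClaim R e7iP27 e7iL27 := by
  refine chi_claim e7i_hD R hL hC e7iP27 [1, 6] e7iL27 e7i_low_27 (by decide +kernel) (by decide +kernel) ?_
  intro j hj
  simp only [List.mem_cons, List.not_mem_nil, or_false] at hj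
  rcases hj with rfl | rfl
  · exact ⟨78, [], [63], [], e7iP7, e7iL7, e7i_ok_27_1, e7i_claim_7 R hL hC⟩
  · exact ⟨63, [], [78], [], e7iP2, e7iL2, e7i_ok_27_6, e7i_claim_2 R hL hC⟩

theorem e7i_claim_35 [Finite F] [CharP F 2] (R : BRel chevE7 F η) (hL : ChiLowS R) (hC : ChiCocS R) :
    ChiClaim R e7iP35 e7iL35 := by
  refine chi_claim e7i_hD R hL hC e7iP35 [2, 4] e7iL35 e7i_low_35 (by decide +kernel) (by decide +kernel) ?_
  intro j hj
  simp only [List.mem_cons, List.not_mem_nil, or_false] at hj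
  rcases hj with rfl | rfl
  · exact ⟨73, [], [66], [], e7iP5, e7iL5, e7i_ok_35_2, e7i_claim_5 R hL hC⟩
  · exact ⟨66, [], [73], [], e7iP3, e7iL3, e7i_ok_35_4, e7i_claim_3 R hL hC⟩

theorem e7i_claim_37 [Finite F] [CharP F 2] (R : BRel chevE7 F η) (hL : ChiLowS R) (hC : ChiCocS R) :
    ChiClaim R e7iP37 e7iL37 := by
  refine chi_claim e7i_hD R hL hC e7iP37 [2, 6] e7iL37 e7i_low_37 (by decide +kernel) (by decide +kernel) ?_
  intro j hj
  simp only [List.mem_cons, List.not_mem_nil, or_false] at hj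
  rcases hj with rfl | rfl
  · exact ⟨73, [], [63], [], e7iP7, e7iL7, e7i_ok_37_2, e7i_claim_7 R hL hC⟩
  · exact ⟨63, [], [73], [], e7iP3, e7iL3, e7i_ok_37_6, e7i_claim_3 R hL hC⟩

theorem e7i_claim_57 [Finite F] [CharP F 2] (R : BRel chevE7 F η) (hL : ChiLowS R) (hC : ChiCocS R) :
    ChiClaim R e7iP57 e7iL57 := by
  refine chi_claim e7i_hD R hL hC e7iP57 [4, 6] e7iL57 e7i_low_57 (by decide +kernel) (by decide +kernel) ?_
  intro j hj
  simp only [List.mem_cons, List.not_mem_nil, or_false] at hj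
  rcases hj with rfl | rfl
  · exact ⟨66, [], [63], [], e7iP7, e7iL7, e7i_ok_57_4, e7i_claim_7 R hL hC⟩
  · exact ⟨63, [], [66], [], e7iP5, e7iL5, e7i_ok_57_6, e7i_claim_5 R hL hC⟩

theorem e7i_claim_235 [Finite F] [CharP F 2] (R : BRel chevE7 F η) (hL : ChiLowS R) (hC : ChiCocS R) :
    ChiClaim R e7iP235 e7iL235 := by
  refine chi_claim e7i_hD R hL hC e7iP235 [1, 2, 4] e7iL235 e7i_low_235 (by decide +kernel) (by decide +kernel) ?_
  intro j hj
  simp only [List.mem_cons, List.not_mem_nil, or_false] at hj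
  rcases hj with rfl | rfl | rfl
  · exact ⟨78, [], [66, 73], [], e7iP35, e7iL35, e7i_ok_235_1, e7i_claim_35 R hL hC⟩
  · exact ⟨73, [], [66, 78], [], e7iP25, e7iL25, e7i_ok_235_2, e7i_claim_25 R hL hC⟩
  · exact ⟨66, [], [73, 78], [], e7iP23, e7iL23, e7i_ok_235_4, e7i_claim_23 R hL hC⟩

theorem e7i_claim_237 [Finite F] [CharP F 2] (R : BRel chevE7 F η) (hL : ChiLowS R) (hC : ChiCocS R) :
    ChiClaim R e7iP237 e7iL237 := by
  refine chi_claim e7i_hD R hL hC e7iP237 [1, 2, 6] e7iL237 e7i_low_237 (by decide +kernel) (by decide +kernel) ?_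
  intro j hj
  simp only [List.mem_cons, List.not_mem_nil, or_false] at hj
  rcases hj with rfl | rfl | rfl
  · exact ⟨78, [], [63, 73], [], e7iP37, e7iL37, e7i_ok_237_1, e7i_claim_37 R hL hC⟩
  · exact ⟨73, [], [63, 78], [], e7iP27, e7iL27, e7i_ok_237_2, e7i_claim_27 R hL hC⟩
  · exact ⟨63, [], [73, 78], [], e7iP23, e7iL23, e7i_ok_237_6, e7i_claim_23 R hL hC⟩

theorem e7i_claim_257 [Finite F] [CharP F 2] (R : BRel chevE7 F η) (hL : ChiLowS R) (hC : ChiCocS R) :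
    ChiClaim R e7iP257 e7iL257 := by
  refine chi_claim e7i_hD R hL hC e7iP257 [1, 4, 6] e7iL257 e7i_low_257 (by decide +kernel) (by decide +kernel) ?_
  intro j hj
  simp only [List.mem_cons, List.not_mem_nil, or_false] at hj
  rcases hj with rfl | rfl | rfl
  · exact ⟨78, [], [63, 66], [], e7iP57, e7iL57, e7i_ok_257_1, e7i_claim_57 R hL hC⟩
  · exact ⟨66, [], [63, 78], [], e7iP27, e7iL27, e7i_ok_257_4, e7i_claim_27 R hL hC⟩
  · exact ⟨63, [], [66, 78], [], e7iP25, e7iL25, e7i_ok_257_6, e7i_claim_25 R hL hC⟩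

theorem e7i_claim_357 [Finite F] [CharP F 2] (R : BRel chevE7 F η) (hL : ChiLowS R) (hC : ChiCocS R) :
    ChiClaim R e7iP357 e7iL357 := by
  refine chi_claim e7i_hD R hL hC e7iP357 [2, 4, 6] e7iL357 e7i_low_357 (by decide +kernel) (by decide +kernel) ?_
  intro j hj
  simp only [List.mem_cons, List.not_mem_nil, or_false] at hj
  rcases hj with rfl | rfl | rfl
  · exact ⟨73, [], [63, 66], [], e7iP57, e7iL57, e7i_ok_357_2, e7i_claim_57 R hL hC⟩
  · exact ⟨66, [], [63, 73], [], e7iP37, e7iL37, e7i_ok_357_4, e7i_claim_37 R hL hC⟩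
  · exact ⟨63, [], [66, 73], [], e7iP35, e7iL35, e7i_ok_357_6, e7i_claim_35 R hL hC⟩

theorem e7i_claim_2345 [Finite F] [CharP F 2] (R : BRel chevE7 F η) (hL : ChiLowS R) (hC : ChiCocS R) :
    ChiClaim R e7iP2345 e7iL2345 := by
  refine chi_claim e7i_hD R hL hC e7iP2345 [1, 2, 3, 4] e7iL2345 e7i_low_2345 (by decide +kernel) (by decide +kernel) ?_
  intro j hj
  simp only [List.mem_cons, List.not_mem_nil, or_false] at hj
  rcases hj with rfl | rfl | rfl | rfl
  · exact ⟨87, [3, 4, 2, 3], [66, 73, 87], [(69, 79), (70, 80), (74, 83), (75, 84)], e7iP235, e7iL235, e7i_ok_2345_1, e7i_claim_235 R hL hC⟩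
  · exact ⟨87, [3, 4, 1, 3], [66, 78, 87], [(69, 74), (70, 75), (79, 83), (80, 84)], e7iP235, e7iL235, e7i_ok_2345_2, e7i_claim_235 R hL hC⟩
  · exact ⟨87, [3, 4, 2, 1], [75, 80, 83], [(66, 70), (73, 74), (78, 79), (84, 87)], e7iP235, e7iL235, e7i_ok_2345_3, e7i_claim_235 R hL hC⟩
  · exact ⟨87, [3, 2, 1, 3], [73, 78, 87], [(69, 70), (74, 75), (79, 80), (83, 84)], e7iP235, e7iL235, e7i_ok_2345_4, e7i_claim_235 R hL hC⟩

theorem e7i_claim_2357 [Finite F] [CharP F 2] (R : BRel chevE7 F η) (hL : ChiLowS R) (hC : ChiCocS R) :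
    ChiClaim R e7iP2357 e7iL2357 := by
  refine chi_claim e7i_hD R hL hC e7iP2357 [1, 2, 4, 6] e7iL2357 e7i_low_2357 (by decide +kernel) (by decide +kernel) ?_
  intro j hj
  simp only [List.mem_cons, List.not_mem_nil, or_false] at hj
  rcases hj with rfl | rfl | rfl | rfl
  · exact ⟨78, [], [63, 66, 73], [], e7iP357, e7iL357, e7i_ok_2357_1, e7i_claim_357 R hL hC⟩
  · exact ⟨73, [], [63, 66, 78], [], e7iP257, e7iL257, e7i_ok_2357_2, e7i_claim_257 R hL hC⟩
  · exact ⟨66, [], [63, 73, 78], [], e7iP237, e7iL237, e7i_ok_2357_4, e7i_claim_237 R hL hC⟩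
  · exact ⟨63, [], [66, 73, 78], [], e7iP235, e7iL235, e7i_ok_2357_6, e7i_claim_235 R hL hC⟩

theorem e7i_claim_23457 [Finite F] [CharP F 2] (R : BRel chevE7 F η) (hL : ChiLowS R) (hC : ChiCocS R) :
    ChiClaim R e7iP23457 e7iL23457 := by
  refine chi_claim e7i_hD R hL hC e7iP23457 [1, 2, 3, 4, 6] e7iL23457 e7i_low_23457 (by decide +kernel) (by decide +kernel) ?_
  intro j hj
  simp only [List.mem_cons, List.not_mem_nil, or_false] at hj
  rcases hj with rfl | rfl | rfl | rfl | rfl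
  · exact ⟨87, [3, 4, 2, 3], [63, 66, 73, 87], [(69, 79), (70, 80), (74, 83), (75, 84)], e7iP2357, e7iL2357, e7i_ok_23457_1, e7i_claim_2357 R hL hC⟩
  · exact ⟨87, [3, 4, 1, 3], [63, 66, 78, 87], [(69, 74), (70, 75), (79, 83), (80, 84)], e7iP2357, e7iL2357, e7i_ok_23457_2, e7i_claim_2357 R hL hC⟩
  · exact ⟨87, [3, 4, 2, 1], [63, 75, 80, 83], [(66, 70), (73, 74), (78, 79), (84, 87)], e7iP2357, e7iL2357, e7i_ok_23457_3, e7i_claim_2357 R hL hC⟩
  · exact ⟨87, [3, 2, 1, 3], [63, 73, 78, 87], [(69, 70), (74, 75), (79, 80), (83, 84)], e7iP2357, e7iL2357, e7i_ok_23457_4, e7i_claim_2357 R hL hC⟩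
  · exact ⟨63, [], [66, 69, 70, 73, 74, 75, 78, 79, 80, 83, 84, 87], [], e7iP2345, e7iL2345, e7i_ok_23457_6, e7i_claim_2345 R hL hC⟩

theorem e7i_claim_234567 [Finite F] [CharP F 2] (R : BRel chevE7 F η) (hL : ChiLowS R) (hC : ChiCocS R) :
    ChiClaim R e7iP234567 e7iL234567 := by
  refine chi_claim e7i_hD R hL hC e7iP234567 [1, 2, 3, 4, 5, 6] e7iL234567 e7i_low_234567 (by decide +kernel) (by decide +kernel) ?_
  intro j hj
  simp only [List.mem_cons, List.not_mem_nil, or_false] at hj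
  rcases hj with rfl | rfl | rfl | rfl | rfl | rfl
  · exact ⟨92, [5, 6, 4, 5, 3, 4, 2, 3], [63, 64, 65, 66, 67, 68, 73, 87, 88, 89, 90, 91, 92], [(69, 79), (70, 80), (71, 81), (72, 82), (74, 83), (75, 84), (76, 85), (77, 86)], e7iP23457, e7iL23457, e7i_ok_234567_1, e7i_claim_23457 R hL hC⟩
  · exact ⟨92, [5, 6, 4, 5, 3, 4, 1, 3], [63, 64, 65, 66, 67, 68, 78, 87, 88, 89, 90, 91, 92], [(69, 74), (70, 75), (71, 76), (72, 77), (79, 83), (80, 84), (81, 85), (82, 86)], e7iP23457, e7iL23457, e7i_ok_234567_2, e7i_claim_23457 R hL hC⟩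
  · exact ⟨92, [5, 6, 4, 5, 3, 4, 2, 1], [63, 64, 65, 75, 76, 77, 80, 81, 82, 83, 90, 91, 92], [(66, 70), (67, 71), (68, 72), (73, 74), (78, 79), (84, 87), (85, 88), (86, 89)], e7iP23457, e7iL23457, e7i_ok_234567_3, e7i_claim_23457 R hL hC⟩
  · exact ⟨92, [5, 6, 4, 5, 3, 2, 1, 3], [63, 71, 72, 73, 76, 77, 78, 81, 82, 85, 86, 87, 92], [(64, 67), (65, 68), (69, 70), (74, 75), (79, 80), (83, 84), (88, 90), (89, 91)], e7iP23457, e7iL23457, e7i_ok_234567_4, e7i_claim_23457 R hL hC⟩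
  · exact ⟨92, [5, 6, 4, 3, 2, 1, 3, 4], [68, 69, 72, 73, 74, 77, 78, 79, 82, 83, 86, 89, 90], [(63, 65), (66, 67), (70, 71), (75, 76), (80, 81), (84, 85), (87, 88), (91, 92)], e7iP23457, e7iL23457, e7i_ok_234567_5, e7i_claim_23457 R hL hC⟩
  · exact ⟨92, [5, 4, 3, 2, 1, 3, 4, 5], [66, 69, 70, 73, 74, 75, 78, 79, 80, 83, 84, 87, 92], [(64, 65), (67, 68), (71, 72), (76, 77), (81, 82), (85, 86), (88, 89), (90, 91)], e7iP23457, e7iL23457, e7i_ok_234567_6, e7i_claim_23457 R hL hC⟩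

theorem e7i_claim_1234567 [Finite F] [CharP F 2] (R : BRel chevE7 F η) (hL : ChiLowS R) (hC : ChiCocS R) :
    ChiClaim R e7iP1234567 e7iL1234567 := by
  refine chi_claim e7i_hD R hL hC e7iP1234567 [0, 1, 2, 3, 4, 5, 6] e7iL1234567 e7i_low_1234567 (by decide +kernel) (by decide +kernel) ?_
  intro j hj
  simp only [List.mem_cons, List.not_mem_nil, or_false] at hj
  rcases hj with rfl | rfl | rfl | rfl | rfl | rfl | rfl
  · exact ⟨125, [0, 2, 3, 4, 5, 6, 1, 3, 4, 5, 2, 3, 4, 1, 3, 2], [63, 64, 65, 66, 67, 68, 69, 70, 71, 72, 78, 79, 80, 81, 82, 109, 110, 111, 112, 113, 114, 115, 116, 117, 118, 119, 120, 121, 122, 123], [(73, 94), (74, 95), (75, 96), (76, 97), (77, 98), (83, 99), (84, 100), (85, 101), (86, 102), (87, 103), (88, 104), (89, 105), (90, 106), (91, 107), (92, 108), (124, 125)], e7iP234567, e7iL234567, e7i_ok_1234567_0, e7i_claim_234567 R hL hC⟩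
  · exact ⟨125, [0, 2, 3, 4, 5, 6, 1, 3, 4, 5, 2, 3, 4, 0, 2, 3], [63, 64, 65, 66, 67, 68, 73, 87, 88, 89, 90, 91, 92, 93, 94, 103, 104, 105, 106, 107, 108, 109, 110, 111, 112, 113, 114, 123, 124, 125], [(69, 79), (70, 80), (71, 81), (72, 82), (74, 83), (75, 84), (76, 85), (77, 86), (95, 99), (96, 100), (97, 101), (98, 102), (115, 119), (116, 120), (117, 121), (118, 122)], e7iP234567, e7iL234567, e7i_ok_1234567_1, e7i_claim_234567 R hL hC⟩
  · exact ⟨125, [0, 2, 3, 4, 5, 6, 1, 3, 4, 5, 2, 3, 4, 1, 3, 0], [63, 64, 65, 66, 67, 68, 78, 87, 88, 89, 90, 91, 92, 95, 96, 97, 98, 99, 100, 101, 102, 115, 116, 117, 118, 119, 120, 121, 122, 125], [(69, 74), (70, 75), (71, 76), (72, 77), (79, 83), (80, 84), (81, 85), (82, 86), (93, 94), (103, 109), (104, 110), (105, 111), (106, 112), (107, 113), (108, 114), (123, 124)], e7iP234567, e7iL234567, e7i_ok_1234567_2, e7i_claim_234567 R hL hC⟩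
  · exact ⟨125, [0, 2, 3, 4, 5, 6, 1, 3, 4, 5, 2, 3, 4, 0, 2, 1], [63, 64, 65, 75, 76, 77, 80, 81, 82, 83, 90, 91, 92, 93, 96, 97, 98, 99, 106, 107, 108, 109, 110, 111, 118, 119, 120, 121, 124, 125], [(66, 70), (67, 71), (68, 72), (73, 74), (78, 79), (84, 87), (85, 88), (86, 89), (94, 95), (100, 103), (101, 104), (102, 105), (112, 115), (113, 116), (114, 117), (122, 123)], e7iP234567, e7iL234567, e7i_ok_1234567_3, e7i_claim_234567 R hL hC⟩
  · exact ⟨125, [0, 2, 3, 4, 5, 6, 1, 3, 4, 5, 2, 3, 0, 2, 1, 3], [63, 71, 72, 73, 76, 77, 78, 81, 82, 85, 86, 87, 92, 93, 94, 97, 98, 101, 102, 103, 108, 109, 114, 115, 116, 119, 120, 123, 124, 125], [(64, 67), (65, 68), (69, 70), (74, 75), (79, 80), (83, 84), (88, 90), (89, 91), (95, 96), (99, 100), (104, 106), (105, 107), (110, 112), (111, 113), (117, 118), (121, 122)], e7iP234567, e7iL234567, e7i_ok_1234567_4, e7i_claim_234567 R hL hC⟩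
  · exact ⟨125, [0, 2, 3, 4, 5, 6, 1, 3, 4, 2, 3, 0, 2, 1, 3, 4], [68, 69, 72, 73, 74, 77, 78, 79, 82, 83, 86, 89, 90, 93, 94, 95, 98, 99, 102, 105, 106, 111, 112, 115, 118, 119, 122, 123, 124, 125], [(63, 65), (66, 67), (70, 71), (75, 76), (80, 81), (84, 85), (87, 88), (91, 92), (96, 97), (100, 101), (103, 104), (107, 108), (109, 110), (113, 114), (116, 117), (120, 121)], e7iP234567, e7iL234567, e7i_ok_1234567_5, e7i_claim_234567 R hL hC⟩
  · exact ⟨125, [0, 2, 3, 4, 5, 1, 3, 4, 2, 3, 0, 2, 1, 3, 4, 5], [66, 69, 70, 73, 74, 75, 78, 79, 80, 83, 84, 87, 92, 93, 94, 95, 96, 99, 100, 103, 108, 109, 114, 117, 118, 121, 122, 123, 124, 125], [(64, 65), (67, 68), (71, 72), (76, 77), (81, 82), (85, 86), (88, 89), (90, 91), (97, 98), (101, 102), (104, 105), (106, 107), (110, 111), (112, 113), (115, 116), (119, 120)], e7iP234567, e7iL234567, e7i_ok_1234567_6, e7i_claim_234567 R hL hC⟩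

end E7IRec

end Cfsg.Agent.Helper81
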