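/-
helper81: S2181 (`E₇(q)`, `q` even, five classes of involutions) - the assembly: the Sylow step, the orders of
the five representatives, their non-conjugacy (ranks of `y - 1` on the adjoint module: 34, 52, 53, 62, 63) and
the count of the classes.
-/
import Cfsg.Agent.Helper81.E7IRec
import Cfsg.Agent.Helper81.E7IFus
import Cfsg.Agent.Helper81.E7IRankA
import Cfsg.Agent.Helper81.E7IRankB
import Cfsg.Agent.Helper81.E7IRankC
import Cfsg.Agent.Helper81.E7IRankD
import Cfsg.Agent.Helper18.FAut5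
import Cfsg.Agent.Helper18.RSubCoc

set_option autoImplicit false
set_option linter.unusedSectionVars false
set_option linter.unusedVariables false
set_option maxRecDepth 100000

namespace Cfsg.Agent.Helper81

open Cfsg Cfsg.Lie Cfsg.Agent.Helper36 Cfsg.Agent.Helper17 Cfsg.Agent.Helper18 Cfsg.Agent.Helper38

section E7IMain

variable {F : Type*} [Field F] {η : ℕ → ℕ → ℤ}

/-- An involution of the group is conjugate into `U` (the index of `U` is odd). -/
theorem e7i_sylow [Fintype F] [CharP F 2] {g : GL chevE7.Idx F} (hg : g ∈ chevE7.group F)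
    (hg2 : g * g = 1) : ∃ x ∈ chevE7.group F, x⁻¹ * g * x ∈ chevE7.posUnipotent F := by
  classical
  have hodd := (Cfsg.Agent.Helper18.char_two_data (F := F) (D := chevE7) (by simp)).2.2.1
  let g' : ↥(chevE7.group F) := ⟨g, hg⟩
  have hg'2 : g' ^ 2 = 1 := Subtype.ext (by rw [pow_two]; exact hg2)
  haveI : Fintype (↥(chevE7.group F) ⧸ (chevE7.posUnipotent F).subgroupOf (chevE7.group F)) :=
    Fintype.ofFinite _
  have hc : ¬ 2 ∣ Fintype.card
      (↥(chevE7.group F) ⧸ (chevE7.posUnipotent F).subgroupOf (chevE7.group F)) := by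
    rw [← Nat.card_eq_fintype_card, ← Subgroup.index_eq_card]
    exact hodd
  haveI : Fact (Nat.Prime 2) := ⟨Nat.prime_two⟩
  obtain ⟨q, hq⟩ := Equiv.Perm.exists_fixed_point_of_prime (p := 2) (n := 1) hc
    (σ := MulAction.toPermHom ↥(chevE7.group F)
      (↥(chevE7.group F) ⧸ (chevE7.posUnipotent F).subgroupOf (chevE7.group F)) g')
    (by rw [pow_one, ← map_pow, hg'2, map_one])
  induction q using Quotient.inductionOn' with
  | h x =>
    have hq' : (QuotientGroup.mk (g' * x) :
        ↥(chevE7.group F) ⧸ (chevE7.posUnipotent F).subgroupOf (chevE7.group F)) =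
        QuotientGroup.mk x := hq
    rw [QuotientGroup.eq] at hq'
    refine ⟨x, x.2, ?_⟩
    have h1 := inv_mem hq'
    have e : ((g' * x)⁻¹ * x)⁻¹ = x⁻¹ * g' * x := by group
    rw [e] at h1
    exact h1

variable (F) in
/-- The rank of `y - 1` on the adjoint module, `y` the word of `l` with all parameters `1`. -/
noncomputable def e7rk (l : List ℕ) : ℕ :=
  (chevE7.wordMat F (l.map fun r => (r, (1 : F))) - 1).rank

theorem e7i_rk_vals [CharP F 2] : e7rk F [125] = 34 ∧ e7rk F [125, 92] = 52 ∧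
    e7rk F [125, 92, 63] = 53 ∧ e7rk F [125, 92, 87] = 62 ∧ 63 ≤ e7rk F [125, 92, 87, 63] :=
  ⟨le_antisymm e7r_ub1 e7r_lb1, le_antisymm e7r_ub2 e7r_lb2, le_antisymm e7r_ub3 e7r_lb3,
    le_antisymm e7r_ub4 e7r_lb4, e7r_lb5⟩

/-- The five representatives have pairwise different ranks. -/
theorem e7i_rk_inj [CharP F 2] {y y' : List ℕ} (hy : y ∈ e7Reps) (hy' : y' ∈ e7Reps)
    (h : e7rk F y = e7rk F y') : y = y' := by
  obtain ⟨h1, h2, h3, h4, h5⟩ := e7i_rk_vals (F := F)
  unfold e7Reps at hy hy'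
  simp only [List.mem_cons, List.not_mem_nil, or_false] at hy hy'
  rcases hy with rfl | rfl | rfl | rfl | rfl <;> rcases hy' with rfl | rfl | rfl | rfl | rfl <;>
    first
    | rfl
    | (exfalso; omega)

theorem e7i_rk_pos [CharP F 2] {y : List ℕ} (hy : y ∈ e7Reps) : 0 < e7rk F y := by
  obtain ⟨h1, h2, h3, h4, h5⟩ := e7i_rk_vals (F := F)
  unfold e7Reps at hy
  simp only [List.mem_cons, List.not_mem_nil, or_false] at hy
  rcases hy with rfl | rfl | rfl | rfl | rfl <;> omega

theorem e7i_sq_chk : ∀ y ∈ e7Reps, (goodWord chevE7 (oneW (y ++ y)) && goodWord chevE7 (oneW []) &&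
    Cfsg.Agent.Helper18.allBelow (chevE7.rank + chevE7.nroots)
      (fun k => allEvenF (fsub (fapplyW chevE7 (oneW (y ++ y)) [(k, 1, 0)])
        (fapplyW chevE7 (oneW []) [(k, 1, 0)])))) = true := by
  decide +kernel

/-- The word of a list, with all parameters `1`. -/
noncomputable def e7w (R : BRel chevE7 F η) (l : List ℕ) : GL chevE7.Idx F :=
  wordGL R.xadd (l.map fun r => (r, (1 : F)))

theorem e7w_rank (R : BRel chevE7 F η) (l : List ℕ) :
    (((e7w R l : GL chevE7.Idx F) : Matrix chevE7.Idx chevE7.Idx F) - 1).rank = e7rk F l := by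
  unfold e7w e7rk
  rw [wordGL_val]

/-- The five representatives have order two. -/
theorem e7i_order [CharP F 2] (R : BRel chevE7 F η) {y : List ℕ} (hy : y ∈ e7Reps) :
    orderOf (e7w R y) = 2 := by
  haveI : Fact (Nat.Prime 2) := ⟨Nat.prime_two⟩
  apply orderOf_eq_prime
  · rw [pow_two]
    unfold e7w
    rw [← wordGL_append, ← List.map_append]
    apply Units.ext
    rw [wordGL_val, Units.val_one, wordMat_one_eq chevE7 (y ++ y) [] (e7i_sq_chk y hy)]
    rfl
  · intro h
    have h1 := e7w_rank R y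
    rw [h, Units.val_one, sub_self, Matrix.rank_zero] at h1
    have h2 := e7i_rk_pos (F := F) hy
    omega

/-- Conjugate representatives are equal. -/
theorem e7i_noconj [CharP F 2] (R : BRel chevE7 F η) {y y' : List ℕ} (hy : y ∈ e7Reps)
    (hy' : y' ∈ e7Reps) {h : GL chevE7.Idx F} (e : h * e7w R y * h⁻¹ = e7w R y') : y = y' := by
  apply e7i_rk_inj (F := F) hy hy'
  rw [← e7w_rank R y, ← e7w_rank R y']
  exact chr_rank_conj h _ _ e

/-- The group `E₇(q)`, `q` even, has exactly five classes of involutions. -/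
theorem e7i_count [Fintype F] [CharP F 2] :
    (ConjClasses.mk '' {g : ↥(chevE7.group F) | orderOf g = 2}).ncard = 5 := by
  have hD7 := e7i_hD
  have R := Cfsg.Agent.Helper36.bRel_of_mem (F := F) hD7
  have hW := Cfsg.Agent.Helper17.wtFacts_of_wtOK Cfsg.Agent.Helper17.chainPackOK_E7
    Cfsg.Agent.Helper17.wtOK_E7
  have hE : Cfsg.Agent.Helper17.RootElts chevE7 F := Cfsg.Agent.Helper17.rootElts_of_mem hD7
  have hL : ChiLowS R := chi_lowS R hW hE
  have hC : ChiCocS R := chi_cocS R hW hE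
  have hcl := e7i_claim_1234567 R hL hC
  have hP : chevE7.posRoots = e7iP1234567 := by decide +kernel
  have hinv : ∀ g ∈ chevE7.group F, orderOf g = 2 → ∃ h ∈ chevE7.group F, ∃ y ∈ e7Reps,
      h * g * h⁻¹ = e7w R y := fun g hg hord =>
    chi_invol R (fun g hg hg2 => e7i_sylow hg hg2) e7iP1234567 hP e7iL1234567 hcl e7Reps
      (e7i_fusion R) hg hord
  let Y : List ℕ → ↥(chevE7.group F) := fun y =>
    ⟨e7w R y, Cfsg.Agent.Helper36.wordGL_mem_group R.xadd _⟩
  have hset : ConjClasses.mk '' {g : ↥(chevE7.group F) | orderOf g = 2} =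
      (fun y => ConjClasses.mk (Y y)) '' (↑e7Reps.toFinset : Set (List ℕ)) := by
    ext c
    constructor
    · rintro ⟨g, hg, rfl⟩
      have hg' : orderOf (g : GL chevE7.Idx F) = 2 := by
        rw [Subgroup.orderOf_coe]; exact hg
      obtain ⟨h, hh, y, hy, e⟩ := hinv g.1 g.2 hg'
      refine ⟨y, by simpa using hy, ?_⟩
      show ConjClasses.mk (Y y) = ConjClasses.mk g
      rw [ConjClasses.mk_eq_mk_iff_isConj, isConj_comm, isConj_iff]
      exact ⟨⟨h, hh⟩, Subtype.ext e⟩
    · rintro ⟨y, hy, rfl⟩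
      have hy' : y ∈ e7Reps := by simpa using hy
      refine ⟨Y y, ?_, rfl⟩
      show orderOf (Y y) = 2
      rw [← Subgroup.orderOf_coe]
      exact e7i_order R hy'
  have hinj : Set.InjOn (fun y => ConjClasses.mk (Y y)) (↑e7Reps.toFinset : Set (List ℕ)) := by
    intro y hy y' hy' e
    have hy1 : y ∈ e7Reps := by simpa using hy
    have hy1' : y' ∈ e7Reps := by simpa using hy'
    have e' : ConjClasses.mk (Y y) = ConjClasses.mk (Y y') := e
    rw [ConjClasses.mk_eq_mk_iff_isConj, isConj_iff] at e'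
    obtain ⟨c, hc⟩ := e'
    have hc' : (c : GL chevE7.Idx F) * e7w R y * (c : GL chevE7.Idx F)⁻¹ = e7w R y' :=
      congrArg Subtype.val hc
    exact e7i_noconj R hy1 hy1' hc'
  rw [hset, hinj.ncard_image, Set.ncard_coe_finset]
  decide +kernel

end E7IMain

end Cfsg.Agent.Helper81
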