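/-
helper81: S2181 (`E₇(q)`, `q` even, five classes of involutions) - the table checks of the Levi recursion, part T4
(generated; the tables are checked by the kernel).
-/
import Cfsg.Agent.Helper81.E7IDefs

set_option autoImplicit false
set_option linter.unusedSectionVars false
set_option linter.unusedVariables false
set_option maxRecDepth 100000

namespace Cfsg.Agent.Helper81

open Cfsg Cfsg.Lie Cfsg.Agent.Helper36 Cfsg.Agent.Helper17 Cfsg.Agent.Helper18 Cfsg.Agent.Helper18.RSub
  Cfsg.Agent.Helper38


theorem e7i_ok_1234567_4 : ChiStepOK chevE7 e7iP1234567 4 125 [0, 2, 3, 4, 5, 6, 1, 3, 4, 5, 2, 3, 0, 2, 1, 3] [63, 71, 72, 73, 76, 77, 78, 81, 82, 85, 86, 87, 92, 93, 94, 97, 98, 101, 102, 103, 108, 109, 114, 115, 116, 119, 120, 123, 124, 125] [(64, 67), (65, 68), (69, 70), (74, 75), (79, 80), (83, 84), (88, 90), (89, 91), (95, 96), (99, 100), (104, 106), (105, 107), (110, 112), (111, 113), (117, 118), (121, 122)] e7iP234567 e7iL234567 e7iL1234567 := by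
  decide +kernel

end Cfsg.Agent.Helper81
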