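import Cfsg.Agent.Helper81.O5040E3Core
import Cfsg.Agent.Helper8.O5040Tools
import Cfsg.Agent.Helper8.O5040INT2
import Cfsg.Agent.Helper19.O5040INV

/-!
# Piece E3 of the CALL for S0978 (order 5040): the case `|N(P) : C(P)| = 3` with an involution in
`C(P)`, `P` a Sylow `7`-subgroup
-/

set_option autoImplicit false
set_option linter.style.haveILetI false
open Cfsg
open scoped ComplexConjugate

universe u

namespace Cfsg.Agent.Helper81

/-- PIECE E3. -/
theorem o5040_e3 {G : Type u} [Group G] [Finite G] [IsSimpleGroup G]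
    (hG : Nat.card G = 5040) (P : Sylow 7 G)
    (hq : (Subgroup.centralizer ((P : Subgroup G) : Set G)).relIndex
        (Subgroup.normalizer ((P : Subgroup G) : Set G)) = 3)
    (c : G) (hc : orderOf c = 2) (hcP : c ∈ Subgroup.centralizer ((P : Subgroup G) : Set G)) :
    False :=
  o5040_e3_core hG P hq c hc hcP
    (fun χ x c hxc hx hc s h =>
      Helper8.o5040_int2 χ 7 (by norm_num) (by norm_num) x c hxc hx hc s h)
    (fun hna χ c hcc k h => Helper19.o5040_invol_mod4 hna χ c hcc k h)
    (fun χ hχ c h => Helper8.o5040_ker χ hχ c h)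

end Cfsg.Agent.Helper81
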