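import Cfsg.Agent.Helper9.BRDefs
import Cfsg.Agent.Helper9.BrauerP
import Cfsg.Agent.Helper9.OrdTools2
import Cfsg.Agent.Helper8.Ord459B
import Cfsg.Agent.Helper75.BRNF
import Cfsg.Agent.Helper78.Counting
import Cfsg.Agent.Helper74.TwoP4

/-!
# Piece E3 of the CALL for S0978 (order 5040): the case `|N(P) : C(P)| = 3` with an involution in
`C(P)`, `P` a Sylow `7`-subgroup -- core, with the tools INT2 / INV / KER as hypotheses
-/

set_option autoImplicit false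
set_option linter.style.haveILetI false
set_option maxHeartbeats 1000000
open Cfsg
open scoped ComplexConjugate

universe u

namespace Cfsg.Agent.Helper81

theorem e3_arith1 : ∀ d ≤ 70, d ∣ 5040 → d % 7 = 1 → 2 ≤ d → d = 8 ∨ d = 15 ∨ d = 36 := by
  decide +kernel

theorem e3_arith2 : ∀ d ≤ 70, d ∣ 5040 → d % 7 = 6 → d = 6 ∨ d = 20 ∨ d = 48 := by
  decide +kernel

theorem e3_div (t : ℕ) (ht : t ∣ 5040) :
    t ≠ 31 ∧ t ≠ 52 ∧ t ≠ 73 ∧ t ≠ 17 ∧ t ≠ 11 ∧ t ≠ 32 ∧ t ≠ 39 ∧ t ≠ 67 ∧ t ≠ 95 := by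
  refine ⟨?_, ?_, ?_, ?_, ?_, ?_, ?_, ?_, ?_⟩ <;> (rintro rfl; norm_num at ht)

theorem e3_no_theta (ε : ℤ) (hε : ε = 1 ∨ ε = -1) (dθ : ℕ) (hdvd : dθ ∣ 5040) (S : ℤ)
    (hS : ε * (dθ : ℤ) = S)
    (hbad : S = 31 ∨ S = 52 ∨ S = 73 ∨ S = 17 ∨ S = -11 ∨ S = -32 ∨ S = -39 ∨ S = -67 ∨
      S = -95) : False := by
  obtain ⟨h1, h2, h3, h4, h5, h6, h7, h8, h9⟩ := e3_div dθ hdvd
  rcases hε with rfl | rfl <;> omega

/-- the value of a non-exceptional character at the involution `c` -/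
theorem e3_val {G : Type u} [Group G] [Finite G]
    (hINT2 : ∀ (χ : Cfsg.IrrCharacter G) (x c : G), x * c = c * x → orderOf x = 7 →
      orderOf c = 2 → ∀ s : ℂ, (∀ a b : ℕ, ¬ 7 ∣ a → (χ : G → ℂ) (x ^ a * c ^ b) = s) →
      ∃ n : ℕ, (χ : G → ℂ) 1 + (χ : G → ℂ) c + 2 * (((7 : ℕ) : ℂ) - 1) * s
        = 2 * ((7 : ℕ) : ℂ) * (n : ℂ))
    (hINV : ∀ (χ : Cfsg.IrrCharacter G) (c : G), c * c = 1 → ∀ k : ℕ,
      (χ : G → ℂ) c = (χ : G → ℂ) 1 - 2 * (k : ℂ) → Even k)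
    (hKER : ∀ χ : Cfsg.IrrCharacter G, χ ≠ Helper81.trivIrr G → ∀ c : G,
      (χ : G → ℂ) c = (χ : G → ℂ) 1 → c = 1)
    (χ : Cfsg.IrrCharacter G) (hχ : χ ≠ Helper81.trivIrr G)
    (x c : G) (hxc : x * c = c * x) (hx : orderOf x = 7) (hc : orderOf c = 2) (s : ℤ) (d : ℕ)
    (hd : Cfsg.charDegree (χ : G → ℂ) = d)
    (h : ∀ a b : ℕ, ¬ 7 ∣ a → (χ : G → ℂ) (x ^ a * c ^ b) = (s : ℂ)) :
    ∃ n : ℕ, (χ : G → ℂ) c = ((14 * (n : ℤ) - d - 12 * s : ℤ) : ℂ) ∧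
      |14 * (n : ℤ) - d - 12 * s| ≤ d ∧ 14 * (n : ℤ) - d - 12 * s ≠ d ∧
      ∃ k : ℕ, (k : ℤ) = d + 6 * s - 7 * n ∧ Even k := by
  obtain ⟨n, hn⟩ := hINT2 χ x c hxc hx hc (s : ℂ) h
  have hχ1 : (χ : G → ℂ) 1 = (d : ℂ) := by rw [Helper81.irr_one_eq_charDegree, hd]
  rw [hχ1] at hn
  have hχc : (χ : G → ℂ) c = ((14 * (n : ℤ) - d - 12 * s : ℤ) : ℂ) := by
    push_cast
    push_cast at hn
    linear_combination hn
  have hnorm := Helper80.isCharacter_norm_le (Helper79.irr_isCharacter χ) c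
  rw [hd, hχc] at hnorm
  have habs : |14 * (n : ℤ) - d - 12 * s| ≤ d := by
    have h1 : ‖(((14 * (n : ℤ) - d - 12 * s : ℤ) : ℝ) : ℂ)‖ ≤ (d : ℝ) := by
      have : (((14 * (n : ℤ) - d - 12 * s : ℤ) : ℝ) : ℂ)
          = ((14 * (n : ℤ) - d - 12 * s : ℤ) : ℂ) := by
        push_cast; ring
      rw [this]
      exact hnorm
    rw [Complex.norm_real, Real.norm_eq_abs] at h1
    exact_mod_cast h1
  have hne : 14 * (n : ℤ) - d - 12 * s ≠ d := by
    intro heq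
    have h1 : c = 1 := hKER χ hχ c (by rw [hχc, hχ1, heq]; push_cast; rfl)
    rw [h1, orderOf_one] at hc
    omega
  refine ⟨n, hχc, habs, hne, ?_⟩
  have hk0 : 0 ≤ (d : ℤ) + 6 * s - 7 * n := by
    have := (abs_le.mp habs).2
    omega
  refine ⟨((d : ℤ) + 6 * s - 7 * n).toNat, Int.toNat_of_nonneg hk0, ?_⟩
  have hcc : c * c = 1 := by rw [← pow_two, ← hc]; exact pow_orderOf_eq_one c
  apply hINV χ c hcc
  have hcast : ((((d : ℤ) + 6 * s - 7 * n).toNat : ℕ) : ℂ)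
      = (((d : ℤ) + 6 * s - 7 * n : ℤ) : ℂ) := by
    rw [← Int.cast_natCast, Int.toNat_of_nonneg hk0]
  rw [hχc, hχ1, hcast]
  push_cast
  ring

/-- PIECE E3, with the tools as hypotheses. -/
theorem o5040_e3_core {G : Type u} [Group G] [Finite G] [IsSimpleGroup G]
    (hG : Nat.card G = 5040) (P : Sylow 7 G)
    (hq : (Subgroup.centralizer ((P : Subgroup G) : Set G)).relIndex
        (Subgroup.normalizer ((P : Subgroup G) : Set G)) = 3)
    (c : G) (hc : orderOf c = 2) (hcP : c ∈ Subgroup.centralizer ((P : Subgroup G) : Set G))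
    (hINT2 : ∀ (χ : Cfsg.IrrCharacter G) (x c : G), x * c = c * x → orderOf x = 7 →
      orderOf c = 2 → ∀ s : ℂ, (∀ a b : ℕ, ¬ 7 ∣ a → (χ : G → ℂ) (x ^ a * c ^ b) = s) →
      ∃ n : ℕ, (χ : G → ℂ) 1 + (χ : G → ℂ) c + 2 * (((7 : ℕ) : ℂ) - 1) * s
        = 2 * ((7 : ℕ) : ℂ) * (n : ℂ))
    (hINV : (∃ a b : G, a * b ≠ b * a) → ∀ (χ : Cfsg.IrrCharacter G) (c : G), c * c = 1 →
      ∀ k : ℕ, (χ : G → ℂ) c = (χ : G → ℂ) 1 - 2 * (k : ℂ) → Even k)
    (hKER : ∀ χ : Cfsg.IrrCharacter G, χ ≠ Helper81.trivIrr G → ∀ c : G,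
      (χ : G → ℂ) c = (χ : G → ℂ) 1 → c = 1) : False := by
  classical
  haveI : Fintype G := Fintype.ofFinite G
  haveI : Fact (Nat.Prime 7) := ⟨by norm_num⟩
  have hP : Nat.card (P : Subgroup G) = 7 := by
    have := Helper9.OrdTools.sylow_card (p := 7) 1 720 (hG.trans (by norm_num)) (by norm_num) P
    simpa using this
  have hna : ∃ a b : G, a * b ≠ b * a :=
    Helper8.Ord459.exists_not_comm' P (by rw [hP]; norm_num) (by rw [hP, hG]; norm_num)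
  obtain ⟨M, hM⟩ := Helper78.exists_isPModular 7 (by norm_num)
  obtain ⟨T⟩ := Helper75.br_tab_exists 7 M hM (by norm_num) P hP 3 hq (by norm_num)
  -- a generator of `P`
  obtain ⟨x, hxP, hx1⟩ : ∃ x : G, x ∈ (P : Subgroup G) ∧ x ≠ 1 := by
    by_contra hcon
    push Not at hcon
    have hbot : (P : Subgroup G) = ⊥ := (Subgroup.eq_bot_iff_forall _).mpr hcon
    rw [hbot, Subgroup.card_bot] at hP
    omega
  have hxo : orderOf x = 7 := by
    have h1 : orderOf x ∣ 7 := by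
      have h2 := orderOf_dvd_natCard (⟨x, hxP⟩ : (P : Subgroup G))
      rwa [Subgroup.orderOf_mk, hP] at h2
    rcases (Nat.dvd_prime (by norm_num : Nat.Prime 7)).mp h1 with h | h
    · exact absurd (orderOf_eq_one_iff.mp h) hx1
    · exact h
  have hxc : x * c = c * x := (Subgroup.mem_centralizer_iff.mp hcP) x hxP
  have hc7 : ∀ b : ℕ, ¬ 7 ∣ orderOf (c ^ b) := by
    intro b h7
    have h1 : orderOf (c ^ b) ∣ orderOf c := orderOf_pow_dvd b
    have h2 := h7.trans h1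
    rw [hc] at h2
    omega
  have hxa : ∀ a : ℕ, ¬ 7 ∣ a → x ^ a ≠ 1 := by
    intro a ha h
    apply ha
    rw [← hxo]
    exact orderOf_dvd_of_pow_eq_one h
  -- degrees
  have hdeg : ∀ χ : Cfsg.IrrCharacter G, χ ≠ Helper81.trivIrr G →
      Cfsg.charDegree (χ : G → ℂ) ∣ 5040 ∧ 2 ≤ Cfsg.charDegree (χ : G → ℂ) ∧
        Cfsg.charDegree (χ : G → ℂ) ≤ 70 := by
    intro χ hχ
    refine ⟨hG ▸ Helper79.irr_charDegree_dvd_card χ,
      Helper9.BrauerP.two_le_charDegree hna χ hχ, ?_⟩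
    have h1 := Helper74.tp_degree_sq_le χ
    have h2 : (Subgroup.center G).index ≤ 5040 := by
      rw [← hG]
      exact Nat.le_of_dvd Nat.card_pos (Subgroup.index_dvd_card _)
    nlinarith
  -- the characters of `X1`
  have hX1 : ∀ χ ∈ T.X1, (Cfsg.charDegree (χ : G → ℂ) = 15 ∧ (χ : G → ℂ) c = -13) ∨
      Cfsg.charDegree (χ : G → ℂ) = 36 := by
    intro χ hχ
    have hne : χ ≠ Helper81.trivIrr G := fun h => T.h1X1 (h ▸ hχ)
    obtain ⟨hdvd, h2, h70⟩ := hdeg χ hne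
    obtain ⟨hmod, hval⟩ := T.hX1 χ hχ
    have hmod' : Cfsg.charDegree (χ : G → ℂ) % 7 = 1 := by
      unfold Int.ModEq at hmod
      omega
    obtain ⟨n, hχc, habs, hned, k, hk, hkev⟩ := e3_val hINT2 (hINV hna) hKER χ hne x c hxc hxo
      hc 1 _ rfl (fun a b ha => by
        rw [hval (x ^ a) (Subgroup.pow_mem _ hxP a) (hxa a ha) (c ^ b)
          (Subgroup.pow_mem _ hcP b) (hc7 b)]
        norm_num)
    obtain ⟨k', rfl⟩ := hkev
    rw [abs_le] at habs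
    rcases e3_arith1 _ h70 hdvd hmod' h2 with h | h | h
    · exfalso
      rw [h] at habs hned hk
      push_cast at habs hned hk
      omega
    · left
      refine ⟨h, ?_⟩
      rw [h] at habs hned hk
      have hn1 : n = 1 := by
        push_cast at habs hned hk
        omega
      rw [hχc, h, hn1]
      norm_num
    · right
      exact h
  -- the characters of `X2`
  have hX2 : ∀ χ ∈ T.X2, (Cfsg.charDegree (χ : G → ℂ) = 20 ∧ (χ : G → ℂ) c = -8) ∨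
      Cfsg.charDegree (χ : G → ℂ) = 48 := by
    intro χ hχ
    have hne : χ ≠ Helper81.trivIrr G := fun h => T.h1X2 (h ▸ hχ)
    obtain ⟨hdvd, h2, h70⟩ := hdeg χ hne
    obtain ⟨hmod, hval⟩ := T.hX2 χ hχ
    have hmod' : Cfsg.charDegree (χ : G → ℂ) % 7 = 6 := by
      unfold Int.ModEq at hmod
      omega
    obtain ⟨n, hχc, habs, hned, k, hk, hkev⟩ := e3_val hINT2 (hINV hna) hKER χ hne x c hxc hxo
      hc (-1) _ rfl (fun a b ha => by
        rw [hval (x ^ a) (Subgroup.pow_mem _ hxP a) (hxa a ha) (c ^ b)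
          (Subgroup.pow_mem _ hcP b) (hc7 b)]
        norm_num)
    obtain ⟨k', rfl⟩ := hkev
    rw [abs_le] at habs
    rcases e3_arith2 _ h70 hdvd hmod' with h | h | h
    · exfalso
      rw [h] at habs hned hk
      push_cast at habs hned hk
      omega
    · left
      refine ⟨h, ?_⟩
      rw [h] at habs hned hk
      have hn1 : n = 0 := by
        push_cast at habs hned hk
        omega
      rw [hχc, h, hn1]
      norm_num
    · right
      exact h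
  -- an exceptional character
  have hYc : T.Y.card = 2 := T.hcardY
  obtain ⟨θ, hθ⟩ : T.Y.Nonempty := Finset.card_pos.mp (by rw [hYc]; norm_num)
  have hθne : θ ≠ Helper81.trivIrr G := fun h => T.h1Y (h ▸ hθ)
  obtain ⟨hθdvd, -, -⟩ := hdeg θ hθne
  have hrel1 := T.hrel θ hθ 1 (by rw [orderOf_one]; norm_num)
  have hrelc := T.hrel θ hθ c (by rw [hc]; norm_num)
  simp only [Helper81.irr_one_eq_charDegree] at hrel1
  have hcard : T.X1.card + T.X2.card = 2 := by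
    have := T.hcard
    omega
  have hcases : (T.X1.card = 2 ∧ T.X2.card = 0) ∨ (T.X1.card = 1 ∧ T.X2.card = 1) ∨
      (T.X1.card = 0 ∧ T.X2.card = 2) := by omega
  rcases hcases with ⟨hc1, hc2⟩ | ⟨hc1, hc2⟩ | ⟨hc1, hc2⟩
  · obtain ⟨χ1, χ2, h12, hX1eq⟩ := Finset.card_eq_two.mp hc1
    have hX2eq : T.X2 = ∅ := Finset.card_eq_zero.mp hc2
    have hm1 : χ1 ∈ T.X1 := by rw [hX1eq]; simp
    have hm2 : χ2 ∈ T.X1 := by rw [hX1eq]; simp
    rw [hX1eq, hX2eq, Finset.sum_pair h12, Finset.sum_empty] at hrel1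
    have hZ : T.ε * (Cfsg.charDegree (θ : G → ℂ) : ℤ) = 1 + ((Cfsg.charDegree (χ1 : G → ℂ) : ℤ)
        + (Cfsg.charDegree (χ2 : G → ℂ) : ℤ)) - 0 := by
      exact_mod_cast hrel1
    refine e3_no_theta T.ε T.hε _ hθdvd _ hZ ?_
    rcases hX1 χ1 hm1 with ⟨h1, -⟩ | h1 <;> rcases hX1 χ2 hm2 with ⟨h2, -⟩ | h2 <;>
      rw [h1, h2] <;> norm_num
  · obtain ⟨χ1, hX1eq⟩ := Finset.card_eq_one.mp hc1
    obtain ⟨χ2, hX2eq⟩ := Finset.card_eq_one.mp hc2
    have hm1 : χ1 ∈ T.X1 := by rw [hX1eq]; simp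
    have hm2 : χ2 ∈ T.X2 := by rw [hX2eq]; simp
    rw [hX1eq, hX2eq, Finset.sum_singleton, Finset.sum_singleton] at hrel1 hrelc
    have hZ : T.ε * (Cfsg.charDegree (θ : G → ℂ) : ℤ) = 1 + (Cfsg.charDegree (χ1 : G → ℂ) : ℤ)
        - (Cfsg.charDegree (χ2 : G → ℂ) : ℤ) := by
      exact_mod_cast hrel1
    rcases hX1 χ1 hm1 with ⟨h1, h1c⟩ | h1 <;> rcases hX2 χ2 hm2 with ⟨h2, h2c⟩ | h2
    · -- the pattern (15; 20)
      rw [h1, h2] at hZ
      have hε : T.ε = -1 ∧ Cfsg.charDegree (θ : G → ℂ) = 4 := by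
        rcases T.hε with h | h <;> rw [h] at hZ <;> constructor <;> omega
      rw [h1c, h2c, hε.1] at hrelc
      have hθc : (θ : G → ℂ) c = (θ : G → ℂ) 1 := by
        rw [Helper81.irr_one_eq_charDegree, hε.2]
        push_cast at hrelc ⊢
        linear_combination -hrelc
      have hc1' : c = 1 := hKER θ hθne c hθc
      rw [hc1', orderOf_one] at hc
      omega
    · refine e3_no_theta T.ε T.hε _ hθdvd _ hZ ?_
      rw [h1, h2]; norm_num
    · refine e3_no_theta T.ε T.hε _ hθdvd _ hZ ?_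
      rw [h1, h2]; norm_num
    · refine e3_no_theta T.ε T.hε _ hθdvd _ hZ ?_
      rw [h1, h2]; norm_num
  · obtain ⟨χ1, χ2, h12, hX2eq⟩ := Finset.card_eq_two.mp hc2
    have hX1eq : T.X1 = ∅ := Finset.card_eq_zero.mp hc1
    have hm1 : χ1 ∈ T.X2 := by rw [hX2eq]; simp
    have hm2 : χ2 ∈ T.X2 := by rw [hX2eq]; simp
    rw [hX1eq, hX2eq, Finset.sum_pair h12, Finset.sum_empty] at hrel1
    have hZ : T.ε * (Cfsg.charDegree (θ : G → ℂ) : ℤ) = 1 + 0 -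
        ((Cfsg.charDegree (χ1 : G → ℂ) : ℤ) + (Cfsg.charDegree (χ2 : G → ℂ) : ℤ)) := by
      exact_mod_cast hrel1
    refine e3_no_theta T.ε T.hε _ hθdvd _ hZ ?_
    rcases hX2 χ1 hm1 with ⟨h1, -⟩ | h1 <;> rcases hX2 χ2 hm2 with ⟨h2, -⟩ | h2 <;>
      rw [h1, h2] <;> norm_num

end Cfsg.Agent.Helper81
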